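import Mathlib
import Cfsg.Agent.H28.IBr.Brauer
import Cfsg.Agent.H42.MaxIdeal
import Cfsg.Agent.H43.D1.ModP

/-!
A faithful group of order prime to `p` over the field of `p` elements has a faithful complex
character of the same degree.
-/

set_option autoImplicit false
set_option maxHeartbeats 800000

namespace Cfsg.Agent.H45.Trans

open Finset Cfsg.Agent.H28.IBr

section Idem

variable {K : Type*} [Field K] {V : Type*} [AddCommGroup V] [Module K V] [FiniteDimensional K V]
  {c ω : K} {m : ℕ}

theorem geom_zero {ζ : K} (h1 : ζ ≠ 1) (hm : ζ ^ m = 1) : ∑ t ∈ range m, ζ ^ t = 0 := by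
  rw [geom_sum_eq h1, hm, sub_self, zero_div]

theorem inv_root_pow (hω : IsPrimitiveRoot ω m) (hm : 0 < m) (a : ℕ) :
    (ω ^ (m - 1)) ^ a * ω ^ a = 1 := by
  rw [← mul_pow, ← pow_succ, Nat.sub_add_cancel hm, hω.pow_eq_one, one_pow]

theorem inv_root_ne_one (hω : IsPrimitiveRoot ω m) (hm : 0 < m) {a : ℕ} (ha0 : 0 < a)
    (ha : a < m) : (ω ^ (m - 1)) ^ a ≠ 1 := fun h => by
  have := inv_root_pow hω hm a
  rw [h, one_mul] at this
  exact hω.pow_ne_one_of_pos_of_lt ha0.ne' ha this

theorem inv_root_pow_m (hω : IsPrimitiveRoot ω m) (a : ℕ) : ((ω ^ (m - 1)) ^ a) ^ m = 1 := by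
  rw [← pow_mul, ← pow_mul, show (m - 1) * (a * m) = m * ((m - 1) * a) by ring, pow_mul,
    hω.pow_eq_one, one_pow]

theorem sum_eigen (hω : IsPrimitiveRoot ω m) (hc : (m : K) * c = 1) (hm : 0 < m)
    (y : Module.End K V) : ∑ l ∈ range m, eigen c ω m y l = 1 := by
  simp only [eigen]
  rw [sum_comm, sum_eq_single 0]
  · simp only [mul_zero, pow_zero, mul_one, sum_const, card_range]
    rw [← Nat.cast_smul_eq_nsmul K, smul_smul, hc, one_smul]
  · intro t ht ht0
    rw [← sum_smul, ← mul_sum]
    have : ∑ l ∈ range m, (ω ^ (m - 1)) ^ (l * t) = 0 := by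
      rw [sum_congr rfl fun l _ => by rw [mul_comm l t, pow_mul]]
      exact geom_zero (inv_root_ne_one hω hm (Nat.pos_of_ne_zero ht0) (mem_range.1 ht))
        (inv_root_pow_m hω t)
    rw [this, mul_zero, zero_smul]
  · intro h
    exact absurd (mem_range.2 hm) h

theorem mul_eigen (hω : IsPrimitiveRoot ω m) (hm : 0 < m) {y : Module.End K V} (hy : y ^ m = 1)
    (l : ℕ) : y * eigen c ω m y l = ω ^ l • eigen c ω m y l := by
  set w : K := (ω ^ (m - 1)) ^ l with hw
  have he : eigen c ω m y l = c • ∑ t ∈ range m, (w • y) ^ t := by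
    simp only [eigen, smul_sum]
    refine sum_congr rfl fun t _ => ?_
    rw [smul_pow, hw, smul_smul, pow_mul]
  have hz : (w • y) ^ m = 1 := by
    rw [smul_pow, hy, hw, inv_root_pow_m hω, one_smul]
  have hsum : (w • y) * ∑ t ∈ range m, (w • y) ^ t = ∑ t ∈ range m, (w • y) ^ t := by
    have h1 := Finset.sum_range_succ' (fun t => (w • y) ^ t) m
    rw [Finset.sum_range_succ, hz, pow_zero] at h1
    have h2 : ∑ t ∈ range m, (w • y) ^ t = ∑ t ∈ range m, (w • y) ^ (t + 1) := by
      simpa using h1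
    rw [mul_sum]
    conv_rhs => rw [h2]
    exact sum_congr rfl fun t _ => (pow_succ' _ _).symm
  have hwy : y = ω ^ l • (w • y) := by
    rw [smul_smul, mul_comm, hw, inv_root_pow hω hm, one_smul]
  rw [he]
  conv_lhs => arg 1; rw [hwy]
  rw [smul_mul_assoc, mul_smul_comm, hsum]

theorem eigen_mul_eigen (hω : IsPrimitiveRoot ω m) (hm : 0 < m) {y : Module.End K V} (hy : y ^ m = 1)
    {k l : ℕ} (hk : k < m) (hl : l < m) (hkl : k ≠ l) :
    eigen c ω m y k * eigen c ω m y l = 0 := by
  have hpow : ∀ t : ℕ, y ^ t * eigen c ω m y l = ω ^ (l * t) • eigen c ω m y l := by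
    intro t
    induction t with
    | zero => simp
    | succ t ih =>
      rw [pow_succ, mul_assoc, mul_eigen hω hm hy, mul_smul_comm, ih, smul_smul, ← pow_add]
      congr 2
      ring
  have hk' : eigen c ω m y k * eigen c ω m y l =
      (∑ t ∈ range m, c * (ω ^ (m - 1)) ^ (k * t) * ω ^ (l * t)) • eigen c ω m y l := by
    conv_lhs => arg 1; rw [eigen]
    rw [sum_mul, sum_smul]
    refine sum_congr rfl fun t _ => ?_
    rw [smul_mul_assoc, hpow, smul_smul]
  have hz : ∑ t ∈ range m, c * (ω ^ (m - 1)) ^ (k * t) * ω ^ (l * t) = 0 := by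
    have h1 : ∀ t, c * (ω ^ (m - 1)) ^ (k * t) * ω ^ (l * t) =
        c * (((ω ^ (m - 1)) ^ k * ω ^ l) ^ t) := fun t => by
      rw [mul_pow, ← pow_mul, ← pow_mul, ← pow_mul, mul_assoc]
      ring_nf
    rw [sum_congr rfl fun t _ => h1 t, ← mul_sum, geom_zero ?_ ?_, mul_zero]
    · intro h
      have h2 : ω ^ l = ω ^ k := by
        have : ω ^ k * ((ω ^ (m - 1)) ^ k * ω ^ l) = ω ^ k * 1 := congrArg _ h
        rwa [← mul_assoc, mul_comm (ω ^ k), inv_root_pow hω hm, one_mul, mul_one] at this
      exact hkl (hω.pow_inj hk hl h2.symm)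
    · rw [mul_pow, inv_root_pow_m hω, one_mul, ← pow_mul, mul_comm, pow_mul, hω.pow_eq_one, one_pow]
  rw [hk', hz, zero_smul]

theorem sum_rk_eigen (hω : IsPrimitiveRoot ω m) (hc : (m : K) * c = 1) (hm : 0 < m)
    {y : Module.End K V} (hy : y ^ m = 1) :
    ∑ l ∈ range m, rk (eigen c ω m y l) = Module.finrank K V := by
  classical
  have key : ∀ s : Finset ℕ, s ⊆ range m →
      IsIdempotentElem (∑ l ∈ s, eigen c ω m y l) ∧
        rk (∑ l ∈ s, eigen c ω m y l) = ∑ l ∈ s, rk (eigen c ω m y l) := by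
    intro s
    induction s using Finset.induction_on with
    | empty => intro _; simp [IsIdempotentElem.zero, rk_zero]
    | insert a s ha ih =>
      intro hs
      obtain ⟨h1, h2⟩ := ih ((Finset.subset_insert a s).trans hs)
      have ha' : a < m := mem_range.1 (hs (Finset.mem_insert_self a s))
      have hzero : ∀ l ∈ s, eigen c ω m y a * eigen c ω m y l = 0 ∧
          eigen c ω m y l * eigen c ω m y a = 0 := fun l hl => by
        have hl' : l < m := mem_range.1 (hs (Finset.mem_insert_of_mem hl))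
        have hne : a ≠ l := fun h => ha (h ▸ hl)
        exact ⟨eigen_mul_eigen hω hm hy ha' hl' hne, eigen_mul_eigen hω hm hy hl' ha' hne.symm⟩
      have e1 : eigen c ω m y a * ∑ l ∈ s, eigen c ω m y l = 0 := by
        rw [mul_sum]; exact sum_eq_zero fun l hl => (hzero l hl).1
      have e2 : (∑ l ∈ s, eigen c ω m y l) * eigen c ω m y a = 0 := by
        rw [sum_mul]; exact sum_eq_zero fun l hl => (hzero l hl).2
      have hi := isIdempotentElem_eigen hc hω.pow_eq_one hm hy a
      rw [sum_insert ha, sum_insert ha, rk_add hi h1 e1 e2, h2]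
      refine ⟨?_, rfl⟩
      show _ * _ = _
      rw [add_mul, mul_add, mul_add, hi.eq, h1.eq, e1, e2, zero_add, add_zero]
  have h := (key (range m) subset_rfl).2
  rw [sum_eigen hω hc hm, rk_one] at h
  exact h.symm

end Idem

/-- The complex character of a faithful coprime linear group over a finite field. -/
theorem exists_lift {p : ℕ} [Fact p.Prime] {F : Type*} [Field F] [Finite F] [CharP F p]
    {V : Type*} [AddCommGroup V] [Module F V]
    [Finite V] {G : Type*} [Group G] [Finite G] (ρ : G →* (V ≃ₗ[F] V))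
    (hρ : Function.Injective ρ) (hcop : ¬ p ∣ Nat.card G) :
    ∃ χ : G → ℂ, Cfsg.IsCharacter G χ ∧ Cfsg.charDegree χ = Module.finrank F V ∧
      ∀ g : G, χ g = χ 1 → g = 1 := by
  classical
  obtain ⟨M, hM⟩ := Cfsg.Agent.H42.exists_isPModular (p := p) Fact.out
  haveI := hM.2.1
  haveI := Cfsg.Agent.H41.IsPModular.charP hM
  set K := Cfsg.Agent.H41.ResField M with hK
  set n := Module.finrank F V with hn
  haveI : IsAlgClosed K := Cfsg.Agent.H43.D1.isAlgClosed_resField M
  letI : Algebra (ZMod p) F := ZMod.algebra F p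
  letI : Algebra (ZMod p) K := ZMod.algebra K p
  let f : F →+* K := (IsAlgClosed.lift : F →ₐ[ZMod p] K).toRingHom
  let b := Module.finBasis F V
  let σ : G →* Module.End K (Fin n → K) :=
    { toFun := fun g => Matrix.toLin' ((LinearMap.toMatrix b b (ρ g).toLinearMap).map f)
      map_one' := by
        rw [map_one]
        show Matrix.toLin' ((LinearMap.toMatrix b b LinearMap.id).map f) = 1
        rw [LinearMap.toMatrix_id, Matrix.map_one _ (map_zero f) (map_one f), Matrix.toLin'_one]
        rfl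
      map_mul' := fun g h => by
        rw [map_mul]
        show Matrix.toLin' ((LinearMap.toMatrix b b ((ρ g).toLinearMap ∘ₗ (ρ h).toLinearMap)).map f) = _
        rw [LinearMap.toMatrix_comp b b b, Matrix.map_mul, Matrix.toLin'_mul]
        rfl }
  have hσ : Function.Injective σ := fun g h hgh => hρ (LinearEquiv.toLinearMap_injective (by
    have h1 : (LinearMap.toMatrix b b (ρ g).toLinearMap).map f =
        (LinearMap.toMatrix b b (ρ h).toLinearMap).map f := Matrix.toLin'.injective hgh
    exact (LinearMap.toMatrix b b).injective (Matrix.map_injective f.injective h1)))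
  obtain ⟨χ, hχ, hval⟩ := exists_isCharacter_bchar hM hcop σ
  have h1 : χ 1 = (n : ℂ) := by
    rw [hval, bchar_one, Module.finrank_fin_fun]
  refine ⟨χ, hχ, ?_, fun g hg => ?_⟩
  · rw [Cfsg.charDegree, h1]
    simp
  rw [h1, hval] at hg
  set m := orderOf g with hmdef
  have hm : 0 < m := orderOf_pos g
  have hpm : ¬ p ∣ m := fun h => hcop (h.trans (orderOf_dvd_natCard g))
  set c := Cfsg.Agent.H41.res M (invN M m)
  set ω := Cfsg.Agent.H41.res M (root M m)
  have hc : (m : K) * c = 1 := by
    rw [← map_natCast (Cfsg.Agent.H41.res M), ← map_mul, natCast_mul_invN hM hpm, map_one]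
  have hy : σ g ^ m = 1 := by rw [← map_pow, pow_orderOf_eq_one, map_one]
  haveI : NeZero (m : K) := ⟨fun h => by rw [h, zero_mul] at hc; exact zero_ne_one hc⟩
  have hω : IsPrimitiveRoot ω m := by
    refine (Polynomial.isRoot_cyclotomic_iff).1 ?_
    have h := ((isPrimitiveRoot_root (M := M) hm).isRoot_cyclotomic hm).map
      (f := Cfsg.Agent.H41.res M)
    rwa [Polynomial.map_cyclotomic] at h
  have hsum := sum_rk_eigen hω hc hm hy
  rw [Module.finrank_fin_fun] at hsum
  -- compare real parts
  have hre : ∑ l ∈ range m, ((Complex.exp (2 * Real.pi * Complex.I / m)) ^ l).re *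
      (rk (eigen c ω m (σ g) l) : ℝ) = (n : ℝ) := by
    have h := congrArg Complex.re hg
    simp only [bchar, bcharLoc, AddSubmonoidClass.coe_finsetSum, Complex.re_sum, MulMemClass.coe_mul,
      SubmonoidClass.coe_pow, Complex.natCast_re] at h
    rw [← h]
    refine sum_congr rfl fun l _ => ?_
    simp [root, eigBar, hmdef, c, ω, Complex.mul_re]
  have hzero : ∀ l ∈ range m, l ≠ 0 → rk (eigen c ω m (σ g) l) = 0 := by
    intro l hl hl0
    have hz := Complex.isPrimitiveRoot_exp m hm.ne'
    set z := Complex.exp (2 * Real.pi * Complex.I / m)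
    have hnorm : ∀ k : ℕ, ‖z ^ k‖ = 1 := fun k => by
      rw [norm_pow, hz.norm'_eq_one hm.ne', one_pow]
    have hle : ∀ k ∈ range m, 0 ≤ (1 - (z ^ k).re) * (rk (eigen c ω m (σ g) k) : ℝ) := fun k _ => by
      refine mul_nonneg ?_ (Nat.cast_nonneg _)
      have := Complex.re_le_norm (z ^ k)
      rw [hnorm] at this
      linarith
    have htot : ∑ k ∈ range m, (1 - (z ^ k).re) * (rk (eigen c ω m (σ g) k) : ℝ) = 0 := by
      simp only [sub_mul, one_mul, sum_sub_distrib, hre]
      rw [← Nat.cast_sum, hsum, sub_self]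
    have h := (sum_eq_zero_iff_of_nonneg hle).1 htot l hl
    rcases mul_eq_zero.1 h with h' | h'
    · exfalso
      have hre1 : (z ^ l).re = 1 := by linarith
      have him : (z ^ l).im = 0 := by
        have h2 := Complex.normSq_eq_norm_sq (z ^ l)
        rw [hnorm, Complex.normSq_apply, hre1] at h2
        have : (z ^ l).im * (z ^ l).im = 0 := by linarith
        exact mul_self_eq_zero.1 this
      exact hz.pow_ne_one_of_pos_of_lt hl0 (mem_range.1 hl) (Complex.ext (by simpa using hre1)
        (by simpa using him))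
    · exact_mod_cast h'
  have he : ∀ l ∈ range m, l ≠ 0 → eigen c ω m (σ g) l = 0 := fun l hl hl0 =>
    LinearMap.range_eq_bot.1 (Submodule.finrank_eq_zero.1 (hzero l hl hl0))
  have hone : eigen c ω m (σ g) 0 = 1 := by
    rw [← sum_eigen hω hc hm (σ g), sum_eq_single 0 he (fun h => absurd (mem_range.2 hm) h)]
  have := mul_eigen (c := c) hω hm hy 0
  rw [hone, mul_one, pow_zero, one_smul] at this
  exact hσ (this.trans (map_one σ).symm)

end Cfsg.Agent.H45.Trans
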