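import Mathlib.GroupTheory.CommutingProbability
import Mathlib.GroupTheory.Index
import Mathlib.GroupTheory.Subgroup.Center
import Mathlib.Tactic

/-!
Bounds on the number of conjugacy classes through orders of centralisers.
-/

set_option autoImplicit false

namespace Cfsg.Agent.H45.Trans

open scoped Classical

variable {G : Type*} [Group G] [Finite G]

/-- The number of classes times the order is the sum of the orders of the centralisers. -/
theorem card_classes_mul [Fintype G] :
    Nat.card (ConjClasses G) * Nat.card G =
      ∑ g : G, Nat.card (Subgroup.centralizer ({g} : Set G)) := by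
  rw [← card_comm_eq_card_conjClasses_mul_card]
  let e : {q : G × G // Commute q.1 q.2} ≃ Σ g : G, Subgroup.centralizer ({g} : Set G) :=
    { toFun := fun q => ⟨q.1.1, q.1.2, Subgroup.mem_centralizer_singleton_iff.2 q.2.eq.symm⟩
      invFun := fun s => ⟨(s.1, s.2.1), (Subgroup.mem_centralizer_singleton_iff.1 s.2.2).symm⟩
      left_inv := fun q => rfl
      right_inv := fun s => rfl }
  rw [Nat.card_congr e, Nat.card_sigma]

/-- Upper bound from centralisers of noncentral elements. -/
theorem card_classes_le (Z : Subgroup G) (M : ℕ)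
    (hM : ∀ g : G, g ∉ Z → Nat.card (Subgroup.centralizer ({g} : Set G)) ≤ M) :
    Nat.card (ConjClasses G) * Nat.card G ≤
      Nat.card Z * Nat.card G + (Nat.card G - Nat.card Z) * M := by
  have := Fintype.ofFinite G
  rw [card_classes_mul, ← Finset.sum_filter_add_sum_filter_not Finset.univ (fun g => g ∈ Z)]
  have hZ : (Finset.univ.filter fun g => g ∈ Z).card = Nat.card Z := by
    rw [Nat.card_eq_fintype_card, Fintype.card_subtype]
  have hn : (Finset.univ.filter fun g => g ∉ Z).card = Nat.card G - Nat.card Z := by
    rw [Finset.filter_not, Finset.card_sdiff_of_subset (Finset.subset_univ _), hZ,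
      Finset.card_univ, ← Nat.card_eq_fintype_card]
  refine Nat.add_le_add ?_ ?_
  · refine le_trans (Finset.sum_le_card_nsmul _ _ (Nat.card G) fun g _ => ?_) (by rw [smul_eq_mul, hZ])
    exact Subgroup.card_le_card_group _
  · refine le_trans (Finset.sum_le_card_nsmul _ _ M fun g hg => hM g ?_) (by rw [smul_eq_mul, hn])
    simpa using hg

/-- Lower bound from centralisers of noncentral elements. -/
theorem le_card_classes (Z : Subgroup G) (hZc : Z ≤ Subgroup.center G) (M : ℕ)
    (hM : ∀ g : G, g ∉ Z → M ≤ Nat.card (Subgroup.centralizer ({g} : Set G))) :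
    Nat.card Z * Nat.card G + (Nat.card G - Nat.card Z) * M ≤
      Nat.card (ConjClasses G) * Nat.card G := by
  have := Fintype.ofFinite G
  rw [card_classes_mul, ← Finset.sum_filter_add_sum_filter_not Finset.univ (fun g => g ∈ Z)]
  have hZ : (Finset.univ.filter fun g => g ∈ Z).card = Nat.card Z := by
    rw [Nat.card_eq_fintype_card, Fintype.card_subtype]
  have hn : (Finset.univ.filter fun g => g ∉ Z).card = Nat.card G - Nat.card Z := by
    rw [Finset.filter_not, Finset.card_sdiff_of_subset (Finset.subset_univ _), hZ,
      Finset.card_univ, ← Nat.card_eq_fintype_card]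
  refine Nat.add_le_add ?_ ?_
  · refine le_trans ?_ (Finset.card_nsmul_le_sum _ _ (Nat.card G) fun g hg => ?_)
    · rw [smul_eq_mul, hZ]
    · have hgc : g ∈ Subgroup.center G := hZc (by simpa using hg)
      have h : Subgroup.centralizer ({g} : Set G) = ⊤ :=
        Subgroup.centralizer_eq_top_iff_subset.2 (Set.singleton_subset_iff.2 hgc)
      rw [h, Subgroup.card_top]
  · refine le_trans ?_ (Finset.card_nsmul_le_sum _ _ M fun g hg => hM g ?_)
    · rw [smul_eq_mul, hn]
    · simpa using hg

/-- The classes of a surjective image are at most those of the source. -/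
theorem card_classes_le_of_surjective {H : Type*} [Group H] [Finite H] (f : H →* G)
    (hf : Function.Surjective f) : Nat.card (ConjClasses G) ≤ Nat.card (ConjClasses H) :=
  Nat.card_le_card_of_surjective _ (ConjClasses.map_surjective hf)

omit [Finite G] in
/-- The classes of a product of two groups. -/
theorem card_classes_prod {H : Type*} [Group H] [Finite H] [Finite G] :
    Nat.card (ConjClasses (G × H)) = Nat.card (ConjClasses G) * Nat.card (ConjClasses H) := by
  have h := card_comm_eq_card_conjClasses_mul_card (G × H)
  have hG := card_comm_eq_card_conjClasses_mul_card G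
  have hH := card_comm_eq_card_conjClasses_mul_card H
  let e : {q : (G × H) × (G × H) // Commute q.1 q.2} ≃
      {q : G × G // Commute q.1 q.2} × {q : H × H // Commute q.1 q.2} :=
    { toFun := fun q => (⟨(q.1.1.1, q.1.2.1), congrArg Prod.fst q.2.eq⟩,
        ⟨(q.1.1.2, q.1.2.2), congrArg Prod.snd q.2.eq⟩)
      invFun := fun r => ⟨((r.1.1.1, r.2.1.1), (r.1.1.2, r.2.1.2)), Prod.ext r.1.2.eq r.2.2.eq⟩
      left_inv := fun q => rfl
      right_inv := fun r => rfl }
  rw [Nat.card_congr e, Nat.card_prod, hG, hH, Nat.card_prod] at h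
  have hpos : 0 < Nat.card G * Nat.card H := Nat.mul_pos Nat.card_pos Nat.card_pos
  apply Nat.eq_of_mul_eq_mul_right hpos
  rw [← h]
  ring

/-- An abelian group has as many classes as elements. -/
theorem card_classes_of_comm (h : ∀ a b : G, a * b = b * a) :
    Nat.card (ConjClasses G) = Nat.card G := by
  refine (Nat.card_congr (Equiv.ofBijective ConjClasses.mk ⟨fun a b hab => ?_, ?_⟩)).symm
  · obtain ⟨c, hc⟩ := isConj_iff.1 (ConjClasses.mk_eq_mk_iff_isConj.1 hab)
    rw [← hc, h c a, mul_inv_cancel_right]
  · exact fun x => ConjClasses.exists_rep x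

/-- The number of classes of a nonabelian group is at most five eighths of the order. -/
theorem eight_mul_card_classes_le (hna : ¬ ∀ a b : G, a * b = b * a) :
    8 * Nat.card (ConjClasses G) ≤ 5 * Nat.card G := by
  set Z := Subgroup.center G with hZ
  have hM : ∀ g : G, g ∉ Z → Nat.card (Subgroup.centralizer ({g} : Set G)) ≤ Nat.card G / 2 := by
    intro g hg
    have hi := (Subgroup.centralizer ({g} : Set G)).card_mul_index
    have h2 : 2 ≤ (Subgroup.centralizer ({g} : Set G)).index := by
      have h0 : (Subgroup.centralizer ({g} : Set G)).index ≠ 0 := Subgroup.index_ne_zero_of_finite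
      have h1 : (Subgroup.centralizer ({g} : Set G)).index ≠ 1 := fun h1 => hg (by
        rw [hZ, Subgroup.mem_center_iff]
        intro x
        have hx : x ∈ Subgroup.centralizer ({g} : Set G) := by
          rw [Subgroup.index_eq_one.1 h1]; trivial
        exact Subgroup.mem_centralizer_singleton_iff.1 hx)
      omega
    rw [Nat.le_div_iff_mul_le two_pos]
    calc _ ≤ Nat.card (Subgroup.centralizer ({g} : Set G)) *
          (Subgroup.centralizer ({g} : Set G)).index := Nat.mul_le_mul_left _ h2
      _ = _ := hi
  have h4 : 4 * Nat.card Z ≤ Nat.card G := by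
    have hi := Z.card_mul_index
    by_contra hlt
    have h0 : Z.index ≠ 0 := Subgroup.index_ne_zero_of_finite
    have hlt4 : Z.index < 4 := by
      by_contra h
      have := Nat.mul_le_mul_left (Nat.card Z) (not_lt.1 h)
      rw [hi] at this
      omega
    apply hna
    have hcyc : IsCyclic (G ⧸ Z) := by
      rw [Subgroup.index_eq_card] at h0 hlt4
      rcases (show Nat.card (G ⧸ Z) = 1 ∨ Nat.card (G ⧸ Z) = 2 ∨ Nat.card (G ⧸ Z) = 3 by omega)
        with h | h | h
      · have := (Nat.card_eq_one_iff_unique.1 h).1
        exact isCyclic_of_subsingleton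
      · haveI := Fact.mk Nat.prime_two
        exact isCyclic_of_prime_card h
      · haveI := Fact.mk Nat.prime_three
        exact isCyclic_of_prime_card h
    intro a b
    exact commutative_of_cyclic_center_quotient (QuotientGroup.mk' Z)
      (by rw [QuotientGroup.ker_mk']) a b
  have h := card_classes_le Z _ hM
  have hg : Nat.card G / 2 * 2 ≤ Nat.card G := Nat.div_mul_le_self _ _
  have hzle : Nat.card Z ≤ Nat.card G := Subgroup.card_le_card_group _
  obtain ⟨w, hw⟩ := Nat.exists_eq_add_of_le hzle
  rw [hw, Nat.add_sub_cancel_left] at h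
  rw [← hw] at h
  have hpos : 0 < Nat.card G := Nat.card_pos
  apply Nat.le_of_mul_le_mul_right (c := Nat.card G) ?_ hpos
  have hsq := Nat.mul_le_mul h4 (le_refl (Nat.card G))
  nlinarith

end Cfsg.Agent.H45.Trans
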