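import Mathlib
import Cfsg.Agent.H45.Transitive.Tools

/-!
Linear groups of a plane over a prime field: elements which are not scalar have commutative
centralisers.
-/

set_option autoImplicit false

namespace Cfsg.Agent.H45.Trans

open Module

variable {p : ℕ} [Fact p.Prime] {V : Type*} [AddCommGroup V] [Module (ZMod p) V]
  {G : Type*} [Group G] {ρ : G →* (V ≃ₗ[ZMod p] V)}

/-- An element acting as a scalar. -/
def IsScalar (ρ : G →* (V ≃ₗ[ZMod p] V)) (g : G) : Prop :=
  ∃ c : ZMod p, ∀ v : V, ρ g v = c • v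

theorem IsScalar.mem_center (hρ : Function.Injective ρ) {g : G} (h : IsScalar ρ g) :
    g ∈ Subgroup.center G := by
  obtain ⟨c, hc⟩ := h
  refine Subgroup.mem_center_iff.2 fun a => hρ (LinearEquiv.ext fun v => ?_)
  simp [map_mul, hc]

/-- Elements commuting with a non-scalar element of a plane commute. -/
theorem comm_of_not_scalar [Finite V] (hρ : Function.Injective ρ)
    (hn : finrank (ZMod p) V = 2) {g : G} (hg : ¬ IsScalar ρ g) {a b : G}
    (ha : a * g = g * a) (hb : b * g = g * b) : a * b = b * a := by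
  classical
  obtain ⟨v, hv0, hv⟩ : ∃ v : V, v ≠ 0 ∧ ∀ c : ZMod p, c • v ≠ ρ g v := by
    by_contra hcon
    push Not at hcon
    apply hg
    haveI : Nontrivial V := Module.nontrivial_of_finrank_pos (R := ZMod p) (by omega)
    obtain ⟨v, hv⟩ := exists_ne (0 : V)
    obtain ⟨c, hc⟩ := hcon v hv
    refine ⟨c, fun w => ?_⟩
    by_cases hw : ∃ l : ZMod p, l • v = w
    · obtain ⟨l, rfl⟩ := hw
      rw [map_smul, ← hc, smul_comm]
    · push Not at hw
      have hw0 : w ≠ 0 := fun h => hw 0 (by rw [zero_smul, h])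
      obtain ⟨d, hd⟩ := hcon w hw0
      have hvw0 : v + w ≠ 0 := fun h => hw (-1) (by
        rw [neg_one_smul]; exact (eq_neg_of_add_eq_zero_right h).symm)
      obtain ⟨e, he⟩ := hcon (v + w) hvw0
      rw [map_add, ← hc, ← hd, smul_add] at he
      have hli : LinearIndependent (ZMod p) ![v, w] := (LinearIndependent.pair_iff' hv).2 hw
      have h2 := LinearIndependent.pair_iff.1 hli (e - c) (e - d) (by
        rw [sub_smul, sub_smul, sub_add_sub_comm, he, sub_self])
      rw [← hd, ← sub_eq_zero.1 h2.1, sub_eq_zero.1 h2.2]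
  have hli : LinearIndependent (ZMod p) ![v, ρ g v] :=
    (LinearIndependent.pair_iff' hv0).2 hv
  have hspan := hli.span_eq_top_of_card_eq_finrank (by rw [hn]; rfl)
  have key : ∀ x : G, x * g = g * x → ∃ α β : ZMod p, ∀ w, ρ x w = α • w + β • ρ g w := by
    intro x hx
    have hmem : ρ x v ∈ Submodule.span (ZMod p) {v, ρ g v} := by
      rw [← Matrix.range_cons_cons_empty v (ρ g v) ![]]
      rw [hspan]; trivial
    obtain ⟨α, β, hab⟩ := Submodule.mem_span_pair.1 hmem
    refine ⟨α, β, fun w => ?_⟩
    have heq : (ρ x).toLinearMap =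
        α • (LinearMap.id : V →ₗ[ZMod p] V) + β • (ρ g).toLinearMap := by
      refine LinearMap.ext_on hspan ?_
      rintro _ ⟨i, rfl⟩
      fin_cases i
      · show ρ x v = α • v + β • ρ g v
        exact hab.symm
      · show ρ x (ρ g v) = α • ρ g v + β • ρ g (ρ g v)
        rw [← LinearEquiv.mul_apply, ← map_mul, hx, map_mul, LinearEquiv.mul_apply, ← hab,
          map_add, map_smul, map_smul]
    exact LinearMap.congr_fun heq w
  obtain ⟨α, β, hA⟩ := key a ha
  obtain ⟨γ, δ, hB⟩ := key b hb
  refine hρ (LinearEquiv.ext fun w => ?_)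
  simp only [map_mul, LinearEquiv.mul_apply, hA, hB, map_add, map_smul, smul_add, smul_smul]
  rw [mul_comm γ α, mul_comm δ β, mul_comm δ α, mul_comm γ β]
  abel

/-- The centre of a nonabelian group of a plane consists of scalars. -/
theorem isScalar_of_mem_center [Finite V] (hρ : Function.Injective ρ)
    (hn : finrank (ZMod p) V = 2) (hna : ¬ ∀ a b : G, a * b = b * a) {g : G}
    (hg : g ∈ Subgroup.center G) : IsScalar ρ g := by
  by_contra h
  exact hna fun a b => comm_of_not_scalar hρ hn h
    (Subgroup.mem_center_iff.1 hg a) (Subgroup.mem_center_iff.1 hg b)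

/-- The order of a group of scalars divides `p - 1`. -/
theorem card_dvd_of_scalar [Finite G] [Nontrivial V] (hρ : Function.Injective ρ) (Z : Subgroup G)
    (hZ : ∀ g ∈ Z, IsScalar ρ g) : Nat.card Z ∣ p - 1 := by
  classical
  obtain ⟨v, hv⟩ := exists_ne (0 : V)
  choose c hc using fun g : Z => hZ g.1 g.2
  have huniq : ∀ (g : Z) (d : ZMod p), ρ g.1 v = d • v → c g = d := fun g d h =>
    smul_left_injective (ZMod p) hv (show c g • v = d • v by rw [← hc g v, h])
  let f : Z →* ZMod p :=
    { toFun := c
      map_one' := huniq 1 1 (by simp)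
      map_mul' := fun a b => huniq (a * b) _ (by
        show ρ (a.1 * b.1) v = _
        rw [map_mul, LinearEquiv.mul_apply, hc b v, map_smul, hc a v, smul_smul, mul_comm]) }
  have h := Subgroup.card_dvd_of_injective f.toHomUnits fun a b hab => by
    have h1 : c a = c b := congrArg Units.val hab
    refine Subtype.ext (hρ (LinearEquiv.ext fun w => ?_))
    rw [hc a w, hc b w, h1]
  rwa [Nat.card_units, Nat.card_zmod] at h

end Cfsg.Agent.H45.Trans
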