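import Mathlib
import Cfsg.Agent.H74.Zsigmondy

/-!
Arithmetic for coprime transitive linear groups: which pairs `(p, n)` have all primitive prime
divisors of `p ^ n - 1` equal to `n + 1` and simple.
-/

set_option autoImplicit false

namespace Cfsg.Agent.H45.Trans

open Polynomial

/-- A primitive prime divisor. -/
def Ppd (p n r : ℕ) : Prop :=
  r.Prime ∧ r ∣ p ^ n - 1 ∧ ∀ k, 0 < k → k < n → ¬ r ∣ p ^ k - 1

theorem ppd_of_orderOf {p n r : ℕ} (hp : 1 ≤ p) (hr : r.Prime) (h : orderOf (p : ZMod r) = n) :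
    Ppd p n r := by
  have key : ∀ k, r ∣ p ^ k - 1 ↔ (p : ZMod r) ^ k = 1 := by
    intro k
    rw [← ZMod.natCast_eq_zero_iff, Nat.cast_sub (Nat.one_le_pow _ _ hp), Nat.cast_pow,
      Nat.cast_one, sub_eq_zero]
  refine ⟨hr, (key n).2 (h ▸ pow_orderOf_eq_one _), fun k hk0 hkn hd => ?_⟩
  have := orderOf_dvd_of_pow_eq_one ((key k).1 hd)
  rw [h] at this
  exact absurd (Nat.le_of_dvd hk0 this) (by omega)

theorem sq_le_totient_cube (n : ℕ) :
    8 * n ^ 2 ≤ ((if 2 ∣ n then 4 else 1) * (if 3 ∣ n then 9 else 8)) * n.totient ^ 3 := by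
  induction n using Nat.recOnPosPrimePosCoprime with
  | prime_pow q k hq hk =>
    obtain ⟨j, rfl⟩ := Nat.exists_eq_add_of_le hk
    rw [Nat.totient_prime_pow hq (by omega)]
    rw [show 1 + j - 1 = j by omega, pow_add, pow_one]
    rcases eq_or_ne q 2 with rfl | h2
    · have h3 : ¬ 3 ∣ 2 * 2 ^ j := fun h => by
        rcases (Nat.Prime.dvd_mul Nat.prime_three).1 h with h | h
        · norm_num at h
        · exact absurd (Nat.prime_three.dvd_of_dvd_pow h) (by norm_num)
      rw [if_pos (dvd_mul_right 2 _), if_neg h3]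
      have : (2 ^ j) ^ 2 ≤ (2 ^ j) ^ 3 := Nat.pow_le_pow_right Nat.one_le_two_pow (by norm_num)
      nlinarith
    rcases eq_or_ne q 3 with rfl | h3
    · have h2' : ¬ 2 ∣ 3 * 3 ^ j := fun h => by
        rcases (Nat.Prime.dvd_mul Nat.prime_two).1 h with h | h
        · norm_num at h
        · exact absurd (Nat.prime_two.dvd_of_dvd_pow h) (by norm_num)
      rw [if_neg h2', if_pos (dvd_mul_right 3 _)]
      have : (3 ^ j) ^ 2 ≤ (3 ^ j) ^ 3 := Nat.pow_le_pow_right (Nat.one_le_pow _ _ (by norm_num)) (by norm_num)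
      nlinarith
    have hq5 : 5 ≤ q := by
      by_contra hlt
      have := hq.two_le
      have h4 : q ≠ 4 := fun h => absurd (h ▸ hq) (by norm_num)
      omega
    have e2 : ¬ 2 ∣ q * q ^ j := fun h => by
      rw [← pow_succ'] at h
      exact h2 ((Nat.prime_dvd_prime_iff_eq Nat.prime_two hq).1 (Nat.prime_two.dvd_of_dvd_pow h)).symm
    have e3 : ¬ 3 ∣ q * q ^ j := fun h => by
      rw [← pow_succ'] at h
      exact h3 ((Nat.prime_dvd_prime_iff_eq Nat.prime_three hq).1
        (Nat.prime_three.dvd_of_dvd_pow h)).symm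
    rw [if_neg e2, if_neg e3]
    have h1 : q ^ 2 ≤ (q - 1) ^ 3 := by
      obtain ⟨w, rfl⟩ := Nat.exists_eq_add_of_le hq5
      rw [show 5 + w - 1 = 4 + w by omega]
      nlinarith
    have h4 : (q ^ j) ^ 2 ≤ (q ^ j) ^ 3 :=
      Nat.pow_le_pow_right (Nat.one_le_pow _ _ hq.pos) (by norm_num)
    calc 8 * (q * q ^ j) ^ 2 = 8 * (q ^ 2 * (q ^ j) ^ 2) := by ring
      _ ≤ 8 * ((q - 1) ^ 3 * (q ^ j) ^ 3) := Nat.mul_le_mul_left _ (Nat.mul_le_mul h1 h4)
      _ = 1 * 8 * (q ^ j * (q - 1)) ^ 3 := by ring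
  | zero => simp
  | one => simp
  | coprime a b ha hb hab iha ihb =>
    rw [Nat.totient_mul hab]
    have hf : ((if 2 ∣ a then 4 else 1) * (if 3 ∣ a then 9 else 8)) *
        ((if 2 ∣ b then 4 else 1) * (if 3 ∣ b then 9 else 8)) =
        8 * ((if 2 ∣ a * b then 4 else 1) * (if 3 ∣ a * b then 9 else 8)) := by
      have k2 : ¬ (2 ∣ a ∧ 2 ∣ b) := fun h => by
        have := Nat.dvd_gcd h.1 h.2
        rw [hab] at this
        norm_num at this
      have k3 : ¬ (3 ∣ a ∧ 3 ∣ b) := fun h => by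
        have := Nat.dvd_gcd h.1 h.2
        rw [hab] at this
        norm_num at this
      simp only [Nat.Prime.dvd_mul Nat.prime_two, Nat.Prime.dvd_mul Nat.prime_three]
      by_cases a2 : 2 ∣ a <;> by_cases b2 : 2 ∣ b <;> by_cases a3 : 3 ∣ a <;> by_cases b3 : 3 ∣ b <;>
        first | exact (k2 (And.intro (by assumption) (by assumption))).elim | simp [a2, b2, a3, b3] <;> simp [a2, b2, a3, b3] at k2 k3
    have h := Nat.mul_le_mul iha ihb
    refine Nat.le_of_mul_le_mul_left ?_ (show 0 < 8 by norm_num)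
    calc 8 * (8 * (a * b) ^ 2) = (8 * a ^ 2) * (8 * b ^ 2) := by ring
      _ ≤ _ := h
      _ = (((if 2 ∣ a then 4 else 1) * (if 3 ∣ a then 9 else 8)) *
        ((if 2 ∣ b then 4 else 1) * (if 3 ∣ b then 9 else 8))) * (a.totient * b.totient) ^ 3 := by ring
      _ = _ := by rw [hf]; ring

theorem sq_le (n : ℕ) : 2 * n ^ 2 ≤ 9 * n.totient ^ 3 := by
  have h := sq_le_totient_cube n
  have hf : (if 2 ∣ n then 4 else 1) * (if 3 ∣ n then 9 else 8) ≤ 36 := by
    split_ifs <;> norm_num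
  have := h.trans (Nat.mul_le_mul_right _ hf)
  omega

/-- The hypothesis on the primitive prime divisors. -/
def AllSmall (p n : ℕ) : Prop :=
  ∀ r, Ppd p n r → r = n + 1 ∧ ¬ r ^ 2 ∣ p ^ n - 1

theorem cyclotomic_dvd {p n : ℕ} (hp : 1 < p) (hn : 2 < n) (h : AllSmall p n) :
    ((cyclotomic n ℤ).eval (p : ℤ)).natAbs ∣ (n + 1) * n := by
  set N := ((cyclotomic n ℤ).eval (p : ℤ)).natAbs with hN
  have hNdvd : (N : ℤ) ∣ (p : ℤ) ^ n - 1 := by
    have h1 : (cyclotomic n ℤ).eval (p : ℤ) ∣ (p : ℤ) ^ n - 1 := by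
      have := Polynomial.eval_dvd (x := (p : ℤ)) (cyclotomic.dvd_X_pow_sub_one n ℤ)
      simpa using this
    exact Int.natAbs_dvd.2 h1
  have hdvd : N ∣ p ^ n - 1 := by
    have h1 : ((p ^ n - 1 : ℕ) : ℤ) = (p : ℤ) ^ n - 1 := by
      rw [Nat.cast_sub (Nat.one_le_pow _ _ (by omega))]; push_cast; ring
    rw [← h1] at hNdvd
    exact_mod_cast hNdvd
  refine (Nat.dvd_iff_prime_pow_dvd_dvd _ _).2 fun t k ht htk => ?_
  rcases Nat.lt_or_ge k 1 with hk | hk
  · simp [show k = 0 by omega]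
  have htN : t ∣ N := (dvd_pow_self t (by omega)).trans htk
  have htE : (t : ℤ) ∣ (cyclotomic n ℤ).eval (p : ℤ) := Int.natCast_dvd.2 htN
  rcases H74.prime_dvd_cyclotomic_eval (by omega) ht htE with ho | ⟨j, m, hnm, -, hm0, hm1⟩
  · have hpp := ppd_of_orderOf (by omega) ht ho
    obtain ⟨htn, hsq⟩ := h t hpp
    rcases Nat.lt_or_ge k 2 with hk2 | hk2
    · rw [show k = 1 by omega, pow_one, htn]
      exact dvd_mul_right _ _
    · exact absurd ((pow_dvd_pow t hk2).trans (htk.trans hdvd)) hsq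
  · haveI := Fact.mk ht
    have hroot : (t : ℤ) ∣ (p : ℤ) ^ (t ^ j * m) - 1 := by
      rw [← ZMod.intCast_zmod_eq_zero_iff_dvd]
      push_cast
      have h1 : (p : ZMod t) ^ n = 1 := by
        have : ((p ^ n - 1 : ℕ) : ZMod t) = 0 :=
          (ZMod.natCast_eq_zero_iff _ _).2 (htN.trans hdvd)
        rw [Nat.cast_sub (Nat.one_le_pow _ _ (by omega)), Nat.cast_pow, Nat.cast_one, sub_eq_zero]
          at this
        exact this
      rw [sub_eq_zero, ← ZMod.pow_card ((p : ZMod t) ^ (t ^ j * m)), ← pow_mul,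
        show t ^ j * m * t = n by rw [hnm]; ring, h1]
    have hsq := H74.sq_not_dvd_cyclotomic_eval hp hn ht hnm hm1 hm0 hroot
    rcases Nat.lt_or_ge k 2 with hk2 | hk2
    · rw [show k = 1 by omega, pow_one]
      refine Dvd.dvd.mul_left ?_ _
      rw [hnm]
      exact (dvd_pow_self t j.succ_ne_zero).mul_right m
    · refine absurd ?_ hsq
      have h2 : t ^ 2 ∣ N := (pow_dvd_pow t hk2).trans htk
      have := Int.natCast_dvd.2 h2
      push_cast at this
      exact this

theorem totient_bound {p n : ℕ} (hp : 3 ≤ p) (hn : 2 < n) (h : AllSmall p n) :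
    (p - 1) ^ n.totient < (n + 1) * n := by
  have hd := cyclotomic_dvd (by omega) hn h
  have hlt := Polynomial.sub_one_pow_totient_lt_cyclotomic_eval (q := (p : ℝ)) (n := n) (by omega)
    (by exact_mod_cast (show 1 < p by omega))
  have he : (cyclotomic n ℝ).eval (p : ℝ) = (((cyclotomic n ℤ).eval (p : ℤ) : ℤ) : ℝ) := by
    rw [← map_cyclotomic_int n ℝ]
    have := Polynomial.eval_intCast_map (Int.castRingHom ℝ) (cyclotomic n ℤ) (p : ℤ)
    simpa using this
  rw [he] at hlt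
  have h1 : ((((p - 1) ^ n.totient : ℕ) : ℤ) : ℝ) < (((cyclotomic n ℤ).eval (p : ℤ) : ℤ) : ℝ) := by
    push_cast [Nat.cast_sub (show 1 ≤ p by omega)]
    exact hlt
  have h2 : (((p - 1) ^ n.totient : ℕ) : ℤ) < (cyclotomic n ℤ).eval (p : ℤ) := by exact_mod_cast h1
  have h3 := Nat.le_of_dvd (by positivity) hd
  omega

theorem five_cube_le (φ : ℕ) (h : 14 ≤ φ) : 5 * φ ^ 3 ≤ 2 ^ φ := by
  induction φ, h using Nat.le_induction with
  | base => norm_num
  | succ φ hφ ih =>
    have h1 : (φ + 1) ^ 3 ≤ 2 * φ ^ 3 := by nlinarith [Nat.mul_le_mul_left (φ ^ 2) hφ]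
    rw [show 2 ^ (φ + 1) = 2 * 2 ^ φ from pow_succ' 2 φ]
    omega

theorem five_cube_le_four (φ : ℕ) (h : 6 ≤ φ) : 5 * φ ^ 3 ≤ 4 ^ φ := by
  induction φ, h using Nat.le_induction with
  | base => norm_num
  | succ φ hφ ih =>
    have h1 : (φ + 1) ^ 3 ≤ 4 * φ ^ 3 := by nlinarith [Nat.mul_le_mul_left (φ ^ 2) hφ]
    rw [show 4 ^ (φ + 1) = 4 * 4 ^ φ from pow_succ' 4 φ]
    omega

set_option maxRecDepth 8000 in
set_option synthInstance.maxSize 4000 in
theorem small_three : ∀ n < 100, 3 ≤ n → Nat.Prime (n + 1) → 2 ^ n.totient < (n + 1) * n →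
    n ∈ [4, 6, 10, 12, 16, 18, 30] := by decide +kernel

set_option maxRecDepth 8000 in
set_option synthInstance.maxSize 4000 in
theorem small_five : ∀ p < 25, ∀ n < 24, 5 ≤ p → Nat.Prime p → 3 ≤ n → Nat.Prime (n + 1) →
    (p - 1) ^ n.totient < (n + 1) * n → (p, n) ∈ [(5, 4), (5, 6), (7, 6)] := by decide +kernel

theorem not_allSmall_of {p n M : ℕ} (hM : M ∣ p ^ n - 1)
    (hco : ∀ d < n, 0 < d → Nat.Coprime M (p ^ d - 1)) (hnd : ¬ M ∣ n + 1) : ¬ AllSmall p n := by
  intro h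
  apply hnd
  refine (Nat.dvd_iff_prime_pow_dvd_dvd _ _).2 fun t k ht htk => ?_
  rcases Nat.lt_or_ge k 1 with hk | hk
  · simp [show k = 0 by omega]
  have htM : t ∣ M := (dvd_pow_self t (by omega)).trans htk
  have hpp : Ppd p n t := ⟨ht, htM.trans hM, fun d hd0 hdn hd =>
    ht.one_lt.ne' (Nat.eq_one_of_dvd_coprimes (hco d hdn hd0) htM hd)⟩
  obtain ⟨htn, hsq⟩ := h t hpp
  rcases Nat.lt_or_ge k 2 with hk2 | hk2
  · rw [show k = 1 by omega, pow_one, htn]
  · exact absurd ((pow_dvd_pow t hk2).trans (htk.trans hM)) hsq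

/-- The exceptional pairs. -/
theorem allSmall_cases {p n : ℕ} (hp : p.Prime) (hodd : p ≠ 2) (hn : 3 ≤ n)
    (hex : ∃ r, Ppd p n r) (h : AllSmall p n) :
    (p = 3 ∧ n = 4) ∨ (p = 3 ∧ n = 6) ∨ (p = 5 ∧ n = 6) := by
  have hp2 := hp.two_le
  have hp3 : 3 ≤ p := by omega
  obtain ⟨r, hr⟩ := hex
  have hn1 : Nat.Prime (n + 1) := (h r hr).1 ▸ hr.1
  have hb := totient_bound hp3 (by omega) h
  have hsq := sq_le n
  have hnn : 10 ≤ n → 2 * ((n + 1) * n) ≤ 10 * n.totient ^ 3 := fun h10 => by nlinarith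
  have hp' : 2 ^ n.totient ≤ (p - 1) ^ n.totient := Nat.pow_le_pow_left (by omega) _
  have hφ : n.totient ≤ 13 := by
    by_contra hc
    have := five_cube_le n.totient (by omega)
    have h10 : 10 ≤ n := le_trans (by omega) (Nat.totient_le n)
    have := hnn h10
    omega
  have hn100 : n < 100 := by
    by_contra hc
    have h1 : n.totient ^ 3 ≤ 13 ^ 3 := Nat.pow_le_pow_left hφ 3
    have h2 : 100 ^ 2 ≤ n ^ 2 := Nat.pow_le_pow_left (by omega) 2
    omega
  rcases eq_or_ne p 3 with rfl | hp3'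
  · have hc := small_three n hn100 hn hn1 (by simpa using hb)
    simp only [List.mem_cons, List.not_mem_nil, or_false] at hc
    rcases hc with rfl | rfl | rfl | rfl | rfl | rfl | rfl
    · simp
    · simp
    · exact absurd h (not_allSmall_of (M := 61) (by decide +kernel) (by decide +kernel) (by decide))
    · exact absurd h (not_allSmall_of (M := 73) (by decide +kernel) (by decide +kernel) (by decide))
    · exact absurd h (not_allSmall_of (M := 3281) (by decide +kernel) (by decide +kernel) (by decide))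
    · exact absurd h (not_allSmall_of (M := 703) (by decide +kernel) (by decide +kernel) (by decide))
    · exact absurd h (not_allSmall_of (M := 8401) (by decide +kernel) (by decide +kernel) (by decide))
  have hp5 : 5 ≤ p := by
    have h4 : p ≠ 4 := fun h4 => absurd (h4 ▸ hp) (by norm_num)
    omega
  have hp4 : 4 ^ n.totient ≤ (p - 1) ^ n.totient := Nat.pow_le_pow_left (by omega) _
  have hφ5 : n.totient ≤ 5 := by
    by_contra hc
    have := five_cube_le_four n.totient (by omega)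
    by_cases h10 : 10 ≤ n
    · have := hnn h10
      omega
    · have h1 : 4 ^ 6 ≤ 4 ^ n.totient := Nat.pow_le_pow_right (by norm_num) (by omega)
      have h2 : (n + 1) * n ≤ 10 * 10 := Nat.mul_le_mul (by omega) (by omega)
      omega
  have hn24 : n < 24 := by
    by_contra hc
    have h1 : n.totient ^ 3 ≤ 5 ^ 3 := Nat.pow_le_pow_left hφ5 3
    have h2 : 24 ^ 2 ≤ n ^ 2 := Nat.pow_le_pow_left (by omega) 2
    omega
  have hφ2 : 2 ≤ n.totient := by
    have h1 := Nat.totient_even (show 2 < n by omega)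
    have h2 : 0 < n.totient := Nat.totient_pos.2 (by omega)
    obtain ⟨w, hw⟩ := h1
    omega
  have hp25 : p < 25 := by
    by_contra hc
    have h1 : (p - 1) ^ 2 ≤ (p - 1) ^ n.totient := Nat.pow_le_pow_right (by omega) hφ2
    have h2 : 24 ^ 2 ≤ (p - 1) ^ 2 := Nat.pow_le_pow_left (by omega) 2
    have h3 : (n + 1) * n ≤ 24 * 23 := Nat.mul_le_mul (by omega) (by omega)
    omega
  have hc := small_five p hp25 n hn24 hp5 hp hn hn1 hb
  simp only [List.mem_cons, Prod.mk.injEq, List.not_mem_nil, or_false] at hc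
  rcases hc with ⟨rfl, rfl⟩ | ⟨rfl, rfl⟩ | ⟨rfl, rfl⟩
  · exact absurd h (not_allSmall_of (M := 13) (by decide +kernel) (by decide +kernel) (by decide))
  · simp
  · exact absurd h (not_allSmall_of (M := 43) (by decide +kernel) (by decide +kernel) (by decide))

theorem five_pow_gt (n : ℕ) (h : 6 ≤ n) : 2 * n * (n + 1) * (2 * n + 1) < 5 ^ (n - 1) := by
  induction n, h using Nat.le_induction with
  | base => norm_num
  | succ n hn ih =>
    rw [show n + 1 - 1 = (n - 1) + 1 by omega, pow_succ]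
    nlinarith [Nat.mul_le_mul hn hn]

/-- No coprime transitive group is an extension of its scalars by `PSL(2, 2n+1)`. -/
theorem psl_case_false {p n : ℕ} (hp : p.Prime) (hodd : p ≠ 2) (hn : 3 ≤ n)
    (hr : Nat.Prime (2 * n + 1)) (hcop : ¬ p ∣ n * (2 * n + 2) * (2 * n + 1))
    (hdvd : p ^ n - 1 ∣ (p - 1) * (n * (2 * n + 2) * (2 * n + 1))) : False := by
  have hp3 : p ≠ 3 := by
    rintro rfl
    apply hcop
    rcases (show n % 3 = 0 ∨ n % 3 = 1 ∨ n % 3 = 2 by omega) with h | h | h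
    · exact ((Nat.dvd_of_mod_eq_zero h).mul_right _).mul_right _
    · exact Dvd.dvd.mul_left (Nat.dvd_of_mod_eq_zero (by omega)) _
    · exact (Dvd.dvd.mul_left (Nat.dvd_of_mod_eq_zero (by omega)) _).mul_right _
  have h5 : 5 ≤ p := by
    have := hp.two_le
    have h4 : p ≠ 4 := fun h4 => absurd (h4 ▸ hp) (by norm_num)
    omega
  -- the quotient by `p - 1` exceeds `p ^ (n - 1)`
  have hge : p ^ (n - 1) * (p - 1) ≤ p ^ n - 1 := by
    rw [Nat.mul_sub, ← pow_succ, Nat.sub_add_cancel (by omega), mul_one]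
    exact Nat.sub_le_sub_left (Nat.one_le_pow _ _ hp.pos) _
  have hle := Nat.le_of_dvd (Nat.mul_pos (by omega) (Nat.mul_pos (Nat.mul_pos (by omega) (by omega))
    (by omega))) hdvd
  have hb : p ^ (n - 1) ≤ n * (2 * n + 2) * (2 * n + 1) := by
    apply Nat.le_of_mul_le_mul_right (c := p - 1) ?_ (by omega)
    rw [mul_comm (n * (2 * n + 2) * (2 * n + 1))]
    exact hge.trans hle
  have hn5 : n ≤ 5 := by
    by_contra hc
    have h1 := five_pow_gt n (by omega)
    have h2 : 5 ^ (n - 1) ≤ p ^ (n - 1) := Nat.pow_le_pow_left h5 _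
    nlinarith
  have hp26 : p < 26 := by
    by_contra hc
    have h1 : 26 ^ (n - 1) ≤ p ^ (n - 1) := Nat.pow_le_pow_left (by omega) _
    interval_cases n <;> norm_num at hb h1 <;> omega
  revert hdvd hr hcop
  interval_cases n <;> interval_cases p <;> (revert hp; norm_num)

end Cfsg.Agent.H45.Trans
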