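import Mathlib
import Cfsg.Agent.H45.Transitive.Classes
import Cfsg.Agent.H45.Transitive.Tools
import Cfsg.Agent.H78.SolvableTransitiveLinear

/-!
The exceptional solvable transitive groups of the space of 81 vectors: a bound for the number of
classes.
-/

set_option autoImplicit false
set_option maxHeartbeats 1000000

namespace Cfsg.Agent.H45.Trans

open Module

/-- A finite group has at most as many homomorphisms to a group of order two as elements. -/
theorem card_hom_le {Q B : Type*} [Group Q] [Group B] [Finite Q] [Finite B]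
    (hB : Nat.card B = 2) : Nat.card (Q →* B) ≤ Nat.card Q := by
  classical
  have := Fintype.ofFinite Q
  let P : Finset (Finset Q) :=
    Finset.univ.filter fun S => 2 ^ S.card ≤ Nat.card (Subgroup.closure (S : Set Q))
  obtain ⟨S, hS, hmax⟩ := P.exists_max_image Finset.card ⟨∅, Finset.mem_filter.2 ⟨Finset.mem_univ _, by
    rw [Finset.card_empty, pow_zero]; exact Nat.card_pos⟩⟩
  have hS' := (Finset.mem_filter.1 hS).2
  have htop : Subgroup.closure (S : Set Q) = ⊤ := by
    by_contra hne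
    obtain ⟨x, hx⟩ : ∃ x, x ∉ Subgroup.closure (S : Set Q) := by
      by_contra hall
      push Not at hall
      exact hne ((Subgroup.eq_top_iff' _).2 hall)
    have hxS : x ∉ S := fun h => hx (Subgroup.subset_closure h)
    have hle : Subgroup.closure (S : Set Q) ≤ Subgroup.closure ((insert x S : Finset Q) : Set Q) :=
      Subgroup.closure_mono (by simp)
    have hmem : insert x S ∈ P := by
      refine Finset.mem_filter.2 ⟨Finset.mem_univ _, ?_⟩
      have hd := Subgroup.card_dvd_of_le hle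
      obtain ⟨j, hj⟩ := hd
      have hj2 : 2 ≤ j := by
        rcases Nat.lt_or_ge j 2 with h | h
        · exfalso
          have hpos : 0 < Nat.card (Subgroup.closure ((insert x S : Finset Q) : Set Q)) := Nat.card_pos
          interval_cases j
          · omega
          · have := Subgroup.eq_of_le_of_card_ge hle (by rw [hj, mul_one])
            exact hx (this ▸ Subgroup.subset_closure (by simp))
        · exact h
      rw [Finset.card_insert_of_notMem hxS, pow_succ, hj]
      exact Nat.mul_le_mul hS' hj2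
    have := hmax _ hmem
    rw [Finset.card_insert_of_notMem hxS] at this
    omega
  calc Nat.card (Q →* B) ≤ Nat.card (S → B) :=
        Nat.card_le_card_of_injective (fun χ s => χ s.1) fun χ χ' h =>
          MonoidHom.eq_of_eqOn_dense htop fun s hs => congrFun h ⟨s, hs⟩
    _ = 2 ^ S.card := by rw [Nat.card_fun, hB, Nat.card_eq_finsetCard]
    _ ≤ Nat.card Q := hS'.trans (Subgroup.card_le_card_group _)

section Layer

variable {G : Type*} [Group G] [Finite G]

/-- Fixed points of an element of prime order in an invariant subgroup. -/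
theorem card_modEq_inf_centralizer {r : ℕ} [Fact r.Prime] {y : G} (hy : orderOf y = r)
    (S : Subgroup G) (hS : ∀ s ∈ S, y * s * y⁻¹ ∈ S) :
    Nat.card S ≡ Nat.card (S ⊓ Subgroup.centralizer ({y} : Set G) : Subgroup G) [MOD r] := by
  have hS' : ∀ h ∈ Subgroup.zpowers y, ∀ s ∈ S, h * s * h⁻¹ ∈ S := by
    intro h hh
    obtain ⟨k, rfl⟩ := mem_powers_iff_mem_zpowers.2 hh
    simp only
    induction k with
    | zero => simp
    | succ k ih =>
      intro s hs
      have := ih (Subgroup.pow_mem _ (Subgroup.mem_zpowers y) k) _ (hS s hs)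
      simpa [pow_succ, mul_assoc] using this
  let : MulAction (Subgroup.zpowers y) S :=
    { smul := fun h s => ⟨h.1 * s.1 * h.1⁻¹, hS' h.1 h.2 s.1 s.2⟩
      one_smul := fun s => Subtype.ext (by show (1 : G) * s.1 * (1 : G)⁻¹ = s.1; simp)
      mul_smul := fun a b s => Subtype.ext (by
        show (a.1 * b.1) * s.1 * (a.1 * b.1)⁻¹ = a.1 * (b.1 * s.1 * b.1⁻¹) * a.1⁻¹
        simp [mul_assoc]) }
  have hpg : IsPGroup r (Subgroup.zpowers y) :=
    IsPGroup.of_card (n := 1) (by rw [Nat.card_zpowers, hy, pow_one])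
  refine (hpg.card_modEq_card_fixedPoints S).trans ?_
  refine congrArg (fun t => t % r) (Nat.card_congr
    { toFun := fun w => ⟨w.1.1, w.1.2, ?_⟩
      invFun := fun w => ⟨⟨w.1, w.2.1⟩, fun h => Subtype.ext ?_⟩
      left_inv := fun w => rfl
      right_inv := fun w => rfl })
  · refine Subgroup.mem_centralizer_singleton_iff.2 ?_
    have h : y * w.1.1 * y⁻¹ = w.1.1 := congrArg Subtype.val (w.2 ⟨y, Subgroup.mem_zpowers y⟩)
    exact (mul_inv_eq_iff_eq_mul.1 h).symm
  · show h.1 * w.1 * h.1⁻¹ = w.1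
    have hle : Subgroup.zpowers y ≤ Subgroup.centralizer ({w.1} : Set G) :=
      Subgroup.zpowers_le.2 (Subgroup.mem_centralizer_singleton_iff.2
        (Subgroup.mem_centralizer_singleton_iff.1 w.2.2).symm)
    rw [Subgroup.mem_centralizer_singleton_iff.1 (hle h.2), mul_inv_cancel_right]

variable {A E : Subgroup G}

/-- The elements of `E` whose commutator with `g` is in `A`. -/
def fixA (hA : A ≤ Subgroup.center G) (hAE : A ≤ E) (g : G) : Subgroup G where
  carrier := {e | e ∈ E ∧ g * e * g⁻¹ * e⁻¹ ∈ A}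
  one_mem' := ⟨one_mem _, by simp⟩
  mul_mem' := fun {a b} ha hb => ⟨mul_mem ha.1 hb.1, by
    have h1 := Subgroup.mem_center_iff.1 (hA hb.2) a
    have : g * (a * b) * g⁻¹ * (a * b)⁻¹ =
        (g * a * g⁻¹ * a⁻¹) * (g * b * g⁻¹ * b⁻¹) := by
      calc g * (a * b) * g⁻¹ * (a * b)⁻¹ = g * a * g⁻¹ * (g * b * g⁻¹ * b⁻¹) * a⁻¹ := by group
        _ = g * a * g⁻¹ * (a⁻¹ * (a * (g * b * g⁻¹ * b⁻¹))) * a⁻¹ := by rw [inv_mul_cancel_left]
        _ = g * a * g⁻¹ * (a⁻¹ * ((g * b * g⁻¹ * b⁻¹) * a)) * a⁻¹ := by rw [h1]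
        _ = _ := by group
    rw [this]
    exact mul_mem ha.2 hb.2⟩
  inv_mem' := fun {a} ha => ⟨inv_mem ha.1, by
    have h1 := Subgroup.mem_center_iff.1 (hA (inv_mem ha.2)) a⁻¹
    have : g * a⁻¹ * g⁻¹ * a⁻¹⁻¹ = (g * a * g⁻¹ * a⁻¹)⁻¹ := by
      calc g * a⁻¹ * g⁻¹ * a⁻¹⁻¹ = a⁻¹ * (g * a * g⁻¹ * a⁻¹)⁻¹ * a := by group
        _ = (g * a * g⁻¹ * a⁻¹)⁻¹ * a⁻¹ * a := by rw [h1]
        _ = _ := by rw [inv_mul_cancel_right]
    rw [this]
    exact inv_mem ha.2⟩

theorem mem_fixA {hA : A ≤ Subgroup.center G} {hAE : A ≤ E} {g e : G} :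
    e ∈ fixA hA hAE g ↔ e ∈ E ∧ g * e * g⁻¹ * e⁻¹ ∈ A := Iff.rfl

theorem le_fixA (hA : A ≤ Subgroup.center G) (hAE : A ≤ E) (g : G) : A ≤ fixA hA hAE g :=
  fun a ha => ⟨hAE ha, by
    rw [Subgroup.mem_center_iff.1 (hA ha) g]
    simp⟩

/-- Only the elements of `E` act trivially on `E` modulo `A`. -/
theorem mem_of_trivial (hE : E.Normal) (hA : A ≤ Subgroup.center G) (hAE : A ≤ E)
    (hcomm : ∀ e ∈ E, ∀ f ∈ E, e * f * e⁻¹ * f⁻¹ ∈ A)
    (hC : Subgroup.centralizer (E : Set G) ≤ A) (hA2 : Nat.card A = 2) {g : G}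
    (hg : ∀ e ∈ E, g * e * g⁻¹ * e⁻¹ ∈ A) : g ∈ E := by
  classical
  let T : Set G := {x | ∀ e ∈ E, x * e * x⁻¹ * e⁻¹ ∈ A}
  haveI hAn : (A.subgroupOf E).Normal := ⟨fun a ha x => by
    have h : x * a * x⁻¹ = a := by
      apply Subtype.ext
      show x.1 * a.1 * x.1⁻¹ = a.1
      rw [Subgroup.mem_center_iff.1 (hA (Subgroup.mem_subgroupOf.1 ha)) x.1, mul_inv_cancel_right]
    rw [h]
    exact ha⟩
  let χ : (x : T) → (E ⧸ A.subgroupOf E →* A) := fun x =>
    QuotientGroup.lift (A.subgroupOf E)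
      { toFun := fun e => ⟨x.1 * e.1 * x.1⁻¹ * e.1⁻¹, x.2 e.1 e.2⟩
        map_one' := Subtype.ext (by simp)
        map_mul' := fun a b => Subtype.ext (by
          have h1 := Subgroup.mem_center_iff.1 (hA (x.2 b.1 b.2)) a.1
          show x.1 * (a.1 * b.1) * x.1⁻¹ * (a.1 * b.1)⁻¹ =
            (x.1 * a.1 * x.1⁻¹ * a.1⁻¹) * (x.1 * b.1 * x.1⁻¹ * b.1⁻¹)
          calc x.1 * (a.1 * b.1) * x.1⁻¹ * (a.1 * b.1)⁻¹
              = x.1 * a.1 * x.1⁻¹ * (x.1 * b.1 * x.1⁻¹ * b.1⁻¹) * a.1⁻¹ := by group
            _ = x.1 * a.1 * x.1⁻¹ * (a.1⁻¹ * (a.1 * (x.1 * b.1 * x.1⁻¹ * b.1⁻¹))) * a.1⁻¹ := by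
              rw [inv_mul_cancel_left]
            _ = x.1 * a.1 * x.1⁻¹ * (a.1⁻¹ * ((x.1 * b.1 * x.1⁻¹ * b.1⁻¹) * a.1)) * a.1⁻¹ := by
              rw [h1]
            _ = _ := by group) }
      (fun a ha => by
        rw [MonoidHom.mem_ker]
        apply Subtype.ext
        show x.1 * a.1 * x.1⁻¹ * a.1⁻¹ = 1
        rw [Subgroup.mem_center_iff.1 (hA (Subgroup.mem_subgroupOf.1 ha)) x.1, mul_inv_cancel_right, mul_inv_cancel])
  have hEV : Nat.card E = Nat.card (E ⧸ A.subgroupOf E) * 2 := by
    rw [← hA2, ← Nat.card_congr (Subgroup.subgroupOfEquivOfLe hAE).toEquiv]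
    exact Subgroup.card_eq_card_quotient_mul_card_subgroup _
  choose sec hsec using fun c : Set.range χ => c.2
  have hdiff : ∀ x : T, (sec ⟨χ x, x, rfl⟩).1⁻¹ * x.1 ∈ A := by
    intro x
    refine hC (Subgroup.mem_centralizer_iff.2 fun e he => ?_)
    have h := congrArg Subtype.val
      (DFunLike.congr_fun (hsec ⟨χ x, x, rfl⟩) (QuotientGroup.mk (⟨e, he⟩ : E)))
    set y := (sec ⟨χ x, x, rfl⟩).1
    have h' : y * e * y⁻¹ * e⁻¹ = x.1 * e * x.1⁻¹ * e⁻¹ := h
    have h2 : y * e * y⁻¹ = x.1 * e * x.1⁻¹ := mul_right_cancel h'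
    calc e * (y⁻¹ * x.1) = y⁻¹ * (y * e * y⁻¹) * x.1 := by group
      _ = y⁻¹ * (x.1 * e * x.1⁻¹) * x.1 := by rw [h2]
      _ = y⁻¹ * x.1 * e := by group
  have hT : Nat.card T ≤ Nat.card E := by
    calc Nat.card T ≤ Nat.card (Set.range χ × A) :=
          Nat.card_le_card_of_injective (fun x => (⟨χ x, x, rfl⟩, ⟨_, hdiff x⟩)) fun x x' h => by
            simp only [Prod.mk.injEq, Subtype.mk.injEq] at h
            obtain ⟨h1, h2⟩ := h
            have h3 : sec ⟨χ x, x, rfl⟩ = sec ⟨χ x', x', rfl⟩ := congrArg sec h1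
            rw [h3] at h2
            exact Subtype.ext (mul_left_cancel h2)
      _ ≤ Nat.card (E ⧸ A.subgroupOf E →* A) * 2 := by
        rw [Nat.card_prod, hA2]
        haveI : Finite (E ⧸ A.subgroupOf E →* A) := Finite.of_injective _ DFunLike.coe_injective
        exact Nat.mul_le_mul_right 2 (Nat.card_le_card_of_injective _ Subtype.val_injective)
      _ ≤ _ := hEV ▸ Nat.mul_le_mul_right 2 (card_hom_le hA2)
  have hET : (E : Set G) ⊆ T := fun e he f hf => hcomm e he f hf
  have : (E : Set G) = T := Set.eq_of_subset_of_ncard_le hET (by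
    rw [← Nat.card_coe_set_eq, ← Nat.card_coe_set_eq]; exact hT) (Set.toFinite _)
  exact this.ge hg

/-- A 2-subgroup fixes an element of `E` outside `A` modulo `A`. -/
theorem exists_fixed_mod (hE : E.Normal) (hA : A ≤ Subgroup.center G) (hAE : A ≤ E)
    (h2E : 2 ∣ A.relIndex E) {T : Subgroup G} (hT : IsPGroup 2 T) :
    ∃ e ∈ E, e ∉ A ∧ ∀ t ∈ T, t * e * t⁻¹ * e⁻¹ ∈ A := by
  haveI : Fact (Nat.Prime 2) := ⟨Nat.prime_two⟩
  haveI hAn : A.Normal := ⟨fun a ha x => by
    rw [Subgroup.mem_center_iff.1 (hA ha) x, mul_inv_cancel_right]; exact ha⟩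
  let Ebar : Subgroup (G ⧸ A) := E.map (QuotientGroup.mk' A)
  haveI : Ebar.Normal := hE.map _ (QuotientGroup.mk'_surjective A)
  let : MulAction T Ebar :=
    { smul := fun t q => MulAut.conjNormal (QuotientGroup.mk' A t.1) q
      one_smul := fun q => by show MulAut.conjNormal (QuotientGroup.mk' A 1) q = q; simp
      mul_smul := fun a b q => by
        show MulAut.conjNormal (QuotientGroup.mk' A (a.1 * b.1)) q =
          MulAut.conjNormal (QuotientGroup.mk' A a.1) (MulAut.conjNormal (QuotientGroup.mk' A b.1) q)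
        rw [map_mul, map_mul, MulAut.mul_apply] }
  have hcard : Nat.card Ebar = A.relIndex E := by
    rw [← Subgroup.relIndex_ker, QuotientGroup.ker_mk']
  obtain ⟨b, hb, hb1⟩ := hT.exists_fixed_point_of_prime_dvd_card_of_fixed_point Ebar
    (hcard ▸ h2E) (a := (1 : Ebar)) (fun t => by
      show MulAut.conjNormal (QuotientGroup.mk' A t.1) (1 : Ebar) = 1
      exact map_one _)
  obtain ⟨e, he, hbe⟩ := b.2
  refine ⟨e, he, fun heA => hb1 (Subtype.ext ?_), fun t ht => ?_⟩
  · rw [← hbe, OneMemClass.coe_one, QuotientGroup.mk'_apply, (QuotientGroup.eq_one_iff e).2 heA]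
  · have h := congrArg Subtype.val (hb ⟨t, ht⟩)
    change ((MulAut.conjNormal (QuotientGroup.mk' A t) b : Ebar) : G ⧸ A) = b.1 at h
    rw [MulAut.conjNormal_apply, ← hbe, ← map_inv, ← map_mul, ← map_mul] at h
    rw [← QuotientGroup.eq_one_iff, ← QuotientGroup.mk'_apply A, map_mul, map_inv, h, mul_inv_cancel]

end Layer

variable {p : ℕ} [Fact p.Prime] {V : Type*} [AddCommGroup V] [Module (ZMod p) V] [Finite V]
  {G : Type*} [Group G] [Finite G] {ρ : G →* (V ≃ₗ[ZMod p] V)}

/-- The exceptional groups of the space of 81 vectors. -/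
theorem eightyone [Nontrivial V] (H : Hyp ρ) (hp3 : p = 3) (hn : finrank (ZMod p) V = 4)
    {A E : Subgroup G} (D : Cfsg.Agent.H78.ExceptionalData p V A E) {v : V} (hv : v ≠ 0) :
    Nat.card (ConjClasses G) + Nat.card (stab ρ v) < Nat.card V := by
  classical
  subst hp3
  haveI hEn := D.symp.normalE
  haveI : Fact (Nat.Prime 2) := ⟨Nat.prime_two⟩
  haveI : Fact (Nat.Prime 5) := ⟨by norm_num⟩
  have hAE := D.symp.le
  have hAc := D.central
  have hA2 : Nat.card A = 2 :=
    Nat.dvd_antisymm D.card_dvd D.two_dvd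
  have hr : A.relIndex E = 16 := by rw [D.relIndex_eq, hn]; norm_num
  have hE32 : Nat.card E = 32 := by
    have := (A.subgroupOf E).card_mul_index
    rw [Nat.card_congr (Subgroup.subgroupOfEquivOfLe hAE).toEquiv, hA2, ← Subgroup.relIndex, hr] at this
    omega
  have hGe := H.card_eq hv
  have hcardV : Nat.card V = 81 := by rw [card_V (p := 3) (V := V), hn]; norm_num
  rw [hcardV] at hGe ⊢
  have hgl : Nat.card G ∣ 24261120 := by
    have hd := Subgroup.card_dvd_of_injective
      ((toGL (Module.finBasisOfFinrankEq (ZMod 3) V hn)).comp ρ) ((toGL_injective _).comp H.inj)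
    rw [Matrix.card_GL_field, Fin.prod_univ_four, ZMod.card] at hd
    exact hd
  -- elements of order five fix only `A`
  have hfive : ∀ y : G, orderOf y = 5 → ∀ S : Subgroup G, A ≤ S → S ≤ E →
      (∀ s ∈ S, y * s * y⁻¹ ∈ S) → Nat.card S = 2 ∨ Nat.card S = 32 := by
    intro y hy
    have key : ∀ S : Subgroup G, A ≤ S → S ≤ E → ∃ j, 1 ≤ j ∧ j ≤ 5 ∧ Nat.card S = 2 ^ j := by
      intro S hAS hSE
      have hd := Subgroup.card_dvd_of_le hSE
      have h2 := Subgroup.card_dvd_of_le hAS
      rw [hA2] at h2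
      rw [hE32, show 32 = 2 ^ 5 from rfl] at hd
      obtain ⟨j, hj, hc⟩ := (Nat.dvd_prime_pow Nat.prime_two).1 hd
      refine ⟨j, ?_, hj, hc⟩
      rcases Nat.eq_zero_or_pos j with rfl | h
      · rw [hc] at h2; norm_num at h2
      · exact h
    have hCE : Nat.card (E ⊓ Subgroup.centralizer ({y} : Set G) : Subgroup G) = 2 := by
      have hm := card_modEq_inf_centralizer hy E (fun s hs => hEn.conj_mem s hs y)
      obtain ⟨j, h1, h5, hj⟩ := key _ (le_inf hAE fun a ha => Subgroup.mem_centralizer_singleton_iff.2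
        (Subgroup.mem_center_iff.1 (hAc ha) y).symm) inf_le_left
      rw [hE32, hj] at hm
      have h5' : j ≠ 5 := by
        rintro rfl
        have hall : E ≤ Subgroup.centralizer ({y} : Set G) :=
          inf_eq_left.1 (Subgroup.eq_of_le_of_card_ge inf_le_left (by rw [hj, hE32]; norm_num))
        have hyA : y ∈ A := D.centralizer_le (Subgroup.mem_centralizer_iff.2 fun e he =>
          Subgroup.mem_centralizer_singleton_iff.1 (hall he))
        have := Subgroup.orderOf_dvd_natCard A hyA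
        rw [hy, hA2] at this
        norm_num at this
      interval_cases j <;> first | exact hj | exact absurd rfl h5' | exact absurd hm (by decide)
    intro S hAS hSE hS
    have hm := card_modEq_inf_centralizer hy S hS
    have hle : Nat.card (S ⊓ Subgroup.centralizer ({y} : Set G) : Subgroup G) = 2 := by
      have h1 : Nat.card (S ⊓ Subgroup.centralizer ({y} : Set G) : Subgroup G) ≤ 2 :=
        hCE ▸ Subgroup.card_le_of_le (inf_le_inf_right _ hSE)
      have h2 : 2 ≤ Nat.card (S ⊓ Subgroup.centralizer ({y} : Set G) : Subgroup G) := by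
        rw [← hA2]
        exact Subgroup.card_le_of_le (le_inf hAS fun a ha => Subgroup.mem_centralizer_singleton_iff.2
          (Subgroup.mem_center_iff.1 (hAc ha) y).symm)
      omega
    obtain ⟨j, h1, h5, hj⟩ := key S hAS hSE
    rw [hle, hj] at hm
    interval_cases j <;> first | exact Or.inl hj | exact Or.inr hj | exact absurd hm (by decide)
  have hinE : ∀ g : G, (∀ e ∈ E, g * e * g⁻¹ * e⁻¹ ∈ A) → g ∈ E := fun g =>
    mem_of_trivial hEn hAc hAE D.symp.comm_mem D.centralizer_le hA2
  -- thirteen does not divide the order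
  have h13 : ¬ 13 ∣ Nat.card G := by
    intro h
    haveI : Fact (Nat.Prime 13) := ⟨by norm_num⟩
    obtain ⟨y, hy⟩ := exists_prime_orderOf_dvd_card' 13 h
    have hm := card_modEq_inf_centralizer hy E (fun s hs => hEn.conj_mem s hs y)
    have hd := Subgroup.card_dvd_of_le (inf_le_left : E ⊓ Subgroup.centralizer ({y} : Set G) ≤ E)
    rw [hE32, show 32 = 2 ^ 5 from rfl] at hd
    obtain ⟨j, hj5, hj⟩ := (Nat.dvd_prime_pow Nat.prime_two).1 hd
    rw [hE32, hj] at hm
    have hj5' : j = 5 := by interval_cases j <;> first | rfl | exact absurd hm (by decide)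
    rw [hj5'] at hj
    have hall : E ≤ Subgroup.centralizer ({y} : Set G) :=
      inf_eq_left.1 (Subgroup.eq_of_le_of_card_ge inf_le_left (by rw [hj, hE32]; norm_num))
    have hyA : y ∈ A := D.centralizer_le (Subgroup.mem_centralizer_iff.2 fun e he =>
      Subgroup.mem_centralizer_singleton_iff.1 (hall he))
    have := Subgroup.orderOf_dvd_natCard A hyA
    rw [hy, hA2] at this
    norm_num at this
  have hG9 : Nat.card G ∣ 2 ^ 9 * 5 := by
    have c1 : Nat.Coprime (Nat.card G) 13 := ((Nat.Prime.coprime_iff_not_dvd (by norm_num)).2 h13).symm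
    have c2 : Nat.Coprime (Nat.card G) (3 ^ 6) :=
      (((Nat.Prime.coprime_iff_not_dvd Nat.prime_three).2 H.cop).symm).pow_right 6
    rw [show 24261120 = 2 ^ 9 * 5 * 3 ^ 6 * 13 by norm_num] at hgl
    exact c2.dvd_of_dvd_mul_right (c1.dvd_of_dvd_mul_right hgl)
  have h5G : 5 ∣ Nat.card G := hGe ▸ Dvd.dvd.mul_left (by norm_num) _
  obtain ⟨y, hy⟩ := exists_prime_orderOf_dvd_card' 5 h5G
  -- the quotient
  let π := QuotientGroup.mk' E
  set κ := Nat.card (G ⧸ E) with hκ
  have hGK : Nat.card G = κ * 32 := by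
    rw [hκ, ← hE32]
    exact Subgroup.card_eq_card_quotient_mul_card_subgroup E
  have hκ16 : κ ∣ 2 ^ 4 * 5 := by
    rw [hGK, show 2 ^ 9 * 5 = 2 ^ 4 * 5 * 32 by norm_num] at hG9
    exact Nat.dvd_of_mul_dvd_mul_right (by norm_num) hG9
  have hκ5 : 5 ∣ κ := by
    rw [hGK] at h5G
    exact (Nat.Coprime.dvd_of_dvd_mul_right (by norm_num) h5G)
  have hπy : orderOf (π y) = 5 := by
    rcases (Nat.dvd_prime (by norm_num)).1 (hy ▸ orderOf_map_dvd π y) with h | h
    · exfalso
      have hyE : y ∈ E := (QuotientGroup.eq_one_iff y).1 (orderOf_eq_one_iff.1 h)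
      have := Subgroup.orderOf_dvd_natCard E hyE
      rw [hy, hE32] at this
      norm_num at this
    · exact h
  -- fixed elements of elements commuting with `y` modulo `E`
  have hF : ∀ g : G, g ∉ E → π g * π y = π y * π g → Nat.card (fixA hAc hAE g) = 2 := by
    intro g hg hgy
    refine (hfive y hy _ (le_fixA hAc hAE g) (fun e he => he.1) fun e he => ?_).resolve_right
      fun h32 => hg (hinE g fun e he => ?_)
    · obtain ⟨heE, hea⟩ := mem_fixA.1 he
      refine mem_fixA.2 ⟨hEn.conj_mem e heE y, ?_⟩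
      have hf : g⁻¹ * y⁻¹ * g * y ∈ E := by
        rw [← QuotientGroup.eq_one_iff]
        show π (g⁻¹ * y⁻¹ * g * y) = 1
        rw [map_mul, map_mul, map_mul, map_inv, map_inv, mul_assoc _ (π g), hgy]
        group
      set f := g⁻¹ * y⁻¹ * g * y with hfdef
      set c := f * e * f⁻¹ * e⁻¹ with hc
      set a := g * e * g⁻¹ * e⁻¹ with ha
      have hcA : c ∈ A := D.symp.comm_mem f hf e heE
      have hcz := Subgroup.mem_center_iff.1 (hAc hcA)
      have haz := Subgroup.mem_center_iff.1 (hAc hea)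
      have : g * (y * e * y⁻¹) * g⁻¹ * (y * e * y⁻¹)⁻¹ = c * a := by
        calc g * (y * e * y⁻¹) * g⁻¹ * (y * e * y⁻¹)⁻¹
            = y * g * (c * e) * g⁻¹ * y⁻¹ * (y * e * y⁻¹)⁻¹ := by rw [hc, hfdef]; group
          _ = y * (g * c) * e * g⁻¹ * y⁻¹ * (y * e * y⁻¹)⁻¹ := by group
          _ = y * c * (g * e * g⁻¹ * e⁻¹) * y⁻¹ := by rw [hcz g]; group
          _ = y * (c * a) * y⁻¹ := by rw [ha]; group
          _ = c * a := by rw [Subgroup.mem_center_iff.1 (hAc (mul_mem hcA hea)) y, mul_inv_cancel_right]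
      rw [this]
      exact mul_mem hcA hea
    · have : fixA hAc hAE g = E :=
        Subgroup.eq_of_le_of_card_ge (fun x hx => hx.1) (by rw [hE32, h32])
      exact (this.symm ▸ he : e ∈ fixA hAc hAE g).2
  have hno2 : ∀ T : Subgroup G, IsPGroup 2 T → (∀ t ∈ T, y * t * y⁻¹ ∈ T) → T ≤ E := by
    intro T hT hTy
    obtain ⟨e, he, heA, hef⟩ := exists_fixed_mod hEn hAc hAE (hr ▸ by norm_num) hT
    let S : Subgroup G := E ⊓ ⨅ t : T, fixA hAc hAE t.1
    have hmem : ∀ x, x ∈ S ↔ x ∈ E ∧ ∀ t ∈ T, t * x * t⁻¹ * x⁻¹ ∈ A := by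
      intro x
      simp only [S, Subgroup.mem_inf, Subgroup.mem_iInf, mem_fixA]
      exact ⟨fun h => ⟨h.1, fun t ht => (h.2 ⟨t, ht⟩).2⟩, fun h => ⟨h.1, fun t => ⟨h.1, h.2 t.1 t.2⟩⟩⟩
    have hAS : A ≤ S := fun a ha => (hmem a).2 ⟨hAE ha, fun t _ => (le_fixA hAc hAE t ha).2⟩
    have hcase := hfive y hy S hAS inf_le_left fun x hx => by
      obtain ⟨hxE, hxT⟩ := (hmem x).1 hx
      refine (hmem _).2 ⟨hEn.conj_mem x hxE y, fun t ht => ?_⟩
      have ht' : y⁻¹ * t * y ∈ T := by
        have hall : ∀ k : ℕ, ∀ t ∈ T, y ^ k * t * (y ^ k)⁻¹ ∈ T := by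
          intro k
          induction k with
          | zero => simp
          | succ k ih =>
            intro t ht
            have := ih _ (hTy t ht)
            simpa [pow_succ, mul_assoc] using this
        have h5 : y ^ 5 = 1 := hy ▸ pow_orderOf_eq_one y
        have h4 : y ^ 4 = y⁻¹ := eq_inv_of_mul_eq_one_left (by rw [← pow_succ, h5])
        have := hall 4 t ht
        rwa [h4, inv_inv] at this
      have h := hxT _ ht'
      have hz := Subgroup.mem_center_iff.1 (hAc h) y
      have : t * (y * x * y⁻¹) * t⁻¹ * (y * x * y⁻¹)⁻¹ =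
          y * (y⁻¹ * t * y * x * (y⁻¹ * t * y)⁻¹ * x⁻¹) * y⁻¹ := by group
      rw [this, hz, mul_inv_cancel_right]
      exact h
    rcases hcase with h2 | h32
    · have : A = S := Subgroup.eq_of_le_of_card_ge hAS (by rw [h2, hA2])
      exact absurd (this ▸ (hmem e).2 ⟨he, hef⟩ : e ∈ A) heA
    · have hSE : S = E := Subgroup.eq_of_le_of_card_ge inf_le_left (by rw [hE32, h32])
      exact fun t ht => hinE t fun x hx => ((hmem x).1 (hSE.symm ▸ hx)).2 t ht
  -- the Sylow five subgroup of the quotient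
  let P : Subgroup (G ⧸ E) := Subgroup.zpowers (π y)
  have hPc : Nat.card P = 5 := by rw [Nat.card_zpowers, hπy]
  have hκ4 : κ ∣ 2 ^ 4 * 5 := hκ16
  have h25 : ¬ 5 ^ 2 ∣ κ := fun h => absurd (h.trans hκ16) (by norm_num)
  obtain ⟨Q, hQ⟩ := (IsPGroup.of_card (n := 1) (by rw [hPc, pow_one]) : IsPGroup 5 P).exists_le_sylow
  have hQP : (Q : Subgroup (G ⧸ E)) = P := by
    refine (Subgroup.eq_of_le_of_card_ge hQ ?_).symm
    obtain ⟨j, hj⟩ := IsPGroup.iff_card.1 Q.isPGroup'
    rw [hPc, hj]
    rcases Nat.lt_or_ge j 2 with h | h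
    · interval_cases j <;> norm_num
    · exact absurd ((pow_dvd_pow 5 h).trans (hj ▸ Subgroup.card_subgroup_dvd_card _)) h25
  -- commuting with `π y`
  have hCy : ∀ g : G, π g * π y = π y * π g → π g ∈ P := by
    intro g hg
    by_contra hgP
    set C := Subgroup.centralizer ({π y} : Set (G ⧸ E))
    have hPC : P ≤ C := Subgroup.zpowers_le.2 (Subgroup.mem_centralizer_singleton_iff.2 rfl)
    have hd : Nat.card C ∣ 2 ^ 4 * 5 := (Subgroup.card_subgroup_dvd_card C).trans hκ16
    have h2 : 2 ∣ Nat.card C := by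
      by_contra h2
      have hc5 : Nat.card C ∣ 5 :=
        ((((Nat.prime_two.coprime_iff_not_dvd).2 h2).symm).pow_right 4).dvd_of_dvd_mul_left hd
      have : P = C := Subgroup.eq_of_le_of_card_ge hPC (hPc ▸ Nat.le_of_dvd (by norm_num) hc5)
      exact hgP (this ▸ Subgroup.mem_centralizer_singleton_iff.2 hg)
    obtain ⟨c, hc⟩ := exists_prime_orderOf_dvd_card' (G := C) 2 h2
    obtain ⟨h, hh⟩ := QuotientGroup.mk'_surjective E c.1
    set o := orderOf h
    have hc' : orderOf (π h) = 2 := by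
      show orderOf (QuotientGroup.mk' E h) = 2
      rw [hh, Subgroup.orderOf_coe, hc]
    obtain ⟨a, m, hm, ho⟩ := Nat.exists_eq_two_pow_mul_odd (orderOf_pos h).ne'
    set h' := h ^ m with hh'
    have hπ' : π h' = π h := by
      obtain ⟨i, hi⟩ := hm
      rw [hh', map_pow, hi, pow_succ, pow_mul, ← hc', pow_orderOf_eq_one, one_pow, one_mul]
    have hT : IsPGroup 2 (Subgroup.zpowers h') := by
      obtain ⟨j, -, hj⟩ := (Nat.dvd_prime_pow Nat.prime_two).1
        (orderOf_dvd_of_pow_eq_one (x := h') (n := 2 ^ a) (by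
          rw [hh', ← pow_mul, mul_comm, ← ho]; exact pow_orderOf_eq_one h))
      exact IsPGroup.of_card (n := j) (by rw [Nat.card_zpowers, hj])
    have hnE : h' ∉ E := by
      intro hE'
      have : π h' = 1 := (QuotientGroup.eq_one_iff h').2 hE'
      rw [hπ', ← orderOf_eq_one_iff, hc'] at this
      norm_num at this
    have hcomm' : π h' * π y = π y * π h' := by
      rw [hπ']
      show QuotientGroup.mk' E h * π y = π y * QuotientGroup.mk' E h
      rw [hh]
      exact Subgroup.mem_centralizer_singleton_iff.1 c.2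
    obtain ⟨e, he, heA, hef⟩ := exists_fixed_mod hEn hAc hAE (hr ▸ by norm_num) hT
    have h2c := hF h' hnE hcomm'
    have : A = fixA hAc hAE h' := Subgroup.eq_of_le_of_card_ge (le_fixA hAc hAE h') (by rw [h2c, hA2])
    exact heA (this ▸ ⟨he, hef h' (Subgroup.mem_zpowers h')⟩)
  have hPn : P.Normal := by
    rw [← hQP]
    have hn5 : Nat.card (Sylow 5 (G ⧸ E)) ∣ 16 := by
      have h1 := Q.card_dvd_index
      have h2 : (Q : Subgroup (G ⧸ E)).index ∣ 16 := by
        have := (Q : Subgroup (G ⧸ E)).card_mul_index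
        rw [hQP, hPc, ← hκ] at this
        rw [hQP]
        refine Nat.dvd_of_mul_dvd_mul_left (show 0 < 5 by norm_num) ?_
        rw [this]
        exact hκ16.trans (by norm_num)
      exact h1.trans h2
    have hmod := card_sylow_modEq_one 5 (G ⧸ E)
    rw [show 16 = 2 ^ 4 from rfl] at hn5
    obtain ⟨j, hj4, hj⟩ := (Nat.dvd_prime_pow Nat.prime_two).1 hn5
    rw [hj] at hmod
    interval_cases j <;> first | exact absurd hmod (by decide) | skip
    · haveI : Subsingleton (Sylow 5 (G ⧸ E)) := (Nat.card_eq_one_iff_unique.1 (by simpa using hj)).1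
      exact Q.normal_of_subsingleton
    · exfalso
      have hidx := Q.card_eq_index_normalizer
      set N := Subgroup.normalizer ((Q : Subgroup (G ⧸ E)) : Set (G ⧸ E))
      rw [hj] at hidx
      have hN := N.card_mul_index
      have hidx' : N.index = 2 ^ 4 := hidx.symm
      rw [hidx', ← hκ] at hN
      have hN5 : Nat.card N ≤ Nat.card (Q : Subgroup (G ⧸ E)) := by
        rw [hQP, hPc]
        have := Nat.le_of_dvd (by norm_num) (hN ▸ hκ16)
        omega
      have hNQ : (Q : Subgroup (G ⧸ E)) = N :=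
        Subgroup.eq_of_le_of_card_ge Subgroup.le_normalizer hN5
      have hNC : N ≤ Subgroup.centralizer ((Q : Subgroup (G ⧸ E)) : Set (G ⧸ E)) := by
        rw [← hNQ, hQP]
        intro x hx
        rw [Subgroup.mem_centralizer_iff]
        intro z hz
        haveI : IsCyclic P := isCyclic_of_prime_card hPc
        letI := IsCyclic.commGroup (α := P)
        exact congrArg Subtype.val (mul_comm (⟨z, hz⟩ : P) ⟨x, hx⟩)
      have hcompl := MonoidHom.ker_transferSylow_isComplement' Q hNC
      set M := (MonoidHom.transferSylow Q hNC).ker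
      have hM := hcompl.card_mul
      rw [hQP, hPc, ← hκ] at hM
      have hMp : IsPGroup 2 M := by
        have : Nat.card M ∣ 2 ^ 4 := Nat.dvd_of_mul_dvd_mul_right (show 0 < 5 by norm_num) (hM ▸ hκ16)
        obtain ⟨j, -, hj⟩ := (Nat.dvd_prime_pow Nat.prime_two).1 this
        exact IsPGroup.of_card hj
      have hT : IsPGroup 2 (M.comap π) := by
        have hEp : IsPGroup 2 (π.ker) := by
          rw [QuotientGroup.ker_mk']
          exact IsPGroup.of_card (n := 5) hE32
        exact hMp.comap_of_ker_isPGroup π hEp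
      have hle := hno2 _ hT (fun t ht => by
        rw [Subgroup.mem_comap, map_mul, map_mul, map_inv]
        exact (MonoidHom.normal_ker (MonoidHom.transferSylow Q hNC)).conj_mem _ ht _)
      have hbot : M = ⊥ := (Subgroup.eq_bot_iff_forall _).2 fun x hx => by
        obtain ⟨g, rfl⟩ := QuotientGroup.mk'_surjective E x
        exact (QuotientGroup.eq_one_iff g).2 (hle hx)
      rw [hbot, Subgroup.card_bot, one_mul] at hM
      have hNle : 5 * 16 ≤ κ := by rw [← hN, ← hPc, ← hQP, hNQ]; norm_num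
      omega
  -- the quotient has order at most twenty
  have hκ20 : κ ≤ 20 := by
    set C := Subgroup.centralizer ({π y} : Set (G ⧸ E))
    have hC5 : Nat.card C ≤ 5 := hPc ▸ Subgroup.card_le_of_le fun x hx => by
      obtain ⟨g, rfl⟩ := QuotientGroup.mk'_surjective E x
      exact hCy g (Subgroup.mem_centralizer_singleton_iff.1 hx)
    have hidx : C.index ≤ 4 := by
      rw [Subgroup.index_eq_card]
      let f : (G ⧸ E) ⧸ C → {x : P // x ≠ 1} := fun q =>
        ⟨⟨q.out * π y * q.out⁻¹, hPn.conj_mem _ (Subgroup.mem_zpowers _) _⟩, fun h => by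
          have h' : q.out * π y * q.out⁻¹ = 1 := congrArg Subtype.val h
          rw [mul_inv_eq_one, mul_eq_left] at h'
          rw [h', orderOf_one] at hπy
          norm_num at hπy⟩
      have hf : Function.Injective f := by
        intro q q' h
        have h' : q.out * π y * q.out⁻¹ = q'.out * π y * q'.out⁻¹ :=
          congrArg (fun r => r.1.1) h
        rw [← QuotientGroup.out_eq' q, ← QuotientGroup.out_eq' q']
        refine QuotientGroup.eq.2 (Subgroup.mem_centralizer_singleton_iff.2 ?_)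
        calc q.out⁻¹ * q'.out * π y = q.out⁻¹ * (q'.out * π y * q'.out⁻¹) * q'.out := by group
          _ = q.out⁻¹ * (q.out * π y * q.out⁻¹) * q'.out := by rw [h']
          _ = π y * (q.out⁻¹ * q'.out) := by group
      refine (Nat.card_le_card_of_injective f hf).trans ?_
      have := Fintype.ofFinite P
      rw [Nat.card_eq_fintype_card, Fintype.card_subtype_compl, Fintype.card_subtype_eq,
        ← Nat.card_eq_fintype_card, hPc]
    have := C.card_mul_index
    rw [← hκ] at this
    rw [← this]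
    exact Nat.mul_le_mul hC5 hidx
  -- centralisers
  have hin : ∀ g ∈ E, g ∉ A → 5 * Nat.card (Subgroup.centralizer ({g} : Set G)) ≤ Nat.card G := by
    intro g hgE hgA
    set C := Subgroup.centralizer ({g} : Set G)
    have h5 : ¬ 5 ∣ Nat.card C := by
      intro h5
      obtain ⟨w, hw⟩ := exists_prime_orderOf_dvd_card' (G := C) 5 h5
      rw [← Subgroup.orderOf_coe] at hw
      let S : Subgroup G := E ⊓ Subgroup.centralizer ({w.1} : Set G)
      have hAS : A ≤ S := le_inf hAE fun a ha =>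
        Subgroup.mem_centralizer_singleton_iff.2 (Subgroup.mem_center_iff.1 (hAc ha) w.1).symm
      rcases hfive w.1 hw S hAS inf_le_left (fun s hs => by
          rw [show w.1 * s * w.1⁻¹ = s by
            rw [← Subgroup.mem_centralizer_singleton_iff.1 hs.2, mul_inv_cancel_right]]
          exact hs) with h2 | h32
      · have : A = S := Subgroup.eq_of_le_of_card_ge hAS (by rw [h2, hA2])
        exact hgA (this ▸ ⟨hgE, Subgroup.mem_centralizer_singleton_iff.2
          (Subgroup.mem_centralizer_singleton_iff.1 w.2).symm⟩)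
      · have hall : S = E := Subgroup.eq_of_le_of_card_ge inf_le_left (by rw [hE32, h32])
        have hwA : w.1 ∈ A := D.centralizer_le (Subgroup.mem_centralizer_iff.2 fun e he =>
          Subgroup.mem_centralizer_singleton_iff.1 ((hall.symm ▸ he : e ∈ S).2))
        have := Subgroup.orderOf_dvd_natCard A hwA
        rw [hw, hA2] at this
        norm_num at this
    obtain ⟨c, hc⟩ := Subgroup.card_subgroup_dvd_card C
    have h5c : 5 ∣ c := ((Nat.Prime.coprime_iff_not_dvd (by norm_num)).2 h5).dvd_of_dvd_mul_left (hc ▸ h5G)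
    have hc0 : c ≠ 0 := by rintro rfl; rw [mul_zero] at hc; exact Nat.card_pos.ne' hc
    rw [hc, mul_comm]
    exact Nat.mul_le_mul_left _ (Nat.le_of_dvd (by omega) h5c)
  have hout : ∀ g : G, g ∉ E → 5 * Nat.card (Subgroup.centralizer ({g} : Set G)) ≤ 16 * κ := by
    intro g hg
    set C := Subgroup.centralizer ({g} : Set G)
    set CK := Subgroup.centralizer ({π g} : Set (G ⧸ E))
    have hCle : Nat.card C ≤ Nat.card (E ⊓ C : Subgroup G) * Nat.card CK := by
      have h1 := (E.subgroupOf C).card_mul_index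
      rw [← Subgroup.inf_subgroupOf_right,
        Nat.card_congr (Subgroup.subgroupOfEquivOfLe (inf_le_right : E ⊓ C ≤ C)).toEquiv] at h1
      rw [← h1, Subgroup.inf_subgroupOf_right]
      refine Nat.mul_le_mul_left _ ?_
      have hk : (π.comp C.subtype).ker = E.subgroupOf C := by
        ext x
        simp [π, Subgroup.mem_subgroupOf]
      rw [← hk, Subgroup.index_ker]
      refine Subgroup.card_le_of_le ?_
      rintro _ ⟨x, rfl⟩
      refine Subgroup.mem_centralizer_singleton_iff.2 ?_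
      show π x.1 * π g = π g * π x.1
      rw [← map_mul, Subgroup.mem_centralizer_singleton_iff.1 x.2, map_mul]
    have hCE16 : Nat.card (E ⊓ C : Subgroup G) ≤ 16 := by
      have hd := Subgroup.card_dvd_of_le (inf_le_left : E ⊓ C ≤ E)
      obtain ⟨q, hq⟩ := hd
      rw [hE32] at hq
      have hq1 : q ≠ 1 := by
        rintro rfl
        have hall : E ⊓ C = E := Subgroup.eq_of_le_of_card_ge inf_le_left (by rw [hE32]; omega)
        exact hg (hAE (D.centralizer_le (Subgroup.mem_centralizer_iff.2 fun e he =>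
          Subgroup.mem_centralizer_singleton_iff.1 ((hall.symm ▸ he : e ∈ E ⊓ C).2))))
      have hq0 : q ≠ 0 := by rintro rfl; omega
      have := Nat.mul_le_mul_left (Nat.card (E ⊓ C : Subgroup G)) (show 2 ≤ q by omega)
      omega
    have hCKκ : Nat.card CK ≤ κ := Subgroup.card_le_card_group _
    by_cases h5 : 5 ∣ Nat.card CK
    · obtain ⟨w, hw⟩ := exists_prime_orderOf_dvd_card' (G := CK) 5 h5
      have hwP : w.1 ∈ P := by
        have hz : Subgroup.zpowers w.1 ≤ (Q : Subgroup (G ⧸ E)) := by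
          have hp5 : IsPGroup 5 (Subgroup.zpowers w.1) :=
            IsPGroup.of_card (n := 1) (by rw [Nat.card_zpowers, Subgroup.orderOf_coe, hw, pow_one])
          obtain ⟨R, hR⟩ := hp5.exists_le_sylow
          haveI := hQP.symm ▸ hPn
          haveI := Q.unique_of_normal (hQP.symm ▸ hPn)
          rwa [Subsingleton.elim R Q] at hR
        rw [← hQP]
        exact hz (Subgroup.mem_zpowers _)
      have hw1 : Subgroup.zpowers w.1 = P :=
        Subgroup.eq_of_le_of_card_ge (Subgroup.zpowers_le.2 hwP)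
          (by rw [hPc, Nat.card_zpowers, Subgroup.orderOf_coe, hw])
      have hle : P ≤ CK := hw1 ▸ Subgroup.zpowers_le.2 w.2
      have hgy : π g * π y = π y * π g :=
        (Subgroup.mem_centralizer_singleton_iff.1 (hle (Subgroup.mem_zpowers _))).symm
      have h2 : Nat.card (E ⊓ C : Subgroup G) ≤ 2 := by
        rw [← hF g hg hgy]
        refine Subgroup.card_le_of_le fun e he => mem_fixA.2 ⟨he.1, ?_⟩
        rw [← Subgroup.mem_centralizer_singleton_iff.1 he.2, mul_inv_cancel_right, mul_inv_cancel]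
        exact one_mem _
      calc 5 * Nat.card C ≤ 5 * (2 * κ) :=
            Nat.mul_le_mul_left 5 (hCle.trans (Nat.mul_le_mul h2 hCKκ))
        _ ≤ 16 * κ := by omega
    · obtain ⟨c, hc⟩ := Subgroup.card_subgroup_dvd_card CK
      rw [← hκ] at hc
      have h5c : 5 ∣ c :=
        ((Nat.Prime.coprime_iff_not_dvd (by norm_num)).2 h5).dvd_of_dvd_mul_left (hc ▸ hκ5)
      have hc0 : c ≠ 0 := by
        rintro rfl
        rw [mul_zero] at hc
        have : 0 < κ := Nat.card_pos
        omega
      calc 5 * Nat.card C ≤ 5 * (16 * Nat.card CK) :=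
            Nat.mul_le_mul_left 5 (hCle.trans (Nat.mul_le_mul_right _ hCE16))
        _ = 16 * (Nat.card CK * 5) := by ring
        _ ≤ 16 * κ := Nat.mul_le_mul_left 16 (hc ▸ Nat.mul_le_mul_left _ (Nat.le_of_dvd (by omega) h5c))
  -- summation
  have := Fintype.ofFinite G
  have hsum := card_classes_mul (G := G)
  set k := Nat.card (ConjClasses G)
  have hcardsub : ∀ S : Subgroup G, (Finset.univ.filter fun g => g ∈ S).card = Nat.card S := fun S => by
    rw [Nat.card_eq_fintype_card, Fintype.card_subtype]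
  have hb : ∀ g, 5 * Nat.card (Subgroup.centralizer ({g} : Set G)) ≤
      if g ∈ E then (if g ∈ A then 5 * Nat.card G else Nat.card G) else 16 * κ := by
    intro g
    split_ifs with h1 h2
    · exact Nat.mul_le_mul_left 5 (Subgroup.card_le_card_group _)
    · exact hin g h1 h2
    · exact hout g h1
  have htot : 5 * (k * Nat.card G) ≤
      2 * (5 * Nat.card G) + 30 * Nat.card G + (Nat.card G - 32) * (16 * κ) := by
    rw [hsum, Finset.mul_sum]
    refine (Finset.sum_le_sum fun g _ => hb g).trans (le_of_eq ?_)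
    have f1 : Finset.filter (fun g => g ∈ A) (Finset.univ.filter fun g => g ∈ E) =
        Finset.univ.filter fun g => g ∈ A := by
      ext x; simp only [Finset.mem_filter, Finset.mem_univ, true_and]; exact ⟨And.right, fun h => ⟨hAE h, h⟩⟩
    have f2 : (Finset.filter (fun g => g ∉ A) (Finset.univ.filter fun g => g ∈ E)).card = 30 := by
      rw [Finset.filter_not, f1, Finset.card_sdiff_of_subset (fun x hx => by simp at hx ⊢; exact hAE hx),
        hcardsub, hcardsub, hA2, hE32]
    have f3 : (Finset.univ.filter fun g => g ∉ E).card = Nat.card G - 32 := by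
      rw [Finset.filter_not, Finset.card_sdiff_of_subset (Finset.subset_univ _), hcardsub, hE32,
        Finset.card_univ, Nat.card_eq_fintype_card]
    rw [Finset.sum_ite, Finset.sum_ite, Finset.sum_const, Finset.sum_const, Finset.sum_const, f1, f2, f3,
      hcardsub, hA2, smul_eq_mul, smul_eq_mul, smul_eq_mul]
  rw [hGK] at htot hGe
  have hκ0 : 0 < κ := Nat.card_pos
  have hsub : κ * 32 - 32 = (κ - 1) * 32 := by rw [Nat.sub_mul, one_mul]
  rw [hsub] at htot
  obtain ⟨κ', hκ'⟩ : ∃ κ', κ = κ' + 1 := ⟨κ - 1, by omega⟩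
  rw [hκ', Nat.add_sub_cancel] at htot
  have hk : 5 * k ≤ 40 + 16 * κ' := by
    refine Nat.le_of_mul_le_mul_right (c := (κ' + 1) * 32) ?_ (by omega)
    linarith
  omega

end Cfsg.Agent.H45.Trans
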