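import Mathlib
import Cfsg.Agent.H36.SL25
import Cfsg.Agent.H45.Transitive.Classes

/-!
Conjugation tables of `SL(2,5)`: the number of classes and the transvection pairs.
-/

set_option autoImplicit false

namespace Cfsg.Agent.H45.Trans

open Cfsg.Agent.H36.SL25

/-- The quadruples of determinant one. -/
def slq : Finset (F × F × F × F) :=
  Finset.univ.filter fun x => x.1 * x.2.2.2 - x.2.1 * x.2.2.1 = 1

theorem comm_count : ∑ x ∈ slq, (slq.filter fun y => mulQ x y = mulQ y x).card = 1080 := by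
  decide +kernel

theorem five_conj : ∀ a b c d : F, a * d - b * c = 1 → a + d = 2 → (b ≠ 0 ∨ c ≠ 0) →
    ∃ x ∈ slq, mulQ x (1, 1, 0, 1) = mulQ (a, b, c, d) x ∨
      mulQ x (1, 2, 0, 1) = mulQ (a, b, c, d) x := by
  decide +kernel

theorem second_conj : ∀ a b c d : F, a * d - b * c = 1 → a + d = 2 → a + c + d = 3 →
    ∃ t : F, mulQ (1, t, 0, 1) (1, 0, 1, 1) = mulQ (a, b, c, d) (1, t, 0, 1) := by
  decide +kernel

theorem quad_mem (g : L) : quad g ∈ slq :=
  Finset.mem_filter.2 ⟨Finset.mem_univ _, H6.sl2_det g⟩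

theorem exists_of_mem_slq {x : F × F × F × F} (h : x ∈ slq) : ∃ g : L, quad g = x :=
  ⟨H6.sl2 x.1 x.2.1 x.2.2.1 x.2.2.2 (Finset.mem_filter.1 h).2, rfl⟩

theorem quad_uT (a : F) : quad (uT a) = (1, a, 0, 1) := rfl

theorem quad_lT (a : F) : quad (lT a) = (1, 0, a, 1) := rfl

/-- `SL(2,5)` has nine classes. -/
theorem card_classes_sl25 : Nat.card (ConjClasses L) = 9 := by
  classical
  have h := card_classes_mul (G := L)
  have hs : ∀ g : L, Nat.card (Subgroup.centralizer ({g} : Set L)) =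
      (slq.filter fun y => mulQ (quad g) y = mulQ y (quad g)).card := by
    intro g
    rw [Nat.card_eq_fintype_card, ← Fintype.card_coe]
    refine Fintype.card_congr (Equiv.ofBijective
      (fun a => ⟨quad a.1, Finset.mem_filter.2 ⟨quad_mem _, ?_⟩⟩) ⟨fun a b hab => ?_, fun y => ?_⟩)
    · rw [← quad_mul, ← quad_mul, Subgroup.mem_centralizer_singleton_iff.1 a.2]
    · exact Subtype.ext (quad_inj (congrArg Subtype.val hab))
    · obtain ⟨hy, hc⟩ := Finset.mem_filter.1 y.2
      obtain ⟨a, ha⟩ := exists_of_mem_slq hy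
      refine ⟨⟨a, Subgroup.mem_centralizer_singleton_iff.2 (quad_inj ?_)⟩, Subtype.ext ha⟩
      rw [quad_mul, quad_mul, ha]
      exact hc.symm
  have e : ∑ g : L, Nat.card (Subgroup.centralizer ({g} : Set L)) = 1080 := by
    rw [Finset.sum_congr rfl fun g _ => hs g, ← comm_count]
    refine Finset.sum_bij (fun g _ => quad g) (fun g _ => quad_mem g) (fun a _ b _ h => quad_inj h)
      (fun x hx => ?_) (fun g _ => rfl)
    obtain ⟨g, hg⟩ := exists_of_mem_slq hx
    exact ⟨g, Finset.mem_univ _, hg⟩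
  rw [e, card_L] at h
  omega

/-- The two classes of subgroups generators of order five. -/
theorem exists_conj_of_order_five {x : L} (hx : orderOf x = 5) :
    ∃ g : L, g * uT 1 * g⁻¹ = x ∨ g * uT 2 * g⁻¹ = x := by
  have hne : x 0 1 ≠ 0 ∨ x 1 0 ≠ 0 := by
    by_contra hcon
    push Not at hcon
    have key : ∀ a d : F, a + d = 2 → a * d - 0 * 0 = 1 → a = 1 ∧ d = 1 := by decide
    have hd := H6.sl2_det x
    rw [hcon.1, hcon.2] at hd
    obtain ⟨ha, hd'⟩ := key _ _ (trace_of_order_five hx) hd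
    have h1 : x = 1 := quad_inj (by rw [quad_one]; simp [quad, ha, hd', hcon.1, hcon.2])
    rw [h1, orderOf_one] at hx
    norm_num at hx
  obtain ⟨q, hq, hor⟩ := five_conj _ _ _ _ (H6.sl2_det x) (trace_of_order_five hx) hne
  obtain ⟨g, rfl⟩ := exists_of_mem_slq hq
  refine ⟨g, hor.imp ?_ ?_⟩ <;> intro h <;> rw [mul_inv_eq_iff_eq_mul] <;> refine quad_inj ?_
  · rw [quad_mul, quad_mul, quad_uT]; exact h
  · rw [quad_mul, quad_mul, quad_uT]; exact h

/-- The second generator up to conjugation fixing the first. -/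
theorem exists_conj_second {y : L} (hy : orderOf y = 5) (h : orderOf (uT 1 * y) = 10) :
    ∃ t : F, uT t * lT 1 * (uT t)⁻¹ = y ∧ uT t * uT 1 = uT 1 * uT t := by
  have h2 := trace_of_order_five hy
  have h3 := trace_of_order_ten h
  rw [H6.sl2_mul, H6.sl2_mul] at h3
  simp [uT, H6.sl2] at h3
  obtain ⟨t, ht⟩ := second_conj _ _ _ _ (H6.sl2_det y) h2 h3
  refine ⟨t, mul_inv_eq_iff_eq_mul.2 (quad_inj ?_), quad_inj ?_⟩
  · rw [quad_mul, quad_mul, quad_uT, quad_lT]; exact ht
  · rw [quad_mul, quad_mul, quad_uT, quad_uT]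
    simp [mulQ, add_comm]

end Cfsg.Agent.H45.Trans
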