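import Mathlib
import Cfsg.Agent.H45.Transitive.Classes
import Cfsg.Agent.H45.Transitive.Plane
import Cfsg.Agent.H78.SolvableTransitiveLinear

/-!
The exceptional solvable transitive groups of a plane: bounds for the number of classes.
-/

set_option autoImplicit false
set_option maxHeartbeats 800000

namespace Cfsg.Agent.H45.Trans

open Module

/-- A class of size of a centraliser index. -/
theorem card_carrier_mk {G : Type*} [Group G] (g : G) :
    Nat.card (ConjClasses.mk g).carrier = (Subgroup.centralizer ({g} : Set G)).index := by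
  classical
  rw [← ConjAct.orbit_eq_carrier_conjClasses,
    Nat.card_congr (MulAction.orbitEquivQuotientStabilizer (ConjAct G) g),
    ConjAct.stabilizer_eq_centralizer, ← Subgroup.index_eq_card]
  rfl

/-- The class equation excludes six classes in a group of order 48 with centre of order two whose
centralisers have order at least four. -/
theorem seven_le_classes {G : Type*} [Group G] [Finite G] (hG : Nat.card G = 48)
    (hZ : Nat.card (Subgroup.center G) = 2)
    (h : ∀ g : G, g ∉ Subgroup.center G → 4 ≤ Nat.card (Subgroup.centralizer ({g} : Set G))) :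
    7 ≤ Nat.card (ConjClasses G) := by
  classical
  have := Fintype.ofFinite G
  by_contra hk
  have heq := Group.nat_card_center_add_sum_card_noncenter_eq_card G
  rw [finsum_mem_eq_finite_toFinset_sum _ (Set.toFinite _), hZ, hG] at heq
  set S := (Set.toFinite (ConjClasses.noncenter G)).toFinset with hS
  have hval : ∀ x ∈ S, Nat.card x.carrier ∣ 48 ∧ Nat.card x.carrier ≤ 12 := by
    intro x hx
    obtain ⟨g, rfl⟩ := ConjClasses.exists_rep x
    have hg : g ∉ Subgroup.center G := by
      intro hg
      rw [hS, Set.Finite.mem_toFinset] at hx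
      exact ((Set.not_subsingleton_iff.2 hx)) (fun a ha b hb => by
        rw [ConjClasses.mem_carrier_iff_mk_eq, ConjClasses.mk_eq_mk_iff_isConj, isConj_iff] at ha hb
        obtain ⟨c, hc⟩ := ha
        obtain ⟨d, hd⟩ := hb
        have hz := Subgroup.mem_center_iff.1 hg
        have e1 : a = g := by
          have : a = c⁻¹ * g * c := by rw [← hc]; group
          rw [this, mul_assoc, ← hz c, inv_mul_cancel_left]
        have e2 : b = g := by
          have : b = d⁻¹ * g * d := by rw [← hd]; group
          rw [this, mul_assoc, ← hz d, inv_mul_cancel_left]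
        rw [e1, e2])
    rw [card_carrier_mk]
    have hi := (Subgroup.centralizer ({g} : Set G)).card_mul_index
    rw [hG] at hi
    refine ⟨Dvd.intro_left _ hi, ?_⟩
    have := Nat.mul_le_mul_right (Subgroup.centralizer ({g} : Set G)).index (h g hg)
    omega
  have hle : S.card + 2 ≤ Nat.card (ConjClasses G) := by
    let T : Finset (ConjClasses G) :=
      (Finset.univ.filter fun g : G => g ∈ Subgroup.center G).image ConjClasses.mk
    have hT : T.card = 2 := by
      rw [Finset.card_image_of_injOn, ← Fintype.card_subtype, ← Nat.card_eq_fintype_card]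
      · exact hZ
      · intro a ha b hb hab
        obtain ⟨c, hc⟩ := isConj_iff.1 (ConjClasses.mk_eq_mk_iff_isConj.1 hab)
        have hz := Subgroup.mem_center_iff.1 (Finset.mem_filter.1 ha).2
        rw [← hc, hz c, mul_inv_cancel_right]
    have hd : Disjoint S T := by
      rw [Finset.disjoint_left]
      intro x hx hxT
      obtain ⟨g, hg, rfl⟩ := Finset.mem_image.1 hxT
      rw [hS, Set.Finite.mem_toFinset] at hx
      obtain ⟨a, ha, b, hb, hab⟩ := hx
      apply hab
      rw [ConjClasses.mem_carrier_iff_mk_eq, ConjClasses.mk_eq_mk_iff_isConj] at ha hb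
      obtain ⟨c, hc⟩ := isConj_iff.1 ha.symm
      obtain ⟨d, hd⟩ := isConj_iff.1 hb.symm
      have hz := Subgroup.mem_center_iff.1 (Finset.mem_filter.1 hg).2
      rw [← hc, ← hd, hz c, hz d, mul_inv_cancel_right, mul_inv_cancel_right]
    rw [← hT, ← Finset.card_union_of_disjoint hd, Nat.card_eq_fintype_card]
    exact Finset.card_le_univ _
  by_cases hall : ∃ x ∈ S, Nat.card x.carrier ≤ 8
  · obtain ⟨x, hx, hx8⟩ := hall
    rw [← Finset.sum_erase_add _ _ hx] at heq
    have := Finset.sum_le_card_nsmul (S.erase x) (fun y => Nat.card y.carrier) 12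
      (fun y hy => (hval y (Finset.mem_of_mem_erase hy)).2)
    rw [smul_eq_mul, Finset.card_erase_of_mem hx] at this
    omega
  · push Not at hall
    have hc : ∀ x ∈ S, Nat.card x.carrier = 12 := by
      intro x hx
      obtain ⟨h1, h2⟩ := hval x hx
      have h3 := hall x hx
      revert h1
      interval_cases (Nat.card x.carrier) <;> norm_num
    rw [Finset.sum_congr rfl hc, Finset.sum_const, smul_eq_mul] at heq
    omega

/-- The arithmetic of the exceptional groups of a plane. -/
theorem plane_numeric {p z i e k g : ℕ} (hp : p.Prime) (hi : g = 4 * z * i) (hi6 : i ∣ 6)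
    (hp1 : p + 1 ∣ 24) (hz2 : 2 ∣ z) (hzp : z ∣ p - 1) (_hzg : z ≤ g) (hGe : g = e * (p ^ 2 - 1))
    (hk5 : k ≤ 5 * z) (hcop3 : p = 3 → ¬ 3 ∣ i) (hseven : p = 7 → z = 2 → 7 ≤ k)
    (hL : z * g + (g - z) * (2 * z) ≤ k * g) (hk8 : g = 8 → k ≤ 5) :
    ((p = 3 ∧ g = 16) ∨ k + e < p ^ 2) ∧ p ≤ k := by
  have hmem : p + 1 ∈ Nat.divisors 24 := Nat.mem_divisors.2 ⟨hp1, by norm_num⟩
  rw [show Nat.divisors 24 = {1, 2, 3, 4, 6, 8, 12, 24} by decide] at hmem
  simp only [Finset.mem_insert, Finset.mem_singleton] at hmem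
  have hi' : i ∈ ({1, 2, 3, 6} : Finset ℕ) := by
    rw [show ({1, 2, 3, 6} : Finset ℕ) = Nat.divisors 6 by decide]
    exact Nat.mem_divisors.2 ⟨hi6, by norm_num⟩
  simp only [Finset.mem_insert, Finset.mem_singleton] at hi'
  have hz0 : z ≤ p - 1 := Nat.le_of_dvd (by have := hp.two_le; omega) hzp
  have := hp.two_le
  rcases (show p = 2 ∨ p = 3 ∨ p = 5 ∨ p = 7 ∨ p = 11 ∨ p = 23 by omega) with
    rfl | rfl | rfl | rfl | rfl | rfl
  all_goals norm_num at hz0 hzp hGe hcop3 hseven ⊢
  all_goals interval_cases z
  all_goals (rcases hi' with rfl | rfl | rfl | rfl)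
  all_goals subst hi
  all_goals norm_num at *
  all_goals omega

variable {p : ℕ} [Fact p.Prime] {V : Type*} [AddCommGroup V] [Module (ZMod p) V] [Finite V]
  {G : Type*} [Group G] [Finite G] {ρ : G →* (V ≃ₗ[ZMod p] V)}

/-- The exceptional groups of a plane. -/
theorem plane_exceptional [Nontrivial V] (H : Hyp ρ) (hn : finrank (ZMod p) V = 2) {A E : Subgroup G}
    (D : Cfsg.Agent.H78.ExceptionalData p V A E) {v : V} (hv : v ≠ 0) :
    ((p = 3 ∧ Nat.card G = 16) ∨
      Nat.card (ConjClasses G) + Nat.card (stab ρ v) < Nat.card V) ∧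
      p ≤ Nat.card (ConjClasses G) := by
  classical
  have hp : p.Prime := Fact.out
  haveI := D.symp.normalA
  haveI := D.symp.normalE
  have hAE := D.symp.le
  obtain ⟨-, -, φ, hφ⟩ := D.cases.resolve_right (fun h => by omega)
  have hr4 : A.relIndex E = 4 := by rw [D.relIndex_eq, hn]; norm_num
  have hEnab : ¬ ∀ a ∈ E, ∀ b ∈ E, a * b = b * a := fun hab => by
    have := D.maximal E D.symp.normalE hab hAE
    rw [this, Subgroup.relIndex_self] at hr4
    omega
  have hcenter : Subgroup.center G = A :=
    D.maximal _ inferInstance (fun a _ b hb => Subgroup.mem_center_iff.1 hb a) D.central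
  set z := Nat.card A with hz
  have hzp : z ∣ p - 1 := D.card_dvd
  have hz2 : 2 ∣ z := D.two_dvd
  have hS6 : Nat.card (Equiv.Perm (Fin 3)) = 6 := by rw [Nat.card_perm, Nat.card_fin]; rfl
  -- centralisers
  have hcent : ∀ g : G, g ∉ A → 2 * z ≤ Nat.card (Subgroup.centralizer ({g} : Set G)) ∧
      Nat.card (Subgroup.centralizer ({g} : Set G)) ≤ 4 * z := by
    intro g hg
    set S := Subgroup.centralizer ({g} : Set G) with hS
    have hsc : ¬ IsScalar ρ g := fun h => hg (hcenter ▸ h.mem_center H.inj)
    have hScomm : ∀ a ∈ S, ∀ b ∈ S, a * b = b * a := fun a ha b hb =>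
      comm_of_not_scalar H.inj hn hsc (Subgroup.mem_centralizer_singleton_iff.1 ha)
        (Subgroup.mem_centralizer_singleton_iff.1 hb)
    have hAS : A ≤ S := fun a ha => Subgroup.mem_centralizer_singleton_iff.2
      (Subgroup.mem_center_iff.1 (D.central ha) g).symm
    have hSA : Nat.card S = z * A.relIndex S := by
      rw [hz, ← Nat.card_congr (Subgroup.subgroupOfEquivOfLe hAS).toEquiv, Subgroup.relIndex,
        Subgroup.card_mul_index]
    refine ⟨?_, ?_⟩
    · have h1 : A.relIndex S ≠ 1 := fun h1 => hg (Subgroup.relIndex_eq_one.1 h1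
        (Subgroup.mem_centralizer_singleton_iff.2 rfl))
      have h0 : A.relIndex S ≠ 0 := Subgroup.index_ne_zero_of_finite
      rw [hSA, mul_comm 2]
      exact Nat.mul_le_mul_left z (by omega)
    rw [hSA, mul_comm 4]
    refine Nat.mul_le_mul_left z ?_
    set T := S ⊓ E with hT
    rw [← Subgroup.relIndex_mul_relIndex A T S (le_inf hAS hAE) inf_le_left]
    have hTS : T.relIndex S = Nat.card (φ.comp S.subtype).range := by
      rw [← Subgroup.index_ker]
      have : (φ.comp S.subtype).ker = T.subgroupOf S := by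
        rw [hT, Subgroup.inf_subgroupOf_left, ← hφ]
        rfl
      rw [this]
      rfl
    set P := (φ.comp S.subtype).range with hP
    have hP6 : Nat.card P ∣ 6 := hS6 ▸ Subgroup.card_subgroup_dvd_card P
    have hPcomm : ∀ a ∈ P, ∀ b ∈ P, a * b = b * a := by
      rintro _ ⟨a, rfl⟩ _ ⟨b, rfl⟩
      rw [← map_mul, ← map_mul, show a * b = b * a from Subtype.ext (hScomm _ a.2 _ b.2)]
    have hP3 : Nat.card P ≤ 3 := by
      by_contra hgt
      have hP' : Nat.card P = 6 := by
        have := Nat.le_of_dvd (by norm_num) hP6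
        interval_cases (Nat.card P) <;> omega
      have htop : P = ⊤ := Subgroup.eq_top_of_card_eq P (hP'.trans hS6.symm)
      exact absurd (hPcomm (Equiv.swap 0 1) (htop ▸ Subgroup.mem_top _) (Equiv.swap 1 2)
        (htop ▸ Subgroup.mem_top _)) (by decide)
    have hAT : A.relIndex T ∣ 4 := hr4 ▸ by
      rw [← Subgroup.relIndex_mul_relIndex A T E (le_inf hAS hAE) inf_le_right]
      exact dvd_mul_right _ _
    have hAT4 : A.relIndex T ≠ 4 := by
      intro h4
      have h := Subgroup.relIndex_mul_relIndex A T E (le_inf hAS hAE) inf_le_right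
      rw [h4, hr4] at h
      have hET : E ≤ T := Subgroup.relIndex_eq_one.1 (by omega)
      exact hEnab fun a ha b hb => hScomm a (hET ha).1 b (hET hb).1
    rw [hTS]
    rcases (show A.relIndex T = 1 ∨ A.relIndex T = 2 by
      have := Nat.le_of_dvd (by norm_num) hAT
      interval_cases A.relIndex T <;> omega) with h1 | h2
    · rw [h1, one_mul]; omega
    rw [h2]
    have hTE : T.relIndex E = 2 := by
      have h := Subgroup.relIndex_mul_relIndex A T E (le_inf hAS hAE) inf_le_right
      rw [h2, hr4] at h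
      omega
    have hsq : ∀ x ∈ S, φ x ^ 2 = 1 := by
      intro x hx
      have hxT : ∀ e ∈ E, x * e * x⁻¹ ∈ T → e ∈ T := fun e he h => by
        refine ⟨?_, he⟩
        have := mul_mem (mul_mem (inv_mem hx) h.1) hx
        simpa [mul_assoc] using this
      have hy : ∀ e ∈ E, x ^ 2 * e * (x ^ 2)⁻¹ * e⁻¹ ∈ A := by
        intro e he
        have hxe : x * e * x⁻¹ ∈ E := D.symp.normalE.conj_mem e he x
        set t := x * e * x⁻¹ * e⁻¹ with ht
        have htT : t ∈ T := by
          have h := (Subgroup.mul_mem_iff_of_index_two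
            (H := T.subgroupOf E) (by exact hTE) (a := (⟨x * e * x⁻¹, hxe⟩ : E)) (b := ⟨e⁻¹, inv_mem he⟩)).2 ?_
          · exact h
          · show x * e * x⁻¹ ∈ T ↔ e⁻¹ ∈ T
            refine ⟨fun h => inv_mem (hxT e he h), fun h => ?_⟩
            have h' : e ∈ T := by simpa using inv_mem h
            exact ⟨S.mul_mem (S.mul_mem hx h'.1) (S.inv_mem hx), hxe⟩
        have htt : t * t ∈ A := by
          have := Subgroup.mul_self_mem_of_index_two (H := A.subgroupOf T) (by exact h2) ⟨t, htT⟩
          exact this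
        have hxt : x * t = t * x := hScomm x hx t htT.1
        have : x ^ 2 * e * (x ^ 2)⁻¹ * e⁻¹ = t * t := by
          have e1 : x ^ 2 * e * (x ^ 2)⁻¹ * e⁻¹ = x * t * x⁻¹ * t := by
            rw [ht, pow_two]; simp [mul_assoc]
          rw [e1, hxt, mul_inv_cancel_right]
        rwa [this]
      set y := x ^ 2 with hy2
      have hcomm : y ^ 4 ∈ Subgroup.centralizer (E : Set G) := by
        rw [Subgroup.mem_centralizer_iff]
        intro e he
        set a := y * e * y⁻¹ * e⁻¹ with ha
        have haA : a ∈ A := hy e he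
        have hac : ∀ w, w * a = a * w := Subgroup.mem_center_iff.1 (D.central haA)
        have hye : ∀ k : ℕ, y ^ k * e * (y ^ k)⁻¹ = a ^ k * e := by
          intro k
          induction k with
          | zero => simp
          | succ k ih =>
            calc y ^ (k + 1) * e * (y ^ (k + 1))⁻¹ = y * (y ^ k * e * (y ^ k)⁻¹) * y⁻¹ := by
                  rw [pow_succ']; group
              _ = y * a ^ k * e * y⁻¹ := by rw [ih]; group
              _ = a ^ k * (y * e * y⁻¹) := by
                  rw [((show Commute y a from hac y).pow_right k).eq]; group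
              _ = a ^ k * (a * e) := by rw [show y * e * y⁻¹ = a * e by simp [ha, mul_assoc]]
              _ = a ^ (k + 1) * e := by rw [pow_succ]; exact (mul_assoc _ _ _).symm
        have he4 : e ^ 4 ∈ A := by
          have h := Subgroup.pow_index_mem (A.subgroupOf E) (⟨e, he⟩ : E)
          rw [← Subgroup.relIndex, hr4] at h
          exact h
        have hpw : ∀ k : ℕ, y * e ^ k * y⁻¹ = a ^ k * e ^ k := by
          intro k
          induction k with
          | zero => simp
          | succ k ih =>
            calc y * e ^ (k + 1) * y⁻¹ = (y * e ^ k * y⁻¹) * (y * e * y⁻¹) := by rw [pow_succ]; group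
              _ = a ^ k * e ^ k * (a * e) := by rw [ih, show y * e * y⁻¹ = a * e by simp [ha, mul_assoc]]
              _ = a ^ k * ((e ^ k * a) * e) := by group
              _ = a ^ (k + 1) * e ^ (k + 1) := by rw [hac]; group
        have h4 := hpw 4
        rw [Subgroup.mem_center_iff.1 (D.central he4) y, mul_inv_cancel_right] at h4
        have ha4 : a ^ 4 = 1 := mul_eq_right.1 h4.symm
        have := hye 4
        rw [ha4, one_mul] at this
        exact (mul_inv_eq_iff_eq_mul.1 this).symm
      have h8 : φ x ^ 8 = 1 := by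
        have hE8 : y ^ 4 ∈ E := hAE (D.centralizer_le hcomm)
        rw [← hφ, MonoidHom.mem_ker, map_pow, hy2, map_pow, ← pow_mul] at hE8
        exact hE8
      have h6 : φ x ^ 6 = 1 := hS6 ▸ pow_card_eq_one'
      rw [show 8 = 6 + 2 from rfl, pow_add, h6, one_mul] at h8
      exact h8
    have hPG : IsPGroup 2 P := by
      intro q
      obtain ⟨s, hs⟩ := q.2
      refine ⟨1, Subtype.ext ?_⟩
      rw [pow_one, Subgroup.coe_pow, ← hs]
      exact hsq s.1 s.2
    haveI := Fact.mk Nat.prime_two
    obtain ⟨j, hj⟩ := IsPGroup.iff_card.1 hPG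
    have hP2 : Nat.card P ≤ 2 := by
      rcases Nat.lt_or_ge j 2 with h | h
      · rw [hj]; exact Nat.pow_le_pow_right (by norm_num) (Nat.lt_succ_iff.1 h)
      · have := Nat.pow_le_pow_right (show 0 < 2 by norm_num) h
        omega
    omega
  -- the order
  obtain ⟨i, hi, hi6⟩ : ∃ i, Nat.card G = 4 * z * i ∧ i ∣ 6 := by
    refine ⟨E.index, ?_, ?_⟩
    · have hE : Nat.card E = z * 4 := by
        rw [← hr4, hz, ← Nat.card_congr (Subgroup.subgroupOfEquivOfLe hAE).toEquiv, Subgroup.relIndex,
          Subgroup.card_mul_index]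
      rw [← E.card_mul_index, hE, mul_comm z]
    · rw [← hφ, Subgroup.index_ker, ← hS6]
      exact Subgroup.card_subgroup_dvd_card _
  have hGe := H.card_eq hv
  have hcardV : Nat.card V = p ^ 2 := hn ▸ card_V (p := p) (V := V)
  rw [hcardV] at hGe ⊢
  set e := Nat.card (stab ρ v)
  set k := Nat.card (ConjClasses G)
  have hU := card_classes_le A (4 * z) fun g hg => (hcent g hg).2
  have hL := le_card_classes A D.central (2 * z) fun g hg => (hcent g hg).1
  rw [← hz] at hU hL
  have hzG : z ≤ Nat.card G := Subgroup.card_le_card_group A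
  obtain ⟨w, hw⟩ := Nat.exists_eq_add_of_le hzG
  rw [hw, Nat.add_sub_cancel_left] at hU hL
  have hG0 : 0 < Nat.card G := Nat.card_pos
  have hk5 : k ≤ 5 * z := by
    rw [hw] at hG0
    refine Nat.le_of_mul_le_mul_right (hU.trans ?_) hG0
    nlinarith
  have hp1 : p + 1 ∣ 24 := by
    have h1 : p ^ 2 - 1 = (p + 1) * (p - 1) := by simpa using Nat.sq_sub_sq p 1
    have h2 : (p + 1) * (p - 1) ∣ 4 * i * (p - 1) := by
      have h3 : p ^ 2 - 1 ∣ 4 * z * i := hi ▸ hGe ▸ dvd_mul_left _ _
      rw [h1] at h3
      exact h3.trans (by rw [mul_right_comm]; exact Nat.mul_dvd_mul_left _ hzp)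
    exact (Nat.dvd_of_mul_dvd_mul_right (by have := hp.two_le; omega) h2).trans
      (Nat.mul_dvd_mul_left 4 hi6)
  have hp24 : p ≤ 23 := by have := Nat.le_of_dvd (by norm_num) hp1; omega
  have hi_le := Nat.le_of_dvd (by norm_num) hi6
  have hp2 := hp.two_le
  have hzle : z ≤ p - 1 := Nat.le_of_dvd (by omega) hzp
  have hz0 : 0 < z := Nat.card_pos
  have hcop3 : p = 3 → ¬ 3 ∣ i := fun h3 hd => H.cop (h3 ▸ hd.trans (hi ▸ dvd_mul_left i _))
  have hseven : p = 7 → z = 2 → 7 ≤ k := by
    intro hp7 hz2'
    have h48 : Nat.card G = 48 := by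
      have : 48 ∣ Nat.card G := ⟨e, by rw [hGe, hp7]; ring⟩
      have h' := Nat.le_of_dvd Nat.card_pos this
      have : 4 * z * i ≤ 48 := by rw [hz2']; omega
      omega
    refine seven_le_classes h48 (by rw [hcenter, ← hz, hz2']) fun g hg => ?_
    have := (hcent g (hcenter ▸ hg)).1
    omega
  exact plane_numeric hp hi hi6 hp1 hz2 hzp (hw ▸ hzG) hGe hk5 hcop3 hseven (by rw [hw, Nat.add_sub_cancel_left]; exact hL)
    (fun h8 => by
      have hna : ¬ ∀ a b : G, a * b = b * a := fun h => hEnab fun a _ b _ => h a b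
      have := eight_mul_card_classes_le hna
      omega)

end Cfsg.Agent.H45.Trans
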