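import Mathlib

/-!
Lifts of elements of order prime to `p`, and complements of normal abelian subgroups.
-/

set_option autoImplicit false

namespace Cfsg.Agent.H45.Trans

variable {G : Type*} [Group G] [Finite G]

/-- An element of order prime to `p` of a quotient lifts to one. -/
theorem exists_reg_lift {K : Type*} [Group K] (f : G →* K) (hf : Function.Surjective f) {p : ℕ}
    (hp : p.Prime) {k : K} (hk : ¬ p ∣ orderOf k) : ∃ g : G, f g = k ∧ ¬ p ∣ orderOf g := by
  obtain ⟨x, rfl⟩ := hf k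
  obtain ⟨s, m, hm, hom⟩ := Nat.exists_eq_pow_mul_and_not_dvd (orderOf_pos x).ne' p hp.ne_one
  set o := orderOf (f x) with ho
  have hc : Nat.Coprime (p ^ s) o := ((hp.coprime_iff_not_dvd).2 hk).pow_left s
  rcases Nat.lt_or_ge o 2 with h1 | h2
  · have : o = 1 := by
      have : 0 < o := by
        rw [ho]
        exact orderOf_pos_iff.2 (MonoidHom.isOfFinOrder f (isOfFinOrder_of_finite x))
      omega
    refine ⟨1, ?_, by rw [orderOf_one]; exact hp.not_dvd_one⟩
    rw [map_one, orderOf_eq_one_iff.1 this]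
  obtain ⟨j, -, hj⟩ := Nat.exists_mul_mod_eq_one_of_coprime hc h2
  refine ⟨x ^ (p ^ s * j), ?_, fun hd => ?_⟩
  · rw [map_pow, ← pow_mod_orderOf, ← ho, hj, pow_one]
  · have hpow : (x ^ (p ^ s * j)) ^ m = 1 := by
      rw [← pow_mul, show p ^ s * j * m = orderOf x * j by rw [hom]; ring, pow_mul, pow_orderOf_eq_one,
        one_pow]
    exact hm (hd.trans (orderOf_dvd_of_pow_eq_one hpow))

/-- A preimage of an element of order prime to `p` under a map with kernel of order prime to `p`. -/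
theorem reg_of_image {K : Type*} [Group K] (f : G →* K) {p : ℕ} (hp : p.Prime)
    (hker : ¬ p ∣ Nat.card f.ker) {g : G} (hg : ¬ p ∣ orderOf (f g)) : ¬ p ∣ orderOf g := by
  intro hd
  have hmem : g ^ orderOf (f g) ∈ f.ker := by
    rw [MonoidHom.mem_ker, map_pow, pow_orderOf_eq_one]
  have h1 : g ^ (orderOf (f g) * Nat.card f.ker) = 1 := by
    rw [pow_mul]
    have := pow_card_eq_one' (x := (⟨_, hmem⟩ : f.ker))
    exact congrArg Subtype.val this
  rcases hp.dvd_mul.1 (hd.trans (orderOf_dvd_of_pow_eq_one h1)) with h | h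
  · exact hg h
  · exact hker h

omit [Finite G] in
/-- Conjugation inside a complement. -/
theorem conj_in_complement {V H : Subgroup G} [V.Normal] (hdis : Disjoint V H) {v c h h' : G}
    (hv : v ∈ V) (hc : c ∈ H) (hh : h ∈ H) (hh' : h' ∈ H) (he : (v * c) * h * (v * c)⁻¹ = h') :
    c * h * c⁻¹ = h' ∧ v * h' = h' * v := by
  set x := c * h * c⁻¹ with hx
  have hxH : x ∈ H := mul_mem (mul_mem hc hh) (inv_mem hc)
  have he' : v * x * v⁻¹ = h' := by rw [← he, hx]; group
  have hmem : h' * x⁻¹ ∈ V := by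
    rw [← he', show v * x * v⁻¹ * x⁻¹ = v * (x * v⁻¹ * x⁻¹) by group]
    exact mul_mem hv (Subgroup.Normal.conj_mem inferInstance _ (inv_mem hv) x)
  have h1 : h' * x⁻¹ = 1 :=
    Subgroup.mem_bot.1 (hdis.le_bot ⟨hmem, H.mul_mem hh' (H.inv_mem hxH)⟩)
  have h2 : h' = x := mul_inv_eq_one.1 h1
  exact ⟨h2.symm, by rw [h2]; exact mul_inv_eq_iff_eq_mul.1 (he'.trans h2)⟩

end Cfsg.Agent.H45.Trans
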