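import Mathlib
import Cfsg.Agent.H36.SL25
import Cfsg.Agent.H45.Transitive.RegLift
import Cfsg.Agent.H45.Transitive.PlaneSolvable
import Cfsg.Agent.H45.Transitive.IcosaTable

/-!
A group over the Frobenius group of order `121 * 120` with a nontrivial kernel of order prime to
eleven has at least eleven classes of elements of order prime to eleven.
-/

set_option autoImplicit false
set_option maxHeartbeats 800000

namespace Cfsg.Agent.H45.Trans

open Cfsg.Agent.H36.SL25

set_option synthInstance.maxSize 4000 in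
set_option synthInstance.maxHeartbeats 200000 in
/-- Prime powers one above a divisor of 14520. -/
theorem power_table : ∀ q < 121, ∀ m < 14, Nat.Prime q → 2 ≤ m → q ^ m - 1 ∣ 14520 →
    q = 11 ∨ q = 3 ∨ q = 5 ∨ (q = 2 ∧ (m = 2 ∨ m = 4)) := by
  decide +kernel

theorem power_cases {q m : ℕ} (hq : q.Prime) (hm : 2 ≤ m) (h : q ^ m - 1 ∣ 14520) :
    q = 11 ∨ q = 3 ∨ q = 5 ∨ (q = 2 ∧ (m = 2 ∨ m = 4)) := by
  have hle := Nat.le_of_dvd (by norm_num) h
  refine power_table q ?_ m ?_ hq hm h
  · by_contra hq'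
    have h1 : 121 ^ 2 ≤ q ^ m :=
      (Nat.pow_le_pow_left (not_lt.1 hq') 2).trans (Nat.pow_le_pow_right hq.pos hm)
    omega
  · by_contra hm'
    have h1 : 2 ^ 14 ≤ q ^ m :=
      (Nat.pow_le_pow_left hq.two_le 14).trans (Nat.pow_le_pow_right hq.pos (not_lt.1 hm'))
    omega

/-- `SL(2,5)` has no proper subgroup of index at most four. -/
theorem index_gt_four (K : Subgroup L) (hK : K.index ≤ 4) : K = ⊤ := by
  classical
  rw [eq_top_iff, ← closure_eq_top, Subgroup.closure_le]
  let f : L →* Equiv.Perm (L ⧸ K) := MulAction.toPermHom L (L ⧸ K)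
  have hfix : ∀ x : L, orderOf x = 5 → x ∈ K := by
    intro x hx
    have h1 : orderOf (f x) ∣ 5 := by
      have := orderOf_map_dvd f x
      rwa [hx] at this
    have h2 : orderOf (f x) ∣ Nat.factorial (Nat.card (L ⧸ K)) := Nat.card_perm (α := L ⧸ K) ▸ orderOf_dvd_natCard _
    rw [← Subgroup.index_eq_card] at h2
    have h3 : ¬ 5 ∣ Nat.factorial K.index := fun h => by
      have := (Nat.Prime.dvd_factorial (by norm_num)).1 h
      omega
    rcases (Nat.dvd_prime (by norm_num)).1 h1 with h | h
    · have h4 : f x = 1 := orderOf_eq_one_iff.1 h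
      have h5' : f x (QuotientGroup.mk 1 : L ⧸ K) = QuotientGroup.mk 1 := by rw [h4]; rfl
      have h5 : x • (QuotientGroup.mk 1 : L ⧸ K) = QuotientGroup.mk 1 := h5'
      rw [MulAction.Quotient.smul_mk, smul_eq_mul, mul_one, QuotientGroup.eq, mul_one, inv_mem_iff] at h5
      exact h5
    · rw [h] at h2
      exact absurd h2 h3
  rintro x (rfl | rfl)
  · exact hfix _ orderOf_uT
  · exact hfix _ orderOf_lT

variable {G : Type*} [Group G] [Finite G]

/-- The extra class. -/
theorem no_fusion (N : Subgroup G) [N.Normal] (hN : N ≠ ⊥) (hNp : ¬ 11 ∣ Nat.card N)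
    (V H : Subgroup (G ⧸ N)) [V.Normal] (hcompl : V.IsComplement' H) (hV : Nat.card V = 121)
    (hsr : ∀ v ∈ V, ∀ h ∈ H, h * v = v * h → v = 1 ∨ h = 1) (e : H ≃* L)
    (hone : ∀ a ∈ N, ∀ b ∈ N, a ≠ 1 → b ≠ 1 → IsConj a b)
    (hcov : ∀ g g' : G, ¬ 11 ∣ orderOf g → ¬ 11 ∣ orderOf g' → (QuotientGroup.mk g : G ⧸ N) ≠ 1 →
      IsConj (QuotientGroup.mk g : G ⧸ N) (QuotientGroup.mk g') → IsConj g g') : False := by
  classical
  set π := QuotientGroup.mk' N with hπ
  have hH : Nat.card H = 120 := by rw [Nat.card_congr e.toEquiv, card_L]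
  have hQ : Nat.card (G ⧸ N) = 14520 := by rw [← hcompl.card_mul, hV, hH]
  have hG : Nat.card G = 14520 * Nat.card N := by
    rw [← hQ]; exact Subgroup.card_eq_card_quotient_mul_card_subgroup N
  have h11 : Nat.Prime 11 := by norm_num
  haveI : Fact (Nat.Prime 11) := ⟨h11⟩
  -- a coset of an element of order prime to eleven is one class
  have hclass : ∀ y : G, ¬ 11 ∣ orderOf y → π y ≠ 1 →
      Nat.card (Subgroup.centralizer ({y} : Set G)) =
        Nat.card (Subgroup.centralizer ({π y} : Set (G ⧸ N))) := by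
    intro y hy hy1
    have hset : (ConjClasses.mk y).carrier =
        (QuotientGroup.mk ⁻¹' (ConjClasses.mk (π y)).carrier : Set G) := by
      ext x
      simp only [ConjClasses.mem_carrier_iff_mk_eq, Set.mem_preimage, ConjClasses.mk_eq_mk_iff_isConj]
      refine ⟨fun h => MonoidHom.map_isConj π h, fun h => ?_⟩
      have hxr : ¬ 11 ∣ orderOf x := by
        refine reg_of_image π h11 (by rwa [hπ, QuotientGroup.ker_mk']) ?_
        obtain ⟨c, hc⟩ := isConj_iff.1 h
        have he : orderOf (π x) = orderOf (π y) := by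
          rw [← hc]
          exact (orderOf_injective (MulAut.conj c).toMonoidHom (MulAut.conj c).injective _).symm
        rw [he]
        exact fun hd => hy (hd.trans (orderOf_map_dvd π y))
      exact (hcov y x hy hxr hy1 h.symm).symm
    have hcard : Nat.card (ConjClasses.mk y).carrier =
        Nat.card N * Nat.card (ConjClasses.mk (π y)).carrier := by
      rw [hset, Nat.card_congr (QuotientGroup.preimageMkEquivSubgroupProdSet N _), Nat.card_prod]
    rw [card_carrier_mk, card_carrier_mk] at hcard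
    have h1 := (Subgroup.centralizer ({y} : Set G)).card_mul_index
    have h2 := (Subgroup.centralizer ({π y} : Set (G ⧸ N))).card_mul_index
    rw [hQ] at h2
    rw [hcard, hG] at h1
    have hpos : 0 < Nat.card N * (Subgroup.centralizer ({π y} : Set (G ⧸ N))).index :=
      Nat.mul_pos Nat.card_pos (Nat.pos_of_ne_zero Subgroup.index_ne_zero_of_finite)
    refine Nat.eq_of_mul_eq_mul_right hpos (h1.trans ?_)
    rw [← h2]; ring
  have hdvd : ∀ y : G, ¬ 11 ∣ orderOf y → π y ≠ 1 →
      Nat.card (Subgroup.centralizer ({y} : Set G)) ∣ 14520 := fun y h1 h2 => by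
    rw [hclass y h1 h2, ← hQ]
    exact Subgroup.card_subgroup_dvd_card _
  -- the kernel
  have hN1 : 1 < Nat.card N := (Subgroup.one_lt_card_iff_ne_bot N).2 hN
  obtain ⟨q, hq, hqN⟩ := Nat.exists_prime_and_dvd hN1.ne'
  haveI := Fact.mk hq
  obtain ⟨n₀', hn₀'⟩ := exists_prime_orderOf_dvd_card' (G := N) q hqN
  set n₀ := n₀'.1 with hn₀def
  have hn₀ : n₀ ∈ N := n₀'.2
  have hn₀o : orderOf n₀ = q := by rw [hn₀def, Subgroup.orderOf_coe, hn₀']
  have hn₀1 : n₀ ≠ 1 := fun h => by rw [h, orderOf_one] at hn₀o; exact hq.one_lt.ne hn₀o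
  have hqp : IsPGroup q N := fun a => ⟨1, Subtype.ext (by
    rw [pow_one, Subgroup.coe_pow, Subgroup.coe_one]
    by_cases ha : a.1 = 1
    · rw [ha, one_pow]
    obtain ⟨c, hc⟩ := isConj_iff.1 (hone n₀ hn₀ a.1 a.2 hn₀1 ha)
    rw [← hc, conj_pow, ← hn₀o, pow_orderOf_eq_one, mul_one, mul_inv_cancel])⟩
  obtain ⟨m, hm⟩ := IsPGroup.iff_card.1 hqp
  have hm1 : 1 ≤ m := by
    rcases Nat.eq_zero_or_pos m with rfl | h
    · rw [pow_zero] at hm; omega
    · exact h
  have hq11 : q ≠ 11 := fun h => hNp (h ▸ hqN)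
  have hNab : ∀ a ∈ N, ∀ b ∈ N, a * b = b * a := by
    haveI : Nontrivial N := (Subgroup.nontrivial_iff_ne_bot N).2 hN
    haveI : Nontrivial (Subgroup.center N) := hqp.center_nontrivial
    obtain ⟨z, hz⟩ := exists_ne (1 : Subgroup.center N)
    intro a ha b hb
    by_cases ha1 : a = 1
    · simp [ha1]
    have hz1 : z.1.1 ≠ 1 := fun h => hz (Subtype.ext (Subtype.ext h))
    obtain ⟨c, hc⟩ := isConj_iff.1 (hone _ z.1.2 a ha hz1 ha1)
    have hb' : c⁻¹ * b * c ∈ N := by
      simpa using (inferInstance : N.Normal).conj_mem b hb c⁻¹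
    have hzc : c⁻¹ * b * c * z.1.1 = z.1.1 * (c⁻¹ * b * c) :=
      congrArg Subtype.val (Subgroup.mem_center_iff.1 z.2 ⟨_, hb'⟩)
    calc a * b = c * (z.1.1 * (c⁻¹ * b * c)) * c⁻¹ := by rw [← hc]; group
      _ = c * (c⁻¹ * b * c * z.1.1) * c⁻¹ := by rw [hzc]
      _ = b * a := by rw [← hc]; group
  have hdiv : q ^ m - 1 ∣ 14520 := by
    have hc : (ConjClasses.mk n₀).carrier = (N : Set G) \ {1} := by
      ext x
      simp only [ConjClasses.mem_carrier_iff_mk_eq, ConjClasses.mk_eq_mk_iff_isConj, Set.mem_diff,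
        SetLike.mem_coe, Set.mem_singleton_iff]
      refine ⟨fun h => ?_, fun h => (hone n₀ hn₀ x h.1 hn₀1 h.2).symm⟩
      obtain ⟨c, hc⟩ := isConj_iff.1 h.symm
      refine ⟨hc ▸ (inferInstance : N.Normal).conj_mem n₀ hn₀ c, fun hx => hn₀1 ?_⟩
      rw [hx] at hc
      exact conj_eq_one_iff.1 hc
    have hcard : Nat.card (ConjClasses.mk n₀).carrier = q ^ m - 1 := by
      rw [hc, Nat.card_coe_set_eq, Set.ncard_sdiff_singleton_of_mem (one_mem N), ← Nat.card_coe_set_eq]
      exact congrArg (· - 1) hm
    have hd : q ^ m - 1 ∣ Nat.card G := by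
      rw [← hcard, card_carrier_mk]
      exact Subgroup.index_dvd_card _
    rw [hG, hm] at hd
    have hcop : Nat.Coprime (q ^ m - 1) (q ^ m) := by
      have h1 : 1 ≤ q ^ m := Nat.one_le_pow _ _ hq.pos
      have := (Nat.coprime_self_add_right (m := q ^ m - 1) (n := 1)).2 (Nat.coprime_one_right _)
      rwa [Nat.sub_add_cancel h1] at this
    exact hcop.dvd_of_dvd_mul_right hd
  -- lifts
  have hreg : ∀ h ∈ H, ¬ 11 ∣ orderOf h := fun h hh hd => by
    have := hd.trans (Subgroup.orderOf_dvd_natCard H hh)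
    rw [hH] at this
    norm_num at this
  have hlift : ∀ h ∈ H, h ≠ 1 → ∃ y : G, π y = h ∧ ¬ 11 ∣ orderOf y := fun h hh _ =>
    exists_reg_lift π (QuotientGroup.mk'_surjective N) h11 (hreg h hh)
  -- `q` does not divide 120 only once
  have hq35 : q ≠ 3 ∧ q ≠ 5 := by
    have hsq : ¬ q ^ 2 ∣ 14520 → ¬ q ∣ 120 := by
      intro hsq hq120
      obtain ⟨Q, hQN⟩ := hqp.exists_le_sylow
      have hlt : ∃ y ∈ (Q : Subgroup G), y ∉ N := by
        by_contra hall
        push Not at hall
        have h1 : Nat.card (Q : Subgroup G) ≤ Nat.card N := Subgroup.card_le_of_le hall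
        rw [Q.card_eq_multiplicity, hm] at h1
        have h2 : q ^ (m + 1) ∣ Nat.card G := by
          rw [hG, hm, pow_succ, mul_comm 14520]
          exact Nat.mul_dvd_mul_left _ (hq120.trans (by norm_num))
        have h3 := (hq.pow_dvd_iff_le_factorization Nat.card_pos.ne').1 h2
        have h4 := (Nat.pow_le_pow_iff_right hq.one_lt).1 h1
        omega
      obtain ⟨y, hyQ, hyN⟩ := hlt
      have hy1 : π y ≠ 1 := fun h => hyN ((QuotientGroup.eq_one_iff y).1 h)
      obtain ⟨j, hj⟩ := Q.isPGroup' ⟨y, hyQ⟩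
      have hyr : ¬ 11 ∣ orderOf y := fun hd => hq11 (by
        have hyj : y ^ (q ^ j) = 1 := congrArg Subtype.val hj
        exact ((Nat.prime_dvd_prime_iff_eq h11 hq).1
          (h11.dvd_of_dvd_pow (hd.trans (orderOf_dvd_of_pow_eq_one hyj)))).symm)
      haveI : (N.subgroupOf (Q : Subgroup G)).Normal := inferInstance
      have hnt : N.subgroupOf (Q : Subgroup G) ≠ ⊥ := fun h => by
        have : (⟨n₀, hQN hn₀⟩ : (Q : Subgroup G)) ∈ N.subgroupOf (Q : Subgroup G) := hn₀
        rw [h, Subgroup.mem_bot] at this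
        exact hn₀1 (congrArg Subtype.val this)
      -- a central element of the Sylow subgroup in the kernel
      obtain ⟨z, hzN, hzc, hz1⟩ : ∃ z ∈ N, (∀ x ∈ (Q : Subgroup G), x * z = z * x) ∧ z ≠ 1 := by
        let : MulAction (Q : Subgroup G) N :=
          { smul := fun x a => ⟨x.1 * a.1 * x.1⁻¹, (inferInstance : N.Normal).conj_mem _ a.2 _⟩
            one_smul := fun a => Subtype.ext (by show (1 : G) * a.1 * (1 : G)⁻¹ = a.1; simp)
            mul_smul := fun x x' a => Subtype.ext (by
              show (x.1 * x'.1) * a.1 * (x.1 * x'.1)⁻¹ = x.1 * (x'.1 * a.1 * x'.1⁻¹) * x.1⁻¹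
              simp [mul_assoc]) }
        obtain ⟨b, hb, hb1⟩ := Q.isPGroup'.exists_fixed_point_of_prime_dvd_card_of_fixed_point N hqN
          (a := (1 : N)) (fun x => Subtype.ext (by show x.1 * (1 : G) * x.1⁻¹ = 1; simp))
        refine ⟨b.1, b.2, fun x hx => ?_, fun h => hb1 (Subtype.ext h.symm)⟩
        exact mul_inv_eq_iff_eq_mul.1 (congrArg Subtype.val (hb ⟨x, hx⟩))
      set K := Subgroup.zpowers y ⊔ Subgroup.zpowers z with hK
      have hKQ : K ≤ (Q : Subgroup G) :=
        sup_le (Subgroup.zpowers_le.2 hyQ) (Subgroup.zpowers_le.2 (hQN hzN))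
      have hKC : K ≤ Subgroup.centralizer ({y} : Set G) :=
        sup_le (Subgroup.zpowers_le.2 (Subgroup.mem_centralizer_singleton_iff.2 rfl))
          (Subgroup.zpowers_le.2 (Subgroup.mem_centralizer_singleton_iff.2 (hzc y hyQ).symm))
      obtain ⟨i, hi⟩ := IsPGroup.iff_card.1 (Q.isPGroup'.to_le hKQ)
      have hi2 : 2 ≤ i := by
        by_contra hi2
        have hzo : orderOf z = q := by
          obtain ⟨c, hc⟩ := isConj_iff.1 (hone n₀ hn₀ z hzN hn₀1 hz1)
          rw [← hc, ← hn₀o]
          exact orderOf_injective (MulAut.conj c).toMonoidHom (MulAut.conj c).injective n₀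
        have hzK : Subgroup.zpowers z = K := Subgroup.eq_of_le_of_card_ge le_sup_right (by
          rw [Nat.card_zpowers, hzo, hi]
          calc q ^ i ≤ q ^ 1 := Nat.pow_le_pow_right hq.pos (by omega)
            _ = q := pow_one q)
        have hy' : y ∈ Subgroup.zpowers z := hzK.symm ▸ (Subgroup.mem_sup_left (Subgroup.mem_zpowers y))
        exact hyN ((Subgroup.zpowers_le.2 hzN) hy')
      exact hsq ((pow_dvd_pow q hi2).trans (hi ▸ (Subgroup.card_dvd_of_le hKC).trans (hdvd y hyr hy1)))
    constructor <;> rintro rfl <;> exact hsq (by norm_num) (by norm_num)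
  rcases Nat.lt_or_ge q 7 with hlt | hge
  · -- two groups
    have hq2 : q = 2 := by
      have := hq.two_le
      interval_cases q <;> simp_all (config := { decide := true })
    subst hq2
    have hm124 : m = 1 ∨ m = 2 ∨ m = 4 := by
      rcases Nat.lt_or_ge m 2 with h | h
      · left; omega
      · rcases power_cases hq h hdiv with h' | h' | h' | ⟨-, h'⟩ <;> omega
    -- elements of order eleven centralise the kernel
    have hx11 : ∀ x : G, orderOf x = 11 → ∀ a ∈ N, x * a = a * x := by
      intro x hx a ha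
      have hmod : Nat.card N ≡ Nat.card (N ⊓ Subgroup.centralizer ({x} : Set G) : Subgroup G) [MOD 11] := by
        let : MulAction (Subgroup.zpowers x) N :=
          { smul := fun h b => ⟨h.1 * b.1 * h.1⁻¹, (inferInstance : N.Normal).conj_mem _ b.2 _⟩
            one_smul := fun b => Subtype.ext (by show (1 : G) * b.1 * (1 : G)⁻¹ = b.1; simp)
            mul_smul := fun h h' b => Subtype.ext (by
              show (h.1 * h'.1) * b.1 * (h.1 * h'.1)⁻¹ = h.1 * (h'.1 * b.1 * h'.1⁻¹) * h.1⁻¹
              simp [mul_assoc]) }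
        have hpg : IsPGroup 11 (Subgroup.zpowers x) :=
          IsPGroup.of_card (n := 1) (by rw [Nat.card_zpowers, hx, pow_one])
        refine (hpg.card_modEq_card_fixedPoints N).trans (congrArg (fun t => t % 11) (Nat.card_congr
          { toFun := fun w => ⟨w.1.1, w.1.2, ?_⟩
            invFun := fun w => ⟨⟨w.1, w.2.1⟩, fun h => Subtype.ext ?_⟩
            left_inv := fun w => rfl
            right_inv := fun w => rfl }))
        · refine Subgroup.mem_centralizer_singleton_iff.2 ?_
          exact (mul_inv_eq_iff_eq_mul.1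
            (congrArg Subtype.val (w.2 ⟨x, Subgroup.mem_zpowers x⟩) : x * w.1.1 * x⁻¹ = w.1.1)).symm
        · show h.1 * w.1 * h.1⁻¹ = w.1
          have hle : Subgroup.zpowers x ≤ Subgroup.centralizer ({w.1} : Set G) :=
            Subgroup.zpowers_le.2 (Subgroup.mem_centralizer_singleton_iff.2
              (Subgroup.mem_centralizer_singleton_iff.1 w.2.2).symm)
          rw [Subgroup.mem_centralizer_singleton_iff.1 (hle h.2), mul_inv_cancel_right]
      obtain ⟨i, hi, hic⟩ := (Nat.dvd_prime_pow Nat.prime_two).1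
        (hm ▸ Subgroup.card_dvd_of_le (inf_le_left : N ⊓ Subgroup.centralizer ({x} : Set G) ≤ N))
      rw [hm, hic] at hmod
      have him : i = m := by
        rcases hm124 with rfl | rfl | rfl <;> interval_cases i <;>
          first | rfl | exact absurd hmod (by decide)
      have heq : N ⊓ Subgroup.centralizer ({x} : Set G) = N :=
        Subgroup.eq_of_le_of_card_ge inf_le_left (by rw [hic, hm, him])
      exact (Subgroup.mem_centralizer_singleton_iff.1 ((heq.ge ha : a ∈ N ⊓ Subgroup.centralizer ({x} : Set G))).2).symm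
    -- a lift of the central involution
    obtain ⟨w, hw⟩ := exists_prime_orderOf_dvd_card' (G := Subgroup.center H) 2 (by
      rw [Nat.card_congr (Subgroup.centerCongr e).toEquiv, card_center])
    set h₀ : G ⧸ N := w.1.1 with hh₀
    have hh₀o : orderOf h₀ = 2 := by rw [hh₀, Subgroup.orderOf_coe, Subgroup.orderOf_coe, hw]
    have hh₀1 : h₀ ≠ 1 := fun h => by rw [h, orderOf_one] at hh₀o; omega
    have hCh₀ : ∀ c : G ⧸ N, c * h₀ = h₀ * c → c ∈ H := by
      intro c hc
      obtain ⟨⟨v, k⟩, hvk⟩ := hcompl.2 c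
      have hvk' : v.1 * k.1 = c := hvk
      have hkc : k.1 * h₀ = h₀ * k.1 := congrArg Subtype.val (Subgroup.mem_center_iff.1 w.2 k)
      have hconj : (v.1 * k.1) * h₀ * (v.1 * k.1)⁻¹ = h₀ := by
        rw [hvk', mul_inv_eq_iff_eq_mul]; exact hc
      obtain ⟨-, hv⟩ := conj_in_complement hcompl.disjoint v.2 k.2 w.1.2 w.1.2 hconj
      rcases hsr v.1 v.2 h₀ w.1.2 hv.symm with h | h
      · rw [← hvk', h, one_mul]; exact k.2
      · exact absurd h hh₀1
    -- a two-element above it
    obtain ⟨g, hg⟩ := QuotientGroup.mk'_surjective N h₀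
    obtain ⟨s, l, hl, hgo⟩ := Nat.exists_eq_two_pow_mul_odd (orderOf_pos g).ne'
    set y := g ^ l with hy
    have hπy : π y = h₀ := by
      obtain ⟨i, hi⟩ := hl
      rw [hy, map_pow, hπ, hg, hi, pow_succ, pow_mul, ← hh₀o, pow_orderOf_eq_one, one_pow, one_mul]
    have hy2 : y ^ (2 ^ s) = 1 := by
      rw [hy, ← pow_mul, mul_comm, ← hgo, pow_orderOf_eq_one]
    have hyr : ¬ 11 ∣ orderOf y := fun hd => by
      have := h11.dvd_of_dvd_pow (hd.trans (orderOf_dvd_of_pow_eq_one hy2))
      omega
    have hy1 : π y ≠ 1 := hπy ▸ hh₀1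
    -- it centralises the kernel
    have hyN : ∀ a ∈ N, y * a = a * y := by
      let F : Subgroup G :=
        { carrier := {a | a ∈ N ∧ y * a = a * y}
          one_mem' := ⟨one_mem _, by simp⟩
          mul_mem' := fun {a b} ha hb => ⟨mul_mem ha.1 hb.1, by
            rw [← mul_assoc, ha.2, mul_assoc, hb.2, mul_assoc]⟩
          inv_mem' := fun {a} ha => ⟨inv_mem ha.1, ((show Commute y a from ha.2).inv_right).eq⟩ }
      obtain ⟨a, ha, ha1⟩ : ∃ a ∈ F, a ≠ 1 := by
        let : MulAction (Subgroup.zpowers y) N :=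
          { smul := fun h b => ⟨h.1 * b.1 * h.1⁻¹, (inferInstance : N.Normal).conj_mem _ b.2 _⟩
            one_smul := fun b => Subtype.ext (by show (1 : G) * b.1 * (1 : G)⁻¹ = b.1; simp)
            mul_smul := fun h h' b => Subtype.ext (by
              show (h.1 * h'.1) * b.1 * (h.1 * h'.1)⁻¹ = h.1 * (h'.1 * b.1 * h'.1⁻¹) * h.1⁻¹
              simp [mul_assoc]) }
        obtain ⟨i, -, hi⟩ := (Nat.dvd_prime_pow Nat.prime_two).1 (orderOf_dvd_of_pow_eq_one hy2)
        have hpg : IsPGroup 2 (Subgroup.zpowers y) :=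
          IsPGroup.of_card (n := i) (by rw [Nat.card_zpowers, hi])
        obtain ⟨b, hb, hb1⟩ := hpg.exists_fixed_point_of_prime_dvd_card_of_fixed_point N hqN
          (a := (1 : N)) (fun x => Subtype.ext (by show x.1 * (1 : G) * x.1⁻¹ = 1; simp))
        exact ⟨b.1, ⟨b.2, mul_inv_eq_iff_eq_mul.1 (congrArg Subtype.val (hb ⟨y, Subgroup.mem_zpowers y⟩))⟩,
          fun h => hb1 (Subtype.ext h.symm)⟩
      intro b hb
      by_cases hb1 : b = 1
      · simp [hb1]
      obtain ⟨c, hc⟩ := isConj_iff.1 (hone a ha.1 b hb ha1 hb1)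
      -- the commutator of `c` and `y` centralises the kernel
      have hcomm : ∀ u ∈ N, (c⁻¹ * y * c * y⁻¹) * u = u * (c⁻¹ * y * c * y⁻¹) := by
        set d := c⁻¹ * y * c * y⁻¹ with hd
        obtain ⟨⟨v, k⟩, hvk⟩ := hcompl.2 (π c⁻¹)
        have hvk' : v.1 * k.1 = π c⁻¹ := hvk
        have hdV : π d ∈ V := by
          have hkc : k.1 * h₀ = h₀ * k.1 := congrArg Subtype.val (Subgroup.mem_center_iff.1 w.2 k)
          have e1 : π d = v.1 * (k.1 * h₀ * k.1⁻¹) * v.1⁻¹ * h₀⁻¹ := by
            rw [show π d = π c⁻¹ * h₀ * (π c⁻¹)⁻¹ * h₀⁻¹ by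
              simp [hd, map_mul, map_inv, hπy, mul_assoc], ← hvk']
            group
          rw [e1, hkc, mul_inv_cancel_right]
          rw [show v.1 * h₀ * v.1⁻¹ * h₀⁻¹ = v.1 * (h₀ * v.1⁻¹ * h₀⁻¹) by group]
          exact mul_mem v.2 ((inferInstance : V.Normal).conj_mem _ (inv_mem v.2) h₀)
        -- elements over `V` centralise the kernel
        intro u hu
        obtain ⟨t, l', hl', hdo⟩ := Nat.exists_eq_pow_mul_and_not_dvd (orderOf_pos d).ne' 11 (by norm_num)
        have hker : d ^ (11 ^ 2) ∈ N := by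
          rw [← QuotientGroup.eq_one_iff, ← QuotientGroup.mk'_apply, map_pow]
          have := pow_card_eq_one' (x := (⟨π d, hdV⟩ : V))
          rw [hV] at this
          exact congrArg Subtype.val this
        have hN11 : Nat.Coprime (11 ^ 2) (Nat.card N) :=
          ((h11.coprime_iff_not_dvd).2 hNp).pow_left 2
        -- split into a part in the kernel and an eleven-part
        obtain ⟨a', b', hab'⟩ : ∃ a' b' : ℤ, (11 ^ 2 : ℕ) * a' + (Nat.card N : ℤ) * b' = 1 :=
          ⟨_, _, ((Nat.gcd_eq_gcd_ab _ _).symm.trans (by exact_mod_cast hN11))⟩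
        have hsplit : d = (d ^ (11 ^ 2)) ^ a' * (d ^ Nat.card N) ^ b' := by
          rw [← zpow_natCast d (11 ^ 2), ← zpow_natCast d (Nat.card N), ← zpow_mul, ← zpow_mul,
            ← zpow_add, hab', zpow_one]
        have h1 : Commute (d ^ (11 ^ 2)) u := hNab _ hker u hu
        have h2 : Commute (d ^ Nat.card N) u := by
          set x := d ^ Nat.card N
          have hx121 : x ^ (11 ^ 2) = 1 := by
            rw [← pow_mul, mul_comm, pow_mul]
            exact congrArg Subtype.val (pow_card_eq_one' (x := (⟨_, hker⟩ : N)))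
          obtain ⟨i, hi2, hi⟩ := (Nat.dvd_prime_pow h11).1 (orderOf_dvd_of_pow_eq_one hx121)
          interval_cases i
          · have : x = 1 := orderOf_eq_one_iff.1 (by simpa using hi)
            rw [this]; exact Commute.one_left u
          · exact hx11 x (by simpa using hi) u hu
          · exfalso
            -- the image is in an elementary group
            have hxV : π x ∈ V := by rw [map_pow]; exact pow_mem hdV _
            have hord : orderOf (π x) = 121 := by
              obtain ⟨r, hr, hπr⟩ := (Nat.dvd_prime_pow h11).1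
                (show orderOf (π x) ∣ 11 ^ 2 by rw [← hi]; exact orderOf_map_dvd π x)
              by_contra hne
              have hr1 : r ≤ 1 := by
                by_contra h
                have : r = 2 := by omega
                rw [this] at hπr
                exact hne (by rw [hπr]; norm_num)
              have hxN : x ^ 11 ∈ N := by
                rw [← QuotientGroup.eq_one_iff, ← QuotientGroup.mk'_apply, map_pow]
                exact orderOf_dvd_iff_pow_eq_one.1 (hπr ▸ (pow_dvd_pow 11 hr1).trans (by norm_num))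
              have h11' : orderOf (x ^ 11) = 11 := by
                rw [orderOf_pow, hi]; norm_num
              exact hNp (h11' ▸ Subgroup.orderOf_dvd_natCard N hxN)
            -- a cyclic group of order 121 admits no fixed-point-free group of order 120
            have hgen : Subgroup.zpowers (π x) = V :=
              Subgroup.eq_of_le_of_card_ge (Subgroup.zpowers_le.2 hxV) (by rw [hV, Nat.card_zpowers, hord])
            haveI : IsCyclic V :=
              isCyclic_iff_exists_orderOf_eq_natCard.2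
                ⟨⟨π x, hxV⟩, by rw [Subgroup.orderOf_mk, hord, hV]⟩
            let f : H →* MulAut V := (MulAut.conjNormal (H := V)).comp H.subtype
            have hf : Function.Injective f := by
              intro a b hab
              have h' : b.1⁻¹ * a.1 ∈ H := mul_mem (inv_mem b.2) a.2
              have hfix : (b.1⁻¹ * a.1) * (π x) = (π x) * (b.1⁻¹ * a.1) := by
                have h1 := congrArg Subtype.val (MulEquiv.congr_fun hab ⟨π x, hxV⟩)
                simp only [f, MonoidHom.comp_apply, Subgroup.coe_subtype, MulAut.conjNormal_apply] at h1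
                calc b.1⁻¹ * a.1 * π x = b.1⁻¹ * (a.1 * π x * a.1⁻¹) * a.1 := by group
                  _ = b.1⁻¹ * (b.1 * π x * b.1⁻¹) * a.1 := by rw [h1]
                  _ = π x * (b.1⁻¹ * a.1) := by group
              rcases hsr (π x) hxV _ h' hfix with h | h
              · rw [h, orderOf_one] at hord; omega
              · exact (Subtype.ext (inv_mul_eq_one.1 h)).symm
            have hcomm : ∀ a b : H, a * b = b * a := fun a b => hf (by
              rw [map_mul, map_mul]
              obtain ⟨a0, ha0⟩ := IsCyclic.exists_zpow_surjective (G := V)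
              obtain ⟨i1, hi1⟩ := ha0 (f a a0)
              obtain ⟨i2, hi2⟩ := ha0 (f b a0)
              simp only at hi1 hi2
              refine MulEquiv.ext fun x => ?_
              obtain ⟨k, rfl⟩ := ha0 x
              simp only [MulAut.mul_apply, map_zpow, ← hi1, ← hi2]
              rw [← zpow_mul a0 i1 i2, ← zpow_mul a0 i2 i1, mul_comm])
            have h2 := congrArg quad (congrArg e (hcomm (e.symm (uT 1)) (e.symm (lT 1))))
            rw [map_mul, map_mul, e.apply_symm_apply, e.apply_symm_apply, quad_mul, quad_mul, quad_uT,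
              quad_lT] at h2
            exact absurd h2 (by decide)
        rw [hsplit]
        exact ((h1.zpow_left a').mul_left (h2.zpow_left b')).eq
      have hca : Commute (c⁻¹ * y * c * y⁻¹) a := hcomm a ha.1
      have : (c⁻¹ * y * c) * a = a * (c⁻¹ * y * c) := by
        calc (c⁻¹ * y * c) * a = (c⁻¹ * y * c * y⁻¹) * (y * a) := by group
          _ = (c⁻¹ * y * c * y⁻¹) * a * y := by rw [ha.2]; simp [mul_assoc]
          _ = a * (c⁻¹ * y * c * y⁻¹) * y := by rw [hca.eq]
          _ = a * (c⁻¹ * y * c) := by group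
      calc y * b = c * ((c⁻¹ * y * c) * a) * c⁻¹ := by rw [← hc]; group
        _ = c * (a * (c⁻¹ * y * c)) * c⁻¹ := by rw [this]
        _ = b * y := by rw [← hc]; group
    -- the image of the centraliser
    set C := Subgroup.centralizer ({y} : Set G)
    have hNC : N ≤ C := fun a ha => Subgroup.mem_centralizer_singleton_iff.2 (hyN a ha).symm
    have hC : Nat.card C = 120 := by
      rw [hclass y hyr hy1, hπy, ← hH]
      refine congrArg (fun S : Subgroup (G ⧸ N) => Nat.card S) (le_antisymm
        (fun c hc => hCh₀ c (Subgroup.mem_centralizer_singleton_iff.1 hc)) fun c hc =>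
        Subgroup.mem_centralizer_singleton_iff.2
          (congrArg Subtype.val (Subgroup.mem_center_iff.1 w.2 ⟨c, hc⟩)))
    have hK : C.map π ≤ H := by
      rintro _ ⟨c, hc, rfl⟩
      refine hCh₀ _ ?_
      rw [← hπy, ← map_mul, ← map_mul, Subgroup.mem_centralizer_singleton_iff.1 hc]
    have hKc : Nat.card (C.map π) * Nat.card N = 120 := by
      rw [← hC, ← Subgroup.relIndex_ker, hπ, QuotientGroup.ker_mk', Subgroup.relIndex,
        ← Nat.card_congr (Subgroup.subgroupOfEquivOfLe hNC).toEquiv, Subgroup.index_mul_card]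
    set K' := ((C.map π).subgroupOf H).map e.toMonoidHom
    have hK' : Nat.card K' * Nat.card N = 120 := by
      rw [Subgroup.card_map_of_injective e.injective, Nat.card_congr (Subgroup.subgroupOfEquivOfLe hK).toEquiv]
      exact hKc
    have hidx : K'.index = Nat.card N := by
      have h1 := K'.card_mul_index
      rw [card_L, ← hK'] at h1
      exact Nat.eq_of_mul_eq_mul_left Nat.card_pos h1
    rw [hm] at hidx hK'
    rcases hm124 with rfl | rfl | rfl
    · rw [index_gt_four K' (by rw [hidx]; norm_num), Subgroup.index_top] at hidx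
      norm_num at hidx
    · rw [index_gt_four K' (by rw [hidx]; norm_num), Subgroup.index_top] at hidx
      norm_num at hidx
    · have : (16 : ℕ) ∣ 120 := ⟨Nat.card K', by rw [← hK']; ring⟩
      norm_num at this
  · -- large primes: the kernel has prime order
    have hqd : ¬ q ∣ 14520 := by
      intro h
      rw [show 14520 = 2 ^ 3 * 3 * 5 * 11 ^ 2 by norm_num] at h
      rcases hq.dvd_mul.1 h with h | h
      · rcases hq.dvd_mul.1 h with h | h
        · rcases hq.dvd_mul.1 h with h | h
          · have := (Nat.prime_dvd_prime_iff_eq hq Nat.prime_two).1 (hq.dvd_of_dvd_pow h); omega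
          · have := (Nat.prime_dvd_prime_iff_eq hq Nat.prime_three).1 h; omega
        · have := (Nat.prime_dvd_prime_iff_eq hq (by norm_num)).1 h; omega
      · exact hq11 ((Nat.prime_dvd_prime_iff_eq hq h11).1 (hq.dvd_of_dvd_pow h))
    have hm1' : m = 1 := by
      by_contra hne
      rcases power_cases hq (by omega) hdiv with h | h | h | ⟨h, -⟩ <;> omega
    rw [hm1', pow_one] at hm
    haveI : IsCyclic N := isCyclic_of_prime_card hm
    let f : G →* MulAut N := MulAut.conjNormal (H := N)
    set a := (e.symm (uT 1)).1 with ha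
    set b := (e.symm (lT 1)).1 with hb
    obtain ⟨x, hx⟩ := QuotientGroup.mk'_surjective N a
    obtain ⟨z, hz⟩ := QuotientGroup.mk'_surjective N b
    set c := x * z * x⁻¹ * z⁻¹ with hc
    have hfc : f c = 1 := by
      have hab : ∀ u v : MulAut N, u * v = v * u := by
        intro u v
        obtain ⟨a0, ha0⟩ := IsCyclic.exists_zpow_surjective (G := N)
        obtain ⟨i1, hi1⟩ := ha0 (u a0)
        obtain ⟨i2, hi2⟩ := ha0 (v a0)
        simp only at hi1 hi2
        refine MulEquiv.ext fun w => ?_
        obtain ⟨k, rfl⟩ := ha0 w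
        simp only [MulAut.mul_apply, map_zpow, ← hi1, ← hi2]
        rw [← zpow_mul a0 i1 i2, ← zpow_mul a0 i2 i1, mul_comm]
      rw [hc, map_mul, map_mul, map_mul, map_inv, map_inv, hab (f x) (f z), mul_inv_cancel_right,
        mul_inv_cancel]
    have hπc : π c = a * b * a⁻¹ * b⁻¹ := by rw [hc, map_mul, map_mul, map_mul, map_inv, map_inv, hπ, hx, hz]
    have hcH : π c ∈ H := by
      rw [hπc]
      exact mul_mem (mul_mem (mul_mem (e.symm _).2 (e.symm _).2) (inv_mem (e.symm _).2)) (inv_mem (e.symm _).2)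
    have hc1 : π c ≠ 1 := by
      intro h1
      rw [hπc, mul_inv_eq_one, mul_inv_eq_iff_eq_mul] at h1
      have h2 : e.symm (uT 1) * e.symm (lT 1) = e.symm (lT 1) * e.symm (uT 1) := Subtype.ext h1
      rw [← map_mul, ← map_mul, e.symm.injective.eq_iff] at h2
      have h3 := congrArg quad h2
      rw [quad_mul, quad_mul, quad_uT, quad_lT] at h3
      exact absurd h3 (by decide)
    have hcr : ¬ 11 ∣ orderOf c :=
      reg_of_image π h11 (by rwa [hπ, QuotientGroup.ker_mk']) (hreg _ hcH)
    have hn₀c : n₀ ∈ Subgroup.centralizer ({c} : Set G) := by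
      refine Subgroup.mem_centralizer_singleton_iff.2 ?_
      have h := congrArg Subtype.val (MulEquiv.congr_fun hfc (⟨n₀, hn₀⟩ : N))
      simp only [f, MulAut.conjNormal_apply, MulAut.one_apply] at h
      exact (mul_inv_eq_iff_eq_mul.1 h).symm
    exact hqd (hn₀o ▸ ((Subgroup.orderOf_dvd_natCard _ hn₀c).trans (hdvd c hcr hc1)))

end Cfsg.Agent.H45.Trans
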