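import Mathlib
import Cfsg.Agent.H21.Zassenhaus.Perfect
import Cfsg.Agent.H21.NonSolvable
import Cfsg.Agent.H69.SL2Classes
import Cfsg.Agent.H36.SL25

/-!
Two-dimensional groups of order prime to the characteristic: perfect subgroups are `SL(2,5)`.
-/

set_option autoImplicit false

namespace Cfsg.Agent.H45.Trans

open Matrix

/-- An element of order prime to the characteristic of determinant one fixing a nonzero vector
of a plane is trivial. -/
theorem eq_one_of_fix {F : Type*} [Field F] {p : ℕ} [Fact p.Prime] [CharP F p] {D : Type*} [Group D]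
    [Finite D] (hcop : ¬ p ∣ Nat.card D) (τ : D →* GL (Fin 2) F) (hτ : Function.Injective τ) {a : D}
    (hdet : ((τ a : GL (Fin 2) F) : Matrix (Fin 2) (Fin 2) F).det = 1) {w : Fin 2 → F} (hw : w ≠ 0)
    (hfix : ((τ a : GL (Fin 2) F) : Matrix (Fin 2) (Fin 2) F) *ᵥ w = w) : a = 1 := by
  set A : Matrix (Fin 2) (Fin 2) F := ((τ a : GL (Fin 2) F) : Matrix (Fin 2) (Fin 2) F) with hA
  have h0 : (A - 1).det = 0 :=
    (Matrix.exists_mulVec_eq_zero_iff).1 ⟨w, hw, by rw [Matrix.sub_mulVec, Matrix.one_mulVec, hfix, sub_self]⟩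
  have ht : A.trace = 2 := by
    simp only [det_fin_two, Matrix.sub_apply, Matrix.one_apply, Fin.isValue, ↓reduceIte,
      show (0 : Fin 2) ≠ 1 by decide, show (1 : Fin 2) ≠ 0 by decide, sub_zero] at h0
    rw [trace_fin_two]
    rw [det_fin_two] at hdet
    linear_combination -h0 + hdet
  have hsq := H69.mul_self_fin_two A
  rw [ht, hdet, one_smul] at hsq
  set N := A - 1 with hN
  have hNN : N * N = 0 := by
    rw [hN, sub_mul, mul_sub, hsq, one_mul, mul_one, two_smul]
    abel
  have hpow : ∀ k : ℕ, A ^ k = 1 + k • N := by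
    intro k
    induction k with
    | zero => simp
    | succ k ih =>
      rw [pow_succ, ih]
      have e : A = 1 + N := by rw [hN]; abel
      conv_lhs => rw [e]
      rw [mul_add, mul_one, add_mul, one_mul, smul_mul_assoc, hNN, smul_zero, add_zero, add_smul,
        one_smul, add_assoc]
  have hap : a ^ p = 1 := by
    apply hτ
    rw [map_pow, map_one]
    apply Units.ext
    rw [Units.val_pow_eq_pow_val, Units.val_one, ← hA, hpow, ← Nat.cast_smul_eq_nsmul F,
      CharP.cast_eq_zero F p, zero_smul, add_zero]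
  have h1 := orderOf_dvd_of_pow_eq_one hap
  rcases (Nat.dvd_prime Fact.out).1 h1 with h | h
  · exact orderOf_eq_one_iff.1 h
  · exact absurd (h ▸ orderOf_dvd_natCard a) hcop

/-- A nontrivial perfect subgroup of a plane group of order prime to the characteristic is
`SL(2,5)`. -/
theorem perfect_iso_sl25 {F : Type*} [Field F] [Finite F] {p : ℕ} [Fact p.Prime] [CharP F p]
    {D : Type*} [Group D] [Finite D] (hcop : ¬ p ∣ Nat.card D) (τ : D →* GL (Fin 2) F)
    (hτ : Function.Injective τ) (R : Subgroup D) (hR : commutator ↥R = ⊤) (hne : R ≠ ⊥) :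
    Nonempty (R ≃* Matrix.SpecialLinearGroup (Fin 2) (ZMod 5)) := by
  haveI : Nontrivial R := (Subgroup.nontrivial_iff_ne_bot R).2 hne
  let act : R →* MulAut (Multiplicative (Fin 2 → F)) :=
    { toFun := fun a => AddEquiv.toMultiplicative
        { toFun := fun w => ((τ a.1 : GL (Fin 2) F) : Matrix (Fin 2) (Fin 2) F) *ᵥ w
          invFun := fun w => ((τ a.1⁻¹ : GL (Fin 2) F) : Matrix (Fin 2) (Fin 2) F) *ᵥ w
          left_inv := fun w => by
            show _ *ᵥ (_ *ᵥ w) = w
            rw [Matrix.mulVec_mulVec, ← Units.val_mul, ← map_mul, inv_mul_cancel, map_one, Units.val_one,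
              Matrix.one_mulVec]
          right_inv := fun w => by
            show _ *ᵥ (_ *ᵥ w) = w
            rw [Matrix.mulVec_mulVec, ← Units.val_mul, ← map_mul, mul_inv_cancel, map_one, Units.val_one,
              Matrix.one_mulVec]
          map_add' := fun v w => Matrix.mulVec_add _ v w }
      map_one' := by ext w; simp
      map_mul' := fun a b => by
        apply MulEquiv.ext
        intro w
        apply Multiplicative.toAdd.injective
        show ((τ (a.1 * b.1) : GL (Fin 2) F) : Matrix (Fin 2) (Fin 2) F) *ᵥ Multiplicative.toAdd w =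
          ((τ a.1 : GL (Fin 2) F) : Matrix (Fin 2) (Fin 2) F) *ᵥ (((τ b.1 : GL (Fin 2) F) : Matrix (Fin 2) (Fin 2) F) *ᵥ Multiplicative.toAdd w)
        rw [Matrix.mulVec_mulVec, ← Units.val_mul, ← map_mul] }
  have hdet : ∀ a : R, ((τ a.1 : GL (Fin 2) F) : Matrix (Fin 2) (Fin 2) F).det = 1 := by
    intro a
    let f : R →* Fˣ := (Matrix.GeneralLinearGroup.det.comp τ).comp R.subtype
    have h : commutator ↥R ≤ f.ker := Abelianization.commutator_subset_ker f
    have h1 := MonoidHom.mem_ker.1 (h (hR ▸ Subgroup.mem_top a))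
    simpa [f] using congrArg Units.val h1
  refine H21.Zass.equiv_SL_of_perfect act (fun e he x hx => ?_) hR
  by_contra hx1
  refine he (Subtype.ext (eq_one_of_fix hcop τ hτ (hdet e) (w := Multiplicative.toAdd x) ?_ ?_))
  · intro h
    exact hx1 (by simpa using congrArg Multiplicative.ofAdd h)
  · exact congrArg Multiplicative.toAdd hx

/-- A plane group of order prime to the characteristic and to five is solvable. -/
theorem solvable_of_not_five {F : Type*} [Field F] [Finite F] {p : ℕ} [Fact p.Prime] [CharP F p]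
    {D : Type*} [Group D] [Finite D] (hcop : ¬ p ∣ Nat.card D) (τ : D →* GL (Fin 2) F)
    (hτ : Function.Injective τ) (h5 : ¬ 5 ∣ Nat.card D) : Group.IsSolvable D := by
  by_contra hns
  obtain ⟨R, -, hR0, hRp, -⟩ := H21.exists_perfect_normal hns
  obtain ⟨e⟩ := perfect_iso_sl25 hcop τ hτ R hRp hR0
  apply h5
  have h1 : Nat.card R = 120 := by
    rw [Nat.card_congr e.toEquiv, H6.card_sl2 (q := 5) (ZMod.card 5)]
    norm_num
  exact Dvd.dvd.trans (h1 ▸ (by norm_num : 5 ∣ 120)) (Subgroup.card_subgroup_dvd_card R)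

end Cfsg.Agent.H45.Trans
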