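import Mathlib
import Cfsg.Agent.H45.Transitive.Classes
import Cfsg.Agent.H45.Transitive.IcosaTable
import Cfsg.Agent.H45.Transitive.Plane
import Cfsg.Agent.H45.Transitive.Two
import Cfsg.Agent.H21.NonSolvable

/-!
The nonsolvable transitive linear groups of a plane of order prime to the characteristic.
-/

set_option autoImplicit false
set_option maxHeartbeats 1000000

namespace Cfsg.Agent.H45.Trans

open Module

/-- The classes of a group against those of a quotient. -/
theorem card_classes_le_ker_mul {H K : Type*} [Group H] [Group K] [Finite H] [Finite K] (f : H →* K)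
    (hf : Function.Surjective f) :
    Nat.card (ConjClasses H) ≤ Nat.card (ConjClasses K) * Nat.card f.ker := by
  classical
  have hsec : ∀ Y : ConjClasses K, ∃ h : H, ConjClasses.mk (f h) = Y := fun Y => by
    obtain ⟨y, rfl⟩ := ConjClasses.exists_rep Y
    obtain ⟨h, rfl⟩ := hf y
    exact ⟨h, rfl⟩
  choose s hs using hsec
  rw [← Nat.card_prod]
  refine Nat.card_le_card_of_surjective (fun q => ConjClasses.mk (s q.1 * q.2.1)) fun X => ?_
  obtain ⟨x, rfl⟩ := ConjClasses.exists_rep X
  obtain ⟨c, hc⟩ := isConj_iff.1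
    (ConjClasses.mk_eq_mk_iff_isConj.1 (hs (ConjClasses.mk (f x))).symm)
  obtain ⟨d, rfl⟩ := hf c
  refine ⟨(ConjClasses.mk (f x), ⟨(s (ConjClasses.mk (f x)))⁻¹ * (d * x * d⁻¹), ?_⟩), ?_⟩
  · rw [MonoidHom.mem_ker, map_mul, map_inv, map_mul, map_mul, map_inv, hc, inv_mul_cancel]
  · refine ConjClasses.mk_eq_mk_iff_isConj.2 (isConj_iff.2 ⟨d⁻¹, ?_⟩)
    simp [mul_assoc]

variable {p : ℕ} [Fact p.Prime] {V : Type*} [AddCommGroup V] [Module (ZMod p) V] [Finite V]
  {G : Type*} [Group G] [Finite G] {ρ : G →* (V ≃ₗ[ZMod p] V)}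

open Cfsg.Agent.H36.SL25 in
/-- A nonsolvable group of a plane is `SL(2,5)` times scalars. -/
theorem icosa_structure (hinj : Function.Injective ρ) (hcop : ¬ p ∣ Nat.card G)
    (hn : finrank (ZMod p) V = 2) (hns : ¬ Group.IsSolvable G) :
    ∃ R C : Subgroup G, R.Normal ∧ R ⊔ C = ⊤ ∧ C ≤ Subgroup.center G ∧ (∀ c ∈ C, IsScalar ρ c) ∧
      Nonempty (R ≃* L) ∧ C.relIndex R = 60 ∧ 2 ∣ Nat.card C := by
  classical
  obtain ⟨R, hRn, hR0, hRp, -⟩ := Cfsg.Agent.H21.exists_perfect_normal hns
  haveI := hRn
  let b := Module.finBasisOfFinrankEq (ZMod p) V hn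
  let τ : G →* GL (Fin 2) (ZMod p) := (toGL b).comp ρ
  have hτ : Function.Injective τ := (toGL_injective b).comp hinj
  obtain ⟨e⟩ := perfect_iso_sl25 hcop τ hτ R hRp hR0
  set C := Subgroup.centralizer (R : Set G) with hC
  let u : R := e.symm (uT 1)
  let l : R := e.symm (lT 1)
  let c : G → R ≃* R := fun h => MulAut.conjNormal h
  let M : G → Matrix (Fin 2) (Fin 2) (ZMod p) := fun g => (τ g : GL (Fin 2) (ZMod p)).val
  have hMmul : ∀ g h, M (g * h) = M g * M h := fun g h => by simp [M]
  have hconj : ∀ g h, (M (g * h * g⁻¹)).trace = (M h).trace := by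
    intro g h
    simp only [M, map_mul, map_inv, Units.val_mul]
    exact Matrix.trace_units_conj _ _
  have hord : ∀ (h : G) (x : R), orderOf (e (c h x)) = orderOf (e x) := fun h x => by
    rw [MulEquiv.orderOf_eq, MulEquiv.orderOf_eq, MulEquiv.orderOf_eq]
  have hdet : (M u.1).det = 1 := by
    let f : R →* (ZMod p)ˣ := (Matrix.GeneralLinearGroup.det.comp τ).comp R.subtype
    have h : commutator ↥R ≤ f.ker := Abelianization.commutator_subset_ker f
    have h1 := MonoidHom.mem_ker.1 (h (hRp ▸ Subgroup.mem_top u))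
    simpa [f, M] using congrArg Units.val h1
  have hu5 : orderOf u.1 = 5 := by
    rw [Subgroup.orderOf_coe, MulEquiv.orderOf_eq, orderOf_uT]
  -- no element squares a generator
  have hno : ∀ g : G, g * u.1 * g⁻¹ ≠ u.1 * u.1 := by
    intro g hg
    have h := hconj g u.1
    rw [hg, hMmul, Cfsg.Agent.H69.mul_self_fin_two, hdet, Matrix.trace_sub, Matrix.trace_smul,
      one_smul, Matrix.trace_one, smul_eq_mul, Fintype.card_fin, Nat.cast_ofNat] at h
    set t := (M u.1).trace with ht
    have hf : (t - 2) * (t + 1) = 0 := by linear_combination h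
    rcases mul_eq_zero.1 hf with ht2 | ht1
    · have h0 : (M u.1 - 1).det = 0 := by
        rw [Matrix.det_fin_two] at hdet ⊢
        rw [ht, Matrix.trace_fin_two] at ht2
        simp only [Matrix.sub_apply, Matrix.one_apply, Fin.isValue, ↓reduceIte,
          show (0 : Fin 2) ≠ 1 by decide, show (1 : Fin 2) ≠ 0 by decide, sub_zero]
        linear_combination -ht2 + hdet
      obtain ⟨w, hw, hw'⟩ := Matrix.exists_mulVec_eq_zero_iff.2 h0
      rw [Matrix.sub_mulVec, Matrix.one_mulVec, sub_eq_zero] at hw'
      have h1 := eq_one_of_fix hcop τ hτ hdet hw hw'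
      rw [h1, orderOf_one] at hu5
      norm_num at hu5
    · have hsq := Cfsg.Agent.H69.mul_self_fin_two (M u.1)
      rw [← ht, eq_neg_of_add_eq_zero_left ht1, hdet, one_smul, neg_one_smul] at hsq
      have h3 : M (u.1 ^ 3) = 1 := by
        rw [pow_succ, pow_two, hMmul, hMmul, hsq, sub_mul, neg_mul, one_mul, hsq]
        abel
      have h3' : u.1 ^ 3 = 1 := by
        apply hτ
        rw [map_one]
        exact Units.ext h3
      have := orderOf_dvd_of_pow_eq_one h3'
      rw [hu5] at this
      norm_num at this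
  have hgen : R ⊔ C = ⊤ := by
    rw [eq_top_iff]
    intro h _
    obtain ⟨g, hg⟩ := exists_conj_of_order_five (x := e (c h u))
      (by rw [hord, e.apply_symm_apply, orderOf_uT])
    rcases hg with hg | hg
    · set h' := (e.symm g).1⁻¹ * h with hh'
      have hu' : e (c h' u) = uT 1 := by
        have h1 : c h' u = (e.symm g)⁻¹ * c h u * e.symm g := by
          apply Subtype.ext
          simp [c, hh', mul_assoc]
        rw [h1, map_mul, map_mul, map_inv, e.apply_symm_apply, ← hg]
        group
      have h10 : orderOf (uT 1 * e (c h' l)) = 10 := by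
        rw [← hu', ← map_mul, ← map_mul, hord, map_mul, e.apply_symm_apply, e.apply_symm_apply,
          orderOf_uT_lT]
      obtain ⟨t, ht, ht'⟩ := exists_conj_second
        (by rw [hord, e.apply_symm_apply, orderOf_lT]) h10
      set k := (e.symm (uT t)).1⁻¹ * h' with hk
      have hkC : k ∈ C := by
        let K : Subgroup L :=
          { carrier := {x | c k (e.symm x) = e.symm x}
            mul_mem' := fun {x y} hx hy => by
              simp only [Set.mem_ofPred_eq, map_mul] at hx hy ⊢
              rw [hx, hy]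
            one_mem' := by simp
            inv_mem' := fun {x} hx => by
              simp only [Set.mem_ofPred_eq, map_inv] at hx ⊢
              rw [hx] }
        have hk1 : ∀ x : R, c k x = (e.symm (uT t))⁻¹ * c h' x * e.symm (uT t) := fun x => by
          apply Subtype.ext
          simp [c, hk, mul_assoc]
        have hK : K = ⊤ := by
          rw [eq_top_iff, ← closure_eq_top, Subgroup.closure_le]
          rintro x (rfl | rfl)
          · show c k u = u
            apply e.injective
            rw [hk1, map_mul, map_mul, map_inv, e.apply_symm_apply, hu', e.apply_symm_apply,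
              mul_assoc, ← ht']
            group
          · show c k l = l
            apply e.injective
            rw [hk1, map_mul, map_mul, map_inv, e.apply_symm_apply, ← ht, e.apply_symm_apply]
            group
        rw [hC, Subgroup.mem_centralizer_iff]
        intro n hn'
        have h1 : e ⟨n, hn'⟩ ∈ K := hK ▸ Subgroup.mem_top _
        have h3 : c k (e.symm (e ⟨n, hn'⟩)) = e.symm (e ⟨n, hn'⟩) := h1
        rw [e.symm_apply_apply] at h3
        have h4 : k * n * k⁻¹ = n := by simpa [c] using congrArg Subtype.val h3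
        exact (mul_inv_eq_iff_eq_mul.1 h4).symm
      have : h = (e.symm g).1 * (e.symm (uT t)).1 * k := by simp [hk, hh', mul_assoc]
      rw [this]
      exact Subgroup.mul_mem_sup (mul_mem (e.symm g).2 (e.symm (uT t)).2) hkC
    · exfalso
      apply hno ((e.symm g).1⁻¹ * h)
      have h2 : uT 1 * uT 1 = uT 2 := quad_inj (by rw [quad_mul, quad_uT, quad_uT]; decide)
      have h1 : c ((e.symm g).1⁻¹ * h) u = u * u := by
        apply e.injective
        have h1' : c ((e.symm g).1⁻¹ * h) u = (e.symm g)⁻¹ * c h u * e.symm g := by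
          apply Subtype.ext
          simp [c, mul_assoc]
        rw [h1', map_mul, map_mul, map_inv, e.apply_symm_apply, ← hg, map_mul, e.apply_symm_apply, h2]
        group
      have h3 := congrArg Subtype.val h1
      simpa [c, mul_assoc] using h3
  have hscal : ∀ x ∈ C, IsScalar ρ x := by
    intro x hx
    by_contra hsc
    have hcm := comm_of_not_scalar hinj hn hsc (Subgroup.mem_centralizer_iff.1 hx u.1 u.2)
      (Subgroup.mem_centralizer_iff.1 hx l.1 l.2)
    have h1 : u * l = l * u := Subtype.ext hcm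
    have h2 := congrArg quad (congrArg e h1)
    rw [map_mul, map_mul, e.apply_symm_apply, e.apply_symm_apply, quad_mul, quad_mul, quad_uT,
      quad_lT] at h2
    exact absurd h2 (by decide)
  have hcen : C.subgroupOf R = Subgroup.center R := by
    ext x
    simp [hC, Subgroup.mem_subgroupOf, Subgroup.mem_center_iff, Subgroup.mem_centralizer_iff,
      Subtype.ext_iff]
  have hcard2 : Nat.card (Subgroup.center R) = 2 := by
    rw [Nat.card_congr (Subgroup.centerCongr e).toEquiv, card_center]
  refine ⟨R, C, hRn, hgen, fun x hx => (hscal x hx).mem_center hinj, hscal, ⟨e⟩, ?_, ?_⟩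
  · have h1 := Subgroup.card_mul_index (Subgroup.center R)
    rw [hcard2, Nat.card_congr e.toEquiv, card_L] at h1
    rw [Subgroup.relIndex, hcen]
    omega
  · rw [← hcard2, ← hcen]
    exact Subgroup.card_comap_dvd_of_injective C R.subtype R.subtype_injective

/-- The class numbers of the nonsolvable transitive groups of a plane. -/
theorem icosa [Nontrivial V] (H : Hyp ρ) (hn : finrank (ZMod p) V = 2) (hns : ¬ Group.IsSolvable G) :
    ∃ z, 2 ∣ z ∧ z ∣ p - 1 ∧ Nat.card G = 60 * z ∧ 11 ≤ p ∧ p ^ 2 - 1 ∣ 60 * z ∧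
      Nat.card (ConjClasses G) ≤ 9 * z ∧ 9 * z ≤ 2 * Nat.card (ConjClasses G) ∧
      (z = 2 → Nat.card (ConjClasses G) = 9 ∧
        Nonempty (G ≃* Matrix.SpecialLinearGroup (Fin 2) (ZMod 5))) := by
  classical
  have hp : p.Prime := Fact.out
  obtain ⟨R, C, hRn, hsup, hCc, hsc, ⟨e⟩, hrel, h2C⟩ := icosa_structure H.inj H.cop hn hns
  haveI := hRn
  set z := Nat.card C with hz
  have hzp : z ∣ p - 1 := card_dvd_of_scalar H.inj C hsc
  haveI : C.Normal := ⟨fun x hx g => by
    rw [Subgroup.mem_center_iff.1 (hCc hx) g, mul_inv_cancel_right]; exact hx⟩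
  have hidx : C.index = 60 := by
    have h1 := Subgroup.relIndex_mul_index (le_sup_right : C ≤ R ⊔ C)
    rw [Subgroup.relIndex_sup_right, hrel, hsup, Subgroup.index_top, mul_one] at h1
    exact h1.symm
  have hG : Nat.card G = 60 * z := by rw [← C.card_mul_index, hidx, mul_comm]
  have hdvd : p ^ 2 - 1 ∣ 60 * z := hG ▸ hn ▸ H.dvd_card
  have h60 : p + 1 ∣ 60 := by
    have h1 : p ^ 2 - 1 = (p + 1) * (p - 1) := by
      have := Nat.sq_sub_sq p 1
      simpa using this
    have h2 : (p + 1) * (p - 1) ∣ 60 * (p - 1) :=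
      h1 ▸ hdvd.trans (Nat.mul_dvd_mul_left 60 hzp)
    exact Nat.dvd_of_mul_dvd_mul_right (by have := hp.two_le; omega) h2
  have hp11 : 11 ≤ p := by
    have hnd : ∀ r, r ∣ 60 → p ≠ r := fun r hr hpr =>
      H.cop (hG ▸ hpr ▸ hr.mul_right z)
    by_contra hlt
    have hlt' : p < 11 := not_le.1 hlt
    have := hp.two_le
    interval_cases p
    · exact hnd 2 (by norm_num) rfl
    · exact hnd 3 (by norm_num) rfl
    · exact absurd hp (by norm_num)
    · exact hnd 5 (by norm_num) rfl
    · exact absurd hp (by norm_num)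
    · exact absurd h60 (by norm_num)
    · exact absurd hp (by norm_num)
    · exact absurd hp (by norm_num)
    · exact absurd hp (by norm_num)
  let f : R × C →* G := MonoidHom.noncommCoprod R.subtype C.subtype fun r x =>
    (Subgroup.mem_center_iff.1 (hCc x.2) r.1 : r.1 * x.1 = x.1 * r.1)
  have hf : Function.Surjective f := by
    rw [← MonoidHom.range_eq_top]
    rw [eq_top_iff, ← hsup, sup_le_iff]
    refine ⟨fun r hr => ⟨(⟨r, hr⟩, 1), ?_⟩, fun x hx => ⟨(1, ⟨x, hx⟩), ?_⟩⟩
    · exact mul_one r
    · exact one_mul x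
  have hkL : Nat.card (ConjClasses R) = 9 := by
    rw [← card_classes_sl25]
    exact le_antisymm (card_classes_le_of_surjective e.symm.toMonoidHom e.symm.surjective)
      (card_classes_le_of_surjective e.toMonoidHom e.surjective)
  have hkP : Nat.card (ConjClasses (R × C)) = 9 * z := by
    rw [card_classes_prod, hkL, card_classes_of_comm (G := C) fun a b =>
      Subtype.ext (Subgroup.mem_center_iff.1 (hCc b.2) a.1)]
  have hker : Nat.card f.ker = 2 := by
    have h1 := f.ker.card_mul_index
    rw [Subgroup.index_ker, MonoidHom.range_eq_top.2 hf, Subgroup.card_top, hG, Nat.card_prod,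
      Nat.card_congr e.toEquiv, Cfsg.Agent.H36.SL25.card_L] at h1
    have hz0 : 0 < z := Nat.card_pos
    have : Nat.card f.ker * (60 * z) = 2 * (60 * z) := by rw [h1]; ring
    exact Nat.eq_of_mul_eq_mul_right (by omega) this
  refine ⟨z, h2C, hzp, hG, hp11, hdvd, hkP ▸ card_classes_le_of_surjective f hf, ?_, fun hz2 => ?_⟩
  · have := card_classes_le_ker_mul f hf
    rw [hkP, hker] at this
    omega
  · have hR : R = ⊤ := Subgroup.eq_top_of_card_eq R (by
      rw [Nat.card_congr e.toEquiv, Cfsg.Agent.H36.SL25.card_L, hG, hz2])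
    let ψ : G ≃* Cfsg.Agent.H36.SL25.L :=
      ((MulEquiv.subgroupCongr hR).trans Subgroup.topEquiv).symm.trans e
    refine ⟨?_, ⟨ψ⟩⟩
    rw [← card_classes_sl25]
    exact le_antisymm (card_classes_le_of_surjective ψ.symm.toMonoidHom ψ.symm.surjective)
      (card_classes_le_of_surjective ψ.toMonoidHom ψ.surjective)

end Cfsg.Agent.H45.Trans
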