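import Mathlib
import Cfsg.Prelude.Def_Characters
import Cfsg.Prelude.Def_Blocks
import Cfsg.Agent.H45.Transitive.Arith
import Cfsg.Agent.H45.Transitive.Tools
import Cfsg.Agent.H45.Transitive.Lift
import Cfsg.Agent.H45.Transitive.Two
import Cfsg.Agent.H32.OrbitCyclic
import Cfsg.Agent.H74.Zsigmondy
import Cfsg.Agent.H6.Basic
import Cfsg.Agent.S4485
import Cfsg.Agent.S4503
import Cfsg.Agent.S4504
import Cfsg.Agent.S0899
import Cfsg.Agent.S0144
import Cfsg.Agent.S0205

/-!
A group of order prime to `p` which is transitive on the nonzero vectors of a space of dimension at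
least three over the field of `p` elements is solvable.
-/

set_option autoImplicit false
set_option maxHeartbeats 800000

namespace Cfsg.Agent.H45.Trans

open Module

/-- The degree of a primitive prime divisor. -/
theorem Ppd.dvd_pred {p n r : ℕ} (hp : 1 ≤ p) (hn : 0 < n) (h : Ppd p n r) : n ∣ r - 1 := by
  obtain ⟨hr, hd, hmin⟩ := h
  haveI := Fact.mk hr
  have key : ∀ k, r ∣ p ^ k - 1 ↔ (p : ZMod r) ^ k = 1 := by
    intro k
    rw [← ZMod.natCast_eq_zero_iff, Nat.cast_sub (Nat.one_le_pow _ _ hp), Nat.cast_pow,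
      Nat.cast_one, sub_eq_zero]
  have hne : (p : ZMod r) ≠ 0 := fun h0 => by
    have := (key n).1 hd
    rw [h0, zero_pow hn.ne'] at this
    exact zero_ne_one this
  have ho : orderOf (p : ZMod r) = n := by
    refine (orderOf_eq_iff hn).2 ⟨(key n).1 hd, fun k hk hk0 h1 => hmin k hk0 hk ((key k).2 h1)⟩
  rw [← ho]
  exact ZMod.orderOf_dvd_card_sub_one hne

/-- Numbers with two prime divisors. -/
theorem eq_pow_mul_pow {m a b : ℕ} (hm : m ≠ 0) (ha : a.Prime) (hb : b.Prime) (hab : a ≠ b)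
    (h : ∀ t, t.Prime → t ∣ m → t = a ∨ t = b) : ∃ i j, m = a ^ i * b ^ j := by
  refine ⟨m.factorization a, m.factorization b, Nat.eq_of_factorization_eq hm
    (Nat.mul_ne_zero (pow_ne_zero _ ha.ne_zero) (pow_ne_zero _ hb.ne_zero)) fun t => ?_⟩
  rw [Nat.factorization_mul (pow_ne_zero _ ha.ne_zero) (pow_ne_zero _ hb.ne_zero),
    ha.factorization_pow, hb.factorization_pow, Finsupp.add_apply]
  rcases eq_or_ne t a with rfl | hta
  · simp [hab.symm]
  rcases eq_or_ne t b with rfl | htb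
  · simp [hab]
  rw [Finsupp.single_eq_of_ne hta, Finsupp.single_eq_of_ne htb, add_zero]
  by_cases ht : t.Prime
  · exact Nat.factorization_eq_zero_of_not_dvd fun hd => (h t ht hd).elim hta htb
  · exact Nat.factorization_eq_zero_of_not_prime m ht

variable {p : ℕ} [Fact p.Prime] {V : Type*} [AddCommGroup V] [Module (ZMod p) V] [Finite V]
  {G : Type*} [Group G] [Finite G] {ρ : G →* (V ≃ₗ[ZMod p] V)}

/-- The Sylow subgroups of a primitive prime divisor. -/
theorem ppd_sylow [Nontrivial V] (H : Hyp ρ) {r : ℕ} [Fact r.Prime]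
    (hr : Ppd p (finrank (ZMod p) V) r) (R : Sylow r G) :
    IsCyclic (R : Subgroup G) ∧
      (∀ x ∈ (R : Subgroup G), x ≠ 1 → Subgroup.centralizer ({x} : Set G) =
        Subgroup.centralizer ((R : Subgroup G) : Set G)) ∧
      Nat.card R ∣ p ^ finrank (ZMod p) V - 1 ∧
      (∀ a b : G, a ∈ Subgroup.centralizer ((R : Subgroup G) : Set G) →
        b ∈ Subgroup.centralizer ((R : Subgroup G) : Set G) → a * b = b * a) := by
  have hp : p.Prime := Fact.out
  have hrp : r ≠ p := by
    rintro rfl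
    exact H.cop (hr.2.1.trans H.dvd_card)
  have hprime : ∀ y : G, orderOf y = r → Semireg ρ y ∧ IsCyclic (Subgroup.centralizer ({y} : Set G)) :=
    fun y hy => by
      obtain ⟨h1, h2⟩ := irreducible_of_primitive H.inj hrp hr.2.2 hy
      exact ⟨h1, isCyclic_of_commutant H.inj h2⟩
  have hrG : r ∣ Nat.card G := hr.2.1.trans H.dvd_card
  have hR : (R : Subgroup G) ≠ ⊥ := R.ne_bot_of_dvd_card hrG
  haveI : Nontrivial (R : Subgroup G) := (Subgroup.nontrivial_iff_ne_bot _).2 hR
  haveI : Nontrivial (Subgroup.center (R : Subgroup G)) := R.isPGroup'.center_nontrivial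
  have hrZ : r ∣ Nat.card (Subgroup.center (R : Subgroup G)) := by
    obtain ⟨k, hk⟩ := IsPGroup.iff_card.1 (R.isPGroup'.to_subgroup (Subgroup.center (R : Subgroup G)))
    rcases Nat.eq_zero_or_pos k with rfl | hk0
    · exact absurd (by simpa using hk) (Finite.one_lt_card (α := Subgroup.center (R : Subgroup G))).ne'
    · exact hk ▸ dvd_pow_self r hk0.ne'
  obtain ⟨z, hz⟩ := exists_prime_orderOf_dvd_card' (G := Subgroup.center (R : Subgroup G)) r hrZ
  set y₀ : G := z.1.1 with hy₀
  have hy₀o : orderOf y₀ = r := by rw [hy₀, Subgroup.orderOf_coe, Subgroup.orderOf_coe, hz]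
  have hle : (R : Subgroup G) ≤ Subgroup.centralizer ({y₀} : Set G) := fun a ha =>
    Subgroup.mem_centralizer_singleton_iff.2
      (congrArg Subtype.val (Subgroup.mem_center_iff.1 z.2 ⟨a, ha⟩))
  haveI := (hprime y₀ hy₀o).2
  have hcyc : IsCyclic (R : Subgroup G) :=
    isCyclic_of_injective (Subgroup.inclusion hle) (Subgroup.inclusion_injective hle)
  letI := hcyc.commGroup
  have hRcomm : ∀ a ∈ (R : Subgroup G), ∀ b ∈ (R : Subgroup G), a * b = b * a := fun a ha b hb =>
    congrArg Subtype.val (mul_comm (⟨a, ha⟩ : (R : Subgroup G)) ⟨b, hb⟩)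
  have hpow : ∀ x ∈ (R : Subgroup G), x ≠ 1 → ∃ k : ℕ, orderOf (x ^ k) = r := by
    intro x hx hx1
    obtain ⟨k, hk⟩ := R.isPGroup' ⟨x, hx⟩
    have hk' : x ^ (r ^ k) = 1 := congrArg Subtype.val hk
    obtain ⟨j, -, hj⟩ := (Nat.dvd_prime_pow Fact.out).1 (orderOf_dvd_of_pow_eq_one hk')
    rcases Nat.eq_zero_or_pos j with rfl | hj0
    · exact absurd (orderOf_eq_one_iff.1 (by simpa using hj)) hx1
    · exact ⟨_, orderOf_pow_orderOf_div (orderOf_pos x).ne' (hj ▸ dvd_pow_self r hj0.ne')⟩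
  refine ⟨hcyc, fun x hx hx1 => ?_, ?_, ?_⟩
  · refine le_antisymm (fun c hc => ?_) (fun c hc => ?_)
    · obtain ⟨k, hk⟩ := hpow x hx hx1
      haveI := (hprime _ hk).2
      letI := (hprime _ hk).2.commGroup
      rw [Subgroup.mem_centralizer_singleton_iff] at hc
      rw [Subgroup.mem_centralizer_iff]
      intro a ha
      have hc' : c ∈ Subgroup.centralizer ({x ^ k} : Set G) :=
        Subgroup.mem_centralizer_singleton_iff.2 (Commute.pow_right hc k)
      have ha' : a ∈ Subgroup.centralizer ({x ^ k} : Set G) :=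
        Subgroup.mem_centralizer_singleton_iff.2 (Commute.pow_right (hRcomm a ha x hx) k)
      exact congrArg Subtype.val (mul_comm (⟨a, ha'⟩ : Subgroup.centralizer ({x ^ k} : Set G)) ⟨c, hc'⟩)
    · exact Subgroup.mem_centralizer_singleton_iff.2 (Subgroup.mem_centralizer_iff.1 hc x hx).symm
  · rw [← card_V (p := p) (V := V)]
    refine card_dvd_of_semireg ρ _ fun x hx hx1 => ?_
    obtain ⟨k, hk⟩ := hpow x hx hx1
    exact semireg_of_pow (hprime _ hk).1
  · intro a b ha hb
    letI := (hprime y₀ hy₀o).2.commGroup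
    have hy₀R : y₀ ∈ (R : Subgroup G) := z.1.2
    have mk : ∀ c, c ∈ Subgroup.centralizer ((R : Subgroup G) : Set G) →
        c ∈ Subgroup.centralizer ({y₀} : Set G) := fun c hc =>
      Subgroup.mem_centralizer_singleton_iff.2 (Subgroup.mem_centralizer_iff.1 hc y₀ hy₀R).symm
    exact congrArg Subtype.val
      (mul_comm (⟨a, mk a ha⟩ : Subgroup.centralizer ({y₀} : Set G)) ⟨b, mk b hb⟩)

/-- Without a normal Sylow subgroup there is no normal subgroup of order `r`. -/
theorem no_normal_of {r : ℕ} [Fact r.Prime] (hsq : ¬ r ^ 2 ∣ Nat.card G)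
    (h : ∀ R : Sylow r G, ¬ (R : Subgroup G).Normal) (K : Subgroup G) (hK : K.Normal) :
    Nat.card K ≠ r := by
  intro hc
  have hpg : IsPGroup r K := IsPGroup.of_card (n := 1) (by rw [hc, pow_one])
  obtain ⟨P, hP⟩ := hpg.exists_le_sylow
  obtain ⟨k, hk⟩ := IsPGroup.iff_card.1 P.isPGroup'
  have hk1 : k ≤ 1 := by
    by_contra h2
    exact hsq ((pow_dvd_pow r (by omega : 2 ≤ k)).trans (hk ▸ Subgroup.card_subgroup_dvd_card _))
  have hle : Nat.card P ≤ Nat.card K := by
    rw [hk, hc]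
    calc r ^ k ≤ r ^ 1 := Nat.pow_le_pow_right (Fact.out : r.Prime).pos hk1
      _ = r := pow_one r
  rw [Subgroup.eq_of_le_of_card_ge hP hle] at hK
  exact h P hK

/-- A primitive prime divisor of a nonsolvable group. -/
theorem ppd_step [Nontrivial V] (H : Hyp ρ) (hns : ¬ Group.IsSolvable G)
    (hn : 3 ≤ finrank (ZMod p) V) {r : ℕ} (hr : Ppd p (finrank (ZMod p) V) r) :
    ¬ r ^ 2 ∣ p ^ finrank (ZMod p) V - 1 ∧ ¬ r ^ 2 ∣ Nat.card G ∧
      (∀ K : Subgroup G, K.Normal → Nat.card K ≠ r) ∧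
      (r = finrank (ZMod p) V + 1 ∨ r = 2 * finrank (ZMod p) V + 1) := by
  have hp : p.Prime := Fact.out
  haveI := Fact.mk hr.1
  set n := finrank (ZMod p) V with hndef
  have hnn : ∀ R : Sylow r G, ¬ (R : Subgroup G).Normal := by
    intro R hN
    apply hns
    obtain ⟨hc, -, -, hcomm⟩ := ppd_sylow H hr R
    exact Cfsg.Agent.H32.OrbitCyclic.isSolvable_of_centralizer_cyclic _ hc
      (Group.isSolvable_of_comm fun a b => Subtype.ext (hcomm a.1 b.1 a.2 b.2))
  obtain ⟨R⟩ := (inferInstance : Nonempty (Sylow r G))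
  obtain ⟨-, hstar, hdvd, -⟩ := ppd_sylow H hr R
  obtain ⟨χ, hχ, hdeg, hfaith⟩ := exists_lift ρ H.inj H.cop
  have hrn : n + 1 ≤ r := by
    have := Nat.le_of_dvd (by have := hr.1.two_le; omega) (hr.dvd_pred hp.pos (by omega))
    omega
  have hsqV : ¬ r ^ 2 ∣ p ^ n - 1 := by
    intro h2
    obtain ⟨k, hk⟩ := IsPGroup.iff_card.1 R.isPGroup'
    have h2G : r ^ 2 ∣ Nat.card G := h2.trans H.dvd_card
    have hk2 : 2 ≤ k := by
      have h3 := R.card_eq_multiplicity
      rw [hk] at h3
      rw [Nat.pow_right_injective hr.1.two_le h3]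
      exact (hr.1.pow_dvd_iff_le_factorization Nat.card_pos.ne').1 h2G
    refine hnn R (Cfsg.Agent.S4485.result r hr.1 (hr.2.1.trans H.dvd_card) R hstar k hk χ hχ hfaith ?_)
    rw [hdeg]
    calc n ^ 2 + 1 < (n + 1) ^ 2 := by nlinarith
      _ ≤ r ^ 2 := Nat.pow_le_pow_left hrn 2
      _ ≤ r ^ k := Nat.pow_le_pow_right hr.1.pos hk2
  have hsqG : ¬ r ^ 2 ∣ Nat.card G := fun h2 => hsqV (by
    refine Dvd.dvd.trans ?_ hdvd
    rw [R.card_eq_multiplicity]
    exact pow_dvd_pow r ((hr.1.pow_dvd_iff_le_factorization Nat.card_pos.ne').1 h2))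
  have hno := no_normal_of hsqG hnn
  have hle := Cfsg.Agent.S4503.result r hr.1 (hr.2.1.trans H.dvd_card) hsqG hno χ hχ hfaith
  rw [hdeg] at hle
  refine ⟨hsqV, hsqG, hno, ?_⟩
  obtain ⟨j, hj⟩ := hr.dvd_pred hp.pos (by omega)
  have hj2 : j ≤ 2 := by nlinarith [hr.1.two_le, Nat.sub_add_cancel hr.1.one_lt.le]
  interval_cases j <;> omega

/-- The largest possible primitive prime divisor does not occur. -/
theorem psl_false [Nontrivial V] (H : Hyp ρ) (hodd : p ≠ 2) (hn : 3 ≤ finrank (ZMod p) V)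
    {r : ℕ} (hr : Ppd p (finrank (ZMod p) V) r) (hr2 : r = 2 * finrank (ZMod p) V + 1)
    (hsq : ¬ r ^ 2 ∣ Nat.card G) (hno : ∀ K : Subgroup G, K.Normal → Nat.card K ≠ r) : False := by
  have hp : p.Prime := Fact.out
  haveI := Fact.mk hr.1
  set n := finrank (ZMod p) V with hndef
  have hrG : r ∣ Nat.card G := hr.2.1.trans H.dvd_card
  obtain ⟨χ, hχ, hdeg, hfaith⟩ := exists_lift ρ H.inj H.cop
  obtain ⟨e⟩ := Cfsg.Agent.S4504.result r hr.1 hrG hsq hno χ hχ hfaith (by rw [hdeg, hr2])
  have hM : Nat.card (G ⧸ Subgroup.center G) = n * (2 * n + 2) * (2 * n + 1) := by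
    rw [Nat.card_congr e.toEquiv]
    have h := Cfsg.Agent.H6.card_psl2_mul (F := ZMod r) (q := r) (ZMod.card r)
    rw [Nat.gcd_eq_left (by omega : 2 ∣ r - 1)] at h
    have h2 : r * (r ^ 2 - 1) = (n * (2 * n + 2) * (2 * n + 1)) * 2 := by
      rw [hr2, show (2 * n + 1) ^ 2 - 1 = 4 * n * n + 4 * n from by
        rw [show (2 * n + 1) ^ 2 = 4 * n * n + 4 * n + 1 from by ring, Nat.add_sub_cancel]]
      ring
    exact Nat.eq_of_mul_eq_mul_right two_pos (h.trans h2)
  obtain ⟨F, _, _, _, _, σ, hσ, hZ⟩ := exists_field ρ H.inj H.irreducible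
  have hcard := Module.natCard_eq_pow_finrank (K := F) (V := V)
  set d := finrank F V with hd
  have hd0 : 0 < d := Module.finrank_pos
  rw [card_V (p := p) (V := V), ← hndef] at hcard
  obtain ⟨b, -, hb⟩ := (Nat.dvd_prime_pow hp).1 (hcard ▸ dvd_pow_self (Nat.card F) hd0.ne')
  rw [hb, ← pow_mul] at hcard
  have hbd : n = b * d := Nat.pow_right_injective hp.two_le hcard
  rcases Nat.lt_or_ge b 2 with hb1 | hb2
  · have hb1' : b = 1 := by
      rcases Nat.eq_zero_or_pos b with rfl | h0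
      · simp at hbd; omega
      · omega
    subst hb1'
    rw [hb, pow_one] at hZ
    refine psl_case_false hp hodd hn (hr2 ▸ hr.1) ?_ ?_
    · rw [← hM]
      exact fun h => H.cop (h.trans ⟨_, Subgroup.card_eq_card_quotient_mul_card_subgroup _⟩)
    · refine H.dvd_card.trans ?_
      rw [Subgroup.card_eq_card_quotient_mul_card_subgroup (Subgroup.center G), hM, mul_comm]
      exact mul_dvd_mul_right hZ _
  · obtain ⟨χ', hχ', hdeg', hfaith'⟩ := exists_lift σ hσ H.cop
    have h := Cfsg.Agent.S4503.result r hr.1 hrG hsq hno χ' hχ' hfaith'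
    rw [hdeg', ← hd] at h
    have : 2 * d ≤ n := hbd ▸ Nat.mul_le_mul_right d hb2
    omega

/-- The pair `(3, 4)`. -/
theorem case_three_four (H : Hyp ρ) (hp3 : p = 3) (hn : finrank (ZMod p) V = 4) :
    Group.IsSolvable G := by
  subst hp3
  haveI : Nontrivial V := Module.nontrivial_of_finrank_pos (R := ZMod 3) (by omega)
  have h13sq : ¬ 13 ^ 2 ∣ Nat.card G := by
    intro h
    have hd := Subgroup.card_dvd_of_injective ((toGL (Module.finBasisOfFinrankEq (ZMod 3) V hn)).comp ρ)
      ((toGL_injective _).comp H.inj)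
    rw [Matrix.card_GL_field, Fin.prod_univ_four, ZMod.card] at hd
    exact absurd (h.trans hd) (by decide)
  have hprimes : ∀ t, t.Prime → t ∣ Nat.card G → t = 2 ∨ t = 5 := by
    intro t ht htG
    haveI := Fact.mk ht
    have ht3 : t ≠ 3 := fun h => H.cop (h ▸ htG)
    obtain ⟨y, hy⟩ := exists_prime_orderOf_dvd_card' t htG
    have hf := pow_modEq_fixV ρ hy
    have hlt : finrank (ZMod 3) (fixV ρ y) < 4 := by
      rw [← hn]
      refine Submodule.finrank_lt fun htop => ?_
      have : ρ y = 1 := LinearEquiv.ext fun w => mem_fixV.1 (htop ▸ Submodule.mem_top)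
      rw [← map_one ρ] at this
      rw [H.inj this, orderOf_one] at hy
      exact ht.one_lt.ne hy
    rw [hn] at hf
    have hdv := (Nat.modEq_iff_dvd' (Nat.pow_le_pow_right (by norm_num) hlt.le)).1 hf.symm
    have h13 : t ≠ 13 := by
      rintro rfl
      have hno : ∀ K : Subgroup G, K.Normal → Nat.card K ≠ 13 := by
        intro K hK hc
        haveI := isCyclic_of_prime_card hc
        letI := IsCyclic.commGroup (α := K)
        obtain ⟨z, hz⟩ := exists_prime_orderOf_dvd_card' (G := K) 13 (by rw [hc])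
        have hz1 : z.1 ≠ 1 := fun h1 => by
          rw [← Subgroup.orderOf_coe, h1, orderOf_one] at hz
          omega
        have hsr := H.semireg_of_normal_abelian hK
          (fun a ha b hb => congrArg Subtype.val (mul_comm (⟨a, ha⟩ : K) ⟨b, hb⟩)) z.2 hz1
        have h := pow_modEq_fixV ρ (r := 13) (g := z.1) (by rw [Subgroup.orderOf_coe, hz])
        have hbot : fixV ρ z.1 = ⊥ := (Submodule.eq_bot_iff _).2 fun v hv => hsr v hv
        rw [hn, hbot, finrank_bot] at h
        exact absurd h (by decide)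
      obtain ⟨χ, hχ, hdeg, hfaith⟩ := exists_lift ρ H.inj H.cop
      have := Cfsg.Agent.S4503.result 13 ht htG h13sq hno χ hχ hfaith
      omega
    have hle : t ∣ 2 ^ 4 * 5 * 13 * 3 ^ 4 := hdv.trans (by interval_cases finrank (ZMod 3) (fixV ρ y) <;> decide)
    rcases (ht.dvd_mul).1 hle with h | h
    · rcases (ht.dvd_mul).1 h with h | h
      · rcases (ht.dvd_mul).1 h with h | h
        · exact Or.inl ((Nat.prime_dvd_prime_iff_eq ht Nat.prime_two).1 (ht.dvd_of_dvd_pow h))
        · exact Or.inr ((Nat.prime_dvd_prime_iff_eq ht (by norm_num)).1 h)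
      · exact absurd ((Nat.prime_dvd_prime_iff_eq ht (by norm_num)).1 h) h13
    · exact absurd ((Nat.prime_dvd_prime_iff_eq ht Nat.prime_three).1 (ht.dvd_of_dvd_pow h)) ht3
  obtain ⟨i, j, hij⟩ := eq_pow_mul_pow Nat.card_pos.ne' Nat.prime_two (by norm_num) (by norm_num) hprimes
  exact Cfsg.Agent.S0144.result 2 5 i j Nat.prime_two (by norm_num) hij

/-- The centraliser of a normal subgroup of order `s` in the pairs `(3, 6)` and `(5, 6)`. -/
theorem solvable_centraliser {D : Type*} [Group D] [Finite D] {σ : D →* (V ≃ₗ[ZMod p] V)}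
    (hσ : Function.Injective σ) (hcop : ¬ p ∣ Nat.card D) (hn : finrank (ZMod p) V = 6) {s : ℕ}
    [Fact s.Prime] (hps : (p = 3 ∧ s = 13) ∨ (p = 5 ∧ s = 31)) {x : D}
    (hx : x ∈ Subgroup.center D) (hxo : orderOf x = s) (hsr : Semireg σ x) :
    Group.IsSolvable D := by
  have hs : s.Prime := Fact.out
  have hp : p.Prime := Fact.out
  haveI : Nontrivial V := Module.nontrivial_of_finrank_pos (R := ZMod p) (by omega)
  have hmod : ∀ k ≤ 6, p ^ k ≡ 1 [MOD s] → k = 0 ∨ k = 3 ∨ k = 6 := by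
    rcases hps with ⟨rfl, rfl⟩ | ⟨rfl, rfl⟩ <;> decide
  have hdim : ∀ U : Submodule (ZMod p) V, (∀ u ∈ U, σ x u ∈ U) →
      finrank (ZMod p) U = 0 ∨ finrank (ZMod p) U = 3 ∨ finrank (ZMod p) U = 6 := by
    intro U hU
    have h := card_modEq_fixV σ hxo U hU
    have hbot : U ⊓ fixV σ x = ⊥ := (Submodule.eq_bot_iff _).2 fun w hw => hsr w hw.2
    rw [hbot, Module.natCard_eq_pow_finrank (K := ZMod p) (V := U), Nat.card_zmod,
      show Nat.card (⊥ : Submodule (ZMod p) V) = 1 from Nat.card_unique] at h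
    exact hmod _ (hn ▸ Submodule.finrank_le U) h
  have h5 : ¬ 5 ∣ Nat.card D := by
    intro h5
    rcases hps with ⟨rfl, rfl⟩ | ⟨rfl, rfl⟩
    · haveI : Fact (Nat.Prime 5) := ⟨by norm_num⟩
      obtain ⟨y, hy⟩ := exists_prime_orderOf_dvd_card' 5 h5
      have hf := pow_modEq_fixV σ hy
      rw [hn] at hf
      rcases hdim (fixV σ y) (fun u hu => map_fixV_mem (Subgroup.mem_center_iff.1 hx y) hu) with
        h | h | h
      · rw [h] at hf
        exact absurd hf (by decide)
      · rw [h] at hf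
        exact absurd hf (by decide)
      · have htop : fixV σ y = ⊤ := Submodule.eq_top_of_finrank_eq (h.trans hn.symm)
        have : σ y = 1 := LinearEquiv.ext fun w => mem_fixV.1 (htop ▸ Submodule.mem_top)
        rw [← map_one σ] at this
        rw [hσ this, orderOf_one] at hy
        omega
    · exact hcop h5
  by_cases hirr : ∀ W : Submodule (ZMod p) V, (∀ g, ∀ w ∈ W, σ g w ∈ W) → W = ⊥ ∨ W = ⊤
  · obtain ⟨F, _, _, _, _, τ, hτ, hZ⟩ := exists_field σ hσ hirr
    have hcard := Module.natCard_eq_pow_finrank (K := F) (V := V)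
    set d := finrank F V with hd
    have hd0 : 0 < d := Module.finrank_pos
    rw [card_V (p := p) (V := V), hn] at hcard
    obtain ⟨b, -, hb⟩ := (Nat.dvd_prime_pow hp).1 (hcard ▸ dvd_pow_self (Nat.card F) hd0.ne')
    rw [hb, ← pow_mul] at hcard
    have hbd : 6 = b * d := Nat.pow_right_injective hp.two_le hcard
    have hsF : s ∣ p ^ b - 1 := by
      rw [← hb]
      exact (hxo ▸ (Subgroup.orderOf_coe (⟨x, hx⟩ : Subgroup.center D)).symm ▸
        orderOf_dvd_natCard (⟨x, hx⟩ : Subgroup.center D)).trans hZ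
    have hb6 : b ≤ 6 := Nat.le_of_dvd (by norm_num) (hbd ▸ dvd_mul_right b d)
    rcases hmod b hb6 ((Nat.modEq_iff_dvd' (Nat.one_le_pow _ _ hp.pos)).2 hsF).symm with rfl | rfl | rfl
    · omega
    · exact solvable_of_not_five (p := p) hcop ((toGL (Module.finBasisOfFinrankEq F V (by omega))).comp τ)
        ((toGL_injective _).comp hτ) h5
    · have hd1 : finrank F V = 1 := by omega
      refine Group.isSolvable_of_comm fun a c => hτ ?_
      obtain ⟨v, hv⟩ := exists_ne (0 : V)
      refine LinearEquiv.ext fun u => ?_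
      obtain ⟨l, rfl⟩ := (finrank_eq_one_iff_of_nonzero' v hv).1 hd1 u
      obtain ⟨α, hα⟩ := (finrank_eq_one_iff_of_nonzero' v hv).1 hd1 (τ a v)
      obtain ⟨β, hβ⟩ := (finrank_eq_one_iff_of_nonzero' v hv).1 hd1 (τ c v)
      simp only [map_mul, LinearEquiv.mul_apply, map_smul, ← hα, ← hβ, smul_smul]
      rw [mul_comm α β]
  · push Not at hirr
    obtain ⟨W, hW, h0, h1⟩ := hirr
    have hW3 : finrank (ZMod p) W = 3 := by
      rcases hdim W (hW x) with h | h | h
      · exact absurd (Submodule.finrank_eq_zero.1 h) h0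
      · exact h
      · exact absurd (Submodule.eq_top_of_finrank_eq (h.trans hn.symm)) h1
    refine Group.isSolvable_of_comm (comm_of_two_layers σ hσ hcop hx W hW h0 h1 ?_ ?_)
    · intro U hU hUx
      rcases hdim U hUx with h | h | h
      · exact Or.inl (Submodule.finrank_eq_zero.1 h)
      · exact Or.inr (Submodule.eq_of_le_of_finrank_eq hU (h.trans hW3.symm))
      · exact absurd (Submodule.finrank_mono hU) (by omega)
    · intro U hU hUx
      rcases hdim U hUx with h | h | h
      · exact absurd (Submodule.finrank_mono hU) (by omega)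
      · exact Or.inl (Submodule.eq_of_le_of_finrank_eq hU (hW3.trans h.symm)).symm
      · exact Or.inr (Submodule.eq_top_of_finrank_eq (h.trans hn.symm))

/-- The pairs `(3, 6)` and `(5, 6)`. -/
theorem case_six (H : Hyp ρ) (hn : finrank (ZMod p) V = 6) {s : ℕ} [Fact s.Prime]
    (hps : (p = 3 ∧ s = 13) ∨ (p = 5 ∧ s = 31)) : Group.IsSolvable G := by
  have hs : s.Prime := Fact.out
  haveI : Nontrivial V := Module.nontrivial_of_finrank_pos (R := ZMod p) (by omega)
  have hsV : s ∣ p ^ 6 - 1 ∧ ¬ s ^ 2 ∣ p ^ 6 - 1 := by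
    rcases hps with ⟨rfl, rfl⟩ | ⟨rfl, rfl⟩ <;> decide
  have hsG : s ∣ Nat.card G := hsV.1.trans (hn ▸ H.dvd_card)
  have hK : ∀ K : Subgroup G, ¬ s ^ 2 ∣ Nat.card K → ∀ Q : Sylow s K, (Q : Subgroup K).Normal := by
    intro K hKsq Q
    by_contra hQ
    have hall : ∀ R : Sylow s K, ¬ (R : Subgroup K).Normal := fun R hR => hQ (by
      haveI := R.unique_of_normal hR
      rwa [Subsingleton.elim Q R])
    have hdiv : s ∣ Nat.card K := by
      by_contra hd
      refine hQ ?_
      have hb : (Q : Subgroup K) = ⊥ := by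
        obtain ⟨k, hk⟩ := IsPGroup.iff_card.1 Q.isPGroup'
        refine Subgroup.card_eq_one.1 ?_
        rcases Nat.eq_zero_or_pos k with rfl | hk0
        · simpa using hk
        · exact absurd ((hk ▸ dvd_pow_self s hk0.ne').trans (Subgroup.card_subgroup_dvd_card _)) hd
      rw [hb]
      infer_instance
    have hno := no_normal_of hKsq hall
    have hcK : ¬ p ∣ Nat.card K := fun h => H.cop (h.trans (Subgroup.card_subgroup_dvd_card K))
    obtain ⟨χ, hχ, hdeg, hfaith⟩ := exists_lift (ρ.comp K.subtype)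
      (H.inj.comp K.subtype_injective) hcK
    have hle := Cfsg.Agent.S4503.result s hs hdiv hKsq hno χ hχ hfaith
    rw [hdeg, hn] at hle
    rcases hps with ⟨rfl, rfl⟩ | ⟨rfl, rfl⟩
    · obtain ⟨e⟩ := Cfsg.Agent.S4504.result 13 hs hdiv hKsq hno χ hχ hfaith (by rw [hdeg, hn])
      have h := Cfsg.Agent.H6.card_psl2_mul (F := ZMod 13) (q := 13) (ZMod.card 13)
      rw [← Nat.card_congr e.toEquiv] at h
      norm_num at h
      refine hcK (Dvd.dvd.trans ?_ ⟨_, Subgroup.card_eq_card_quotient_mul_card_subgroup (Subgroup.center K)⟩)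
      omega
    · omega
  obtain ⟨χ, ⟨m, ρc, hρc⟩, hdeg, hfaith⟩ := exists_lift ρ H.inj H.cop
  have hm : m = 6 := by
    rw [Cfsg.charDegree, ← hρc, Representation.char_one, Module.finrank_fin_fun,
      Complex.natCast_re, Nat.floor_natCast, hn] at hdeg
    exact hdeg
  have hinj : Function.Injective ρc := by
    intro a b hab
    have h1 : ρc (b⁻¹ * a) = ρc 1 := by rw [map_mul, hab, ← map_mul, inv_mul_cancel]
    have := hfaith (b⁻¹ * a) (by rw [← hρc]; simp only [Representation.character, h1])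
    exact (inv_mul_eq_one.1 this).symm
  obtain ⟨P⟩ := (inferInstance : Nonempty (Sylow s G))
  have hPn : (P : Subgroup G).Normal :=
    Cfsg.Agent.S0899.result m ρc hinj s
      (Or.inr ⟨by rcases hps with ⟨-, rfl⟩ | ⟨-, rfl⟩ <;> omega, hK⟩) P
  haveI := hPn
  set A : Subgroup G := (Subgroup.center (P : Subgroup G)).map (P : Subgroup G).subtype with hA
  haveI hAn : A.Normal := inferInstance
  have hAab : ∀ a ∈ A, ∀ b ∈ A, a * b = b * a := by
    rintro _ ⟨a, ha, rfl⟩ _ ⟨b, hb, rfl⟩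
    exact congrArg Subtype.val (Subgroup.mem_center_iff.1 hb a)
  have hAsr : ∀ a ∈ A, a ≠ 1 → Semireg ρ a := fun a ha ha1 =>
    H.semireg_of_normal_abelian hAn hAab ha ha1
  have hAd := card_dvd_of_semireg ρ A hAsr
  rw [card_V (p := p) (V := V), hn] at hAd
  have hAc : Nat.card A = s := by
    have hPne : (P : Subgroup G) ≠ ⊥ := P.ne_bot_of_dvd_card hsG
    haveI : Nontrivial (P : Subgroup G) := (Subgroup.nontrivial_iff_ne_bot _).2 hPne
    haveI : Nontrivial (Subgroup.center (P : Subgroup G)) := P.isPGroup'.center_nontrivial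
    rw [hA, Subgroup.card_map_of_injective (Subgroup.subtype_injective _)] at hAd ⊢
    obtain ⟨k, hk⟩ := IsPGroup.iff_card.1 (P.isPGroup'.to_subgroup (Subgroup.center (P : Subgroup G)))
    rw [hk] at hAd ⊢
    have h1 : k ≠ 0 := by
      rintro rfl
      exact absurd (by simpa using hk)
        (Finite.one_lt_card (α := Subgroup.center (P : Subgroup G))).ne'
    have h2 : k < 2 := by
      by_contra h
      exact hsV.2 ((pow_dvd_pow s (by omega)).trans hAd)
    rw [show k = 1 by omega, pow_one]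
  refine Cfsg.Agent.H32.OrbitCyclic.isSolvable_of_centralizer_cyclic A (isCyclic_of_prime_card hAc) ?_
  set D := Subgroup.centralizer (A : Set G) with hD
  obtain ⟨z, hz⟩ := exists_prime_orderOf_dvd_card' (G := A) s (by rw [hAc])
  have hzD : z.1 ∈ D := Subgroup.mem_centralizer_iff.2 fun a ha => hAab a ha z.1 z.2
  refine solvable_centraliser (σ := ρ.comp D.subtype) (H.inj.comp D.subtype_injective)
    (fun h => H.cop (h.trans (Subgroup.card_subgroup_dvd_card D))) hn hps (x := ⟨z.1, hzD⟩)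
    (Subgroup.mem_center_iff.2 fun g => Subtype.ext (Subgroup.mem_centralizer_iff.1 g.2 z.1 z.2).symm)
    ?_ ?_
  · rw [Subgroup.orderOf_mk, Subgroup.orderOf_coe, hz]
  · refine hAsr z.1 z.2 fun h1 => ?_
    rw [← Subgroup.orderOf_coe, h1, orderOf_one] at hz
    exact hs.one_lt.ne hz

/-- A coprime transitive linear group in dimension at least three is solvable. -/
theorem solvable_of_three_le (H : Hyp ρ) (hn : 3 ≤ finrank (ZMod p) V) : Group.IsSolvable G := by
  have hp : p.Prime := Fact.out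
  haveI : Nontrivial V := Module.nontrivial_of_finrank_pos (R := ZMod p) (by omega)
  by_cases h2 : p = 2
  · subst h2
    exact Cfsg.Agent.S0205.result (Nat.not_even_iff_odd.1 fun he => H.cop he.two_dvd)
  by_contra hns
  have hex : ∃ r, Ppd p (finrank (ZMod p) V) r := by
    obtain ⟨r, h1, h2', h3⟩ := Cfsg.Agent.H74.zsigmondy (a := p) (n := finrank (ZMod p) V)
      hp.one_lt (by omega) (fun h => h2 h.1) (fun h => by omega)
    exact ⟨r, h1, h2', h3⟩
  have hall : AllSmall p (finrank (ZMod p) V) := by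
    intro r hr
    obtain ⟨h1, h3, h4, h5⟩ := ppd_step H hns hn hr
    rcases h5 with h5 | h5
    · exact ⟨h5, h1⟩
    · exact (psl_false H h2 hn hr h5 h3 h4).elim
  rcases allSmall_cases hp h2 hn hex hall with ⟨h, h'⟩ | ⟨h, h'⟩ | ⟨h, h'⟩
  · exact hns (case_three_four H h h')
  · haveI : Fact (Nat.Prime 13) := ⟨by norm_num⟩
    exact hns (case_six H h' (Or.inl ⟨h, rfl⟩))
  · haveI : Fact (Nat.Prime 31) := ⟨by norm_num⟩
    exact hns (case_six H h' (Or.inr ⟨h, rfl⟩))

end Cfsg.Agent.H45.Trans
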