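import Mathlib
import Cfsg.Agent.H45.Transitive.RegLift

/-!
Classes of elements of order prime to `p` against the classes of a complement.
-/

set_option autoImplicit false

namespace Cfsg.Agent.H45.Trans

variable {G : Type*} [Group G] [Finite G] {p : ℕ} [Fact p.Prime]

/-- The classes of elements of order prime to `p`. -/
abbrev RegClasses (G : Type*) [Group G] (p : ℕ) :=
  {c : ConjClasses G // ∃ g : G, ConjClasses.mk g = c ∧ ¬ p ∣ orderOf g}

variable (N : Subgroup G) [N.Normal] (V H : Subgroup (G ⧸ N)) [V.Normal]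

omit [Finite G] [Fact p.Prime] in
theorem class_eq_of_isConj (hcompl : V.IsComplement' H) {h h' : H}
    (hc : IsConj h.1 h'.1) : IsConj h h' := by
  obtain ⟨g, hg⟩ := isConj_iff.1 hc
  obtain ⟨⟨v, c⟩, hvc⟩ := hcompl.2 g
  have hvc' : v.1 * c.1 = g := hvc
  rw [← hvc'] at hg
  exact isConj_iff.2 ⟨c, Subtype.ext (conj_in_complement hcompl.disjoint v.2 c.2 h.2 h'.2 hg).1⟩

/-- Every class of the complement lifts. -/
theorem exists_lift_map (hcompl : V.IsComplement' H) (hH : ¬ p ∣ Nat.card H) :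
    ∃ Φ : ConjClasses H → RegClasses G p, Function.Injective Φ ∧
      (∀ X, ∃ (g : G) (h : H), (Φ X).1 = ConjClasses.mk g ∧ X = ConjClasses.mk h ∧
        (QuotientGroup.mk g : G ⧸ N) = h.1) ∧
      (Φ (ConjClasses.mk 1)).1 = ConjClasses.mk 1 := by
  classical
  have hp : p.Prime := Fact.out
  have key : ∀ X : ConjClasses H, ∃ g : G, ∃ h : H, X = ConjClasses.mk h ∧
      (QuotientGroup.mk g : G ⧸ N) = h.1 ∧ ¬ p ∣ orderOf g ∧ (X = ConjClasses.mk 1 → g = 1) := by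
    intro X
    by_cases hX : X = ConjClasses.mk 1
    · exact ⟨1, 1, hX, rfl, by rw [orderOf_one]; exact hp.not_dvd_one, fun _ => rfl⟩
    obtain ⟨h, rfl⟩ := ConjClasses.exists_rep X
    obtain ⟨g, hg, hgr⟩ := exists_reg_lift (QuotientGroup.mk' N) (QuotientGroup.mk'_surjective N) hp
      (k := h.1) (fun hd => hH (hd.trans (Subgroup.orderOf_dvd_natCard H h.2)))
    exact ⟨g, h, rfl, hg, hgr, fun h1 => absurd h1 hX⟩
  choose g h hX hgh hreg hone using key
  refine ⟨fun X => ⟨ConjClasses.mk (g X), g X, rfl, hreg X⟩, fun X Y hXY => ?_,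
    fun X => ⟨g X, h X, rfl, hX X, hgh X⟩, ?_⟩
  · have h1 := ConjClasses.mk_eq_mk_iff_isConj.1 (congrArg Subtype.val hXY)
    have h2 := MonoidHom.map_isConj (QuotientGroup.mk' N) h1
    rw [QuotientGroup.mk'_apply, QuotientGroup.mk'_apply, hgh, hgh] at h2
    rw [hX X, hX Y]
    exact ConjClasses.mk_eq_mk_iff_isConj.2 (class_eq_of_isConj N V H hcompl h2)
  · show ConjClasses.mk (g (ConjClasses.mk 1)) = ConjClasses.mk 1
    rw [hone _ rfl]

/-- The lower bounds, with the consequences of equality when the kernel is nontrivial. -/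
theorem card_regClasses_bounds (hcompl : V.IsComplement' H) (hH : ¬ p ∣ Nat.card H)
    (hN : ¬ p ∣ Nat.card N) :
    Nat.card (ConjClasses H) ≤ Nat.card (RegClasses G p) ∧
    (N ≠ ⊥ → Nat.card (ConjClasses H) + 1 ≤ Nat.card (RegClasses G p) ∧
      (Nat.card (RegClasses G p) = Nat.card (ConjClasses H) + 1 →
        (∀ a ∈ N, ∀ b ∈ N, a ≠ 1 → b ≠ 1 → IsConj a b) ∧
        (∀ g g' : G, ¬ p ∣ orderOf g → ¬ p ∣ orderOf g' → (QuotientGroup.mk g : G ⧸ N) ≠ 1 →
          IsConj (QuotientGroup.mk g : G ⧸ N) (QuotientGroup.mk g') → IsConj g g'))) := by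
  classical
  have hp : p.Prime := Fact.out
  obtain ⟨Φ, hΦ, hΦX, hΦ1⟩ := exists_lift_map N V H hcompl hH
  refine ⟨Nat.card_le_card_of_injective Φ hΦ, fun hNne => ?_⟩
  obtain ⟨n, hn, hn1⟩ : ∃ n ∈ N, n ≠ 1 := by
    by_contra h
    push Not at h
    exact hNne ((Subgroup.eq_bot_iff_forall _).2 h)
  have hnr : ∀ a ∈ N, ¬ p ∣ orderOf a := fun a ha hd =>
    hN (hd.trans (Subgroup.orderOf_dvd_natCard N ha))
  let Ψ : Option (ConjClasses H) → RegClasses G p := fun o =>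
    o.elim ⟨ConjClasses.mk n, n, rfl, hnr n hn⟩ Φ
  have hout : ∀ X a, a ∈ N → a ≠ 1 → (Φ X).1 ≠ ConjClasses.mk a := by
    intro X a ha ha1 h
    obtain ⟨g, k, hg, hk, hgk⟩ := hΦX X
    rw [hg] at h
    have h2 := MonoidHom.map_isConj (QuotientGroup.mk' N) (ConjClasses.mk_eq_mk_iff_isConj.1 h)
    rw [QuotientGroup.mk'_apply, QuotientGroup.mk'_apply, hgk, (QuotientGroup.eq_one_iff a).2 ha] at h2
    have hk1 : k.1 = 1 := isConj_one_left.1 h2
    have hX1 : X = ConjClasses.mk 1 := by rw [hk, show k = 1 from Subtype.ext hk1]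
    rw [← hg, hX1, hΦ1] at h
    exact ha1 (isConj_one_right.1 (ConjClasses.mk_eq_mk_iff_isConj.1 h))
  have hΨ : Function.Injective Ψ := by
    rintro (_ | X) (_ | Y) h
    · rfl
    · exact absurd (congrArg Subtype.val h).symm (hout Y n hn hn1)
    · exact absurd (congrArg Subtype.val h) (hout X n hn hn1)
    · exact congrArg some (hΦ h)
  have hcard : Nat.card (Option (ConjClasses H)) = Nat.card (ConjClasses H) + 1 := Finite.card_option
  refine ⟨hcard ▸ Nat.card_le_card_of_injective Ψ hΨ, fun heq => ?_⟩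
  have hbij : Function.Bijective Ψ :=
    hΨ.bijective_of_nat_card_le (le_of_eq (heq.trans hcard.symm))
  have hmk : ∀ a, ∀ (hr : ¬ p ∣ orderOf a), ∃ o, Ψ o = ⟨ConjClasses.mk a, a, rfl, hr⟩ :=
    fun a hr => hbij.2 _
  have hker : ∀ a ∈ N, a ≠ 1 → IsConj n a := by
    intro a ha ha1
    obtain ⟨o, ho⟩ := hmk a (hnr a ha)
    rcases o with _ | X
    · exact ConjClasses.mk_eq_mk_iff_isConj.1 (congrArg Subtype.val ho)
    · exact absurd (congrArg Subtype.val ho) (hout X a ha ha1)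
  refine ⟨fun a ha b hb ha1 hb1 => (hker a ha ha1).symm.trans (hker b hb hb1), fun g g' hg hg' hg1 hgg => ?_⟩
  have hcase : ∀ a, ∀ (hr : ¬ p ∣ orderOf a), (QuotientGroup.mk a : G ⧸ N) ≠ 1 →
      ∃ (X : ConjClasses H) (a' : G) (k : H), (Φ X).1 = ConjClasses.mk a ∧ X = ConjClasses.mk k ∧
        IsConj (QuotientGroup.mk a : G ⧸ N) k.1 ∧ (Φ X).1 = ConjClasses.mk a' := by
    intro a hr ha1
    obtain ⟨o, ho⟩ := hmk a hr
    rcases o with _ | X
    · exfalso
      have h2 := MonoidHom.map_isConj (QuotientGroup.mk' N)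
        (ConjClasses.mk_eq_mk_iff_isConj.1 (congrArg Subtype.val ho))
      rw [QuotientGroup.mk'_apply, QuotientGroup.mk'_apply, (QuotientGroup.eq_one_iff n).2 hn] at h2
      exact ha1 (isConj_one_right.1 h2)
    · obtain ⟨a', k, ha', hk, hak⟩ := hΦX X
      have h1 : (Φ X).1 = ConjClasses.mk a := congrArg Subtype.val ho
      have h2 := MonoidHom.map_isConj (QuotientGroup.mk' N)
        (ConjClasses.mk_eq_mk_iff_isConj.1 (h1.symm.trans ha'))
      rw [QuotientGroup.mk'_apply, QuotientGroup.mk'_apply, hak] at h2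
      exact ⟨X, a', k, h1, hk, h2, ha'⟩
  have hg1' : (QuotientGroup.mk g' : G ⧸ N) ≠ 1 := fun h => by
    rw [h] at hgg
    exact hg1 (isConj_one_left.1 hgg)
  obtain ⟨X, -, k, hX, hk, hgk, -⟩ := hcase g hg hg1
  obtain ⟨Y, -, k', hY, hk', hgk', -⟩ := hcase g' hg' hg1'
  have : X = Y := by
    rw [hk, hk']
    exact ConjClasses.mk_eq_mk_iff_isConj.2
      (class_eq_of_isConj N V H hcompl ((hgk.symm.trans hgg).trans hgk'))
  exact ConjClasses.mk_eq_mk_iff_isConj.1 (hX.symm.trans (this ▸ hY))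

/-- With trivial kernel and a semiregular complement the classes correspond. -/
theorem card_regClasses_eq (hcompl : V.IsComplement' H) (hH : ¬ p ∣ Nat.card H) (hN : N = ⊥)
    (hexp : ∀ v ∈ V, v ^ p = 1) (hab : ∀ a ∈ V, ∀ b ∈ V, a * b = b * a)
    (hsr : ∀ v ∈ V, ∀ h ∈ H, h * v = v * h → v = 1 ∨ h = 1) :
    Nat.card (RegClasses G p) = Nat.card (ConjClasses H) := by
  classical
  obtain ⟨Φ, hΦ, hΦX, -⟩ := exists_lift_map N V H hcompl hH
  refine (Nat.card_congr (Equiv.ofBijective Φ ⟨hΦ, ?_⟩)).symm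
  rintro ⟨c, g, rfl, hg⟩
  set π := QuotientGroup.mk' N
  have hπ : Function.Injective π := by
    rw [← MonoidHom.ker_eq_bot_iff, QuotientGroup.ker_mk', hN]
  obtain ⟨⟨v, h⟩, hvh⟩ := hcompl.2 (π g)
  have hvh' : v.1 * h.1 = π g := hvh
  have hconj : IsConj (π g) h.1 := by
    by_cases hh : h.1 = 1
    · rw [hh, mul_one] at hvh'
      have h1 : orderOf (π g) ∣ p := orderOf_dvd_of_pow_eq_one (by rw [← hvh']; exact hexp _ v.2)
      rcases (Nat.dvd_prime Fact.out).1 h1 with h2 | h2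
      · rw [hh, orderOf_eq_one_iff.1 h2]
      · exact absurd (h2 ▸ orderOf_map_dvd π g) hg
    -- the commutators with `h` fill `V`
    let T : V → V := fun u => ⟨u.1 * h.1 * u.1⁻¹ * h.1⁻¹, by
      rw [show u.1 * h.1 * u.1⁻¹ * h.1⁻¹ = u.1 * (h.1 * u.1⁻¹ * h.1⁻¹) by group]
      exact mul_mem u.2 ((inferInstance : V.Normal).conj_mem _ (inv_mem u.2) h.1)⟩
    have hT : Function.Injective T := by
      intro u w huw
      have h1 : u.1 * h.1 * u.1⁻¹ * h.1⁻¹ = w.1 * h.1 * w.1⁻¹ * h.1⁻¹ := congrArg Subtype.val huw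
      have h2 : u.1 * h.1 * u.1⁻¹ = w.1 * h.1 * w.1⁻¹ := mul_right_cancel h1
      have h3 : h.1 * (u.1⁻¹ * w.1) = (u.1⁻¹ * w.1) * h.1 := by
        calc h.1 * (u.1⁻¹ * w.1) = u.1⁻¹ * (u.1 * h.1 * u.1⁻¹) * w.1 := by group
          _ = u.1⁻¹ * (w.1 * h.1 * w.1⁻¹) * w.1 := by rw [h2]
          _ = u.1⁻¹ * w.1 * h.1 := by group
      rcases hsr _ (mul_mem (inv_mem u.2) w.2) h.1 h.2 h3 with h4 | h4
      · exact Subtype.ext (inv_mul_eq_one.1 h4)
      · exact absurd h4 hh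
    obtain ⟨u, hu⟩ := Finite.surjective_of_injective hT v
    refine (isConj_iff.2 ⟨u.1, ?_⟩).symm
    rw [← hvh', ← congrArg Subtype.val hu]
    show u.1 * h.1 * u.1⁻¹ = u.1 * h.1 * u.1⁻¹ * h.1⁻¹ * h.1
    rw [inv_mul_cancel_right]
  refine ⟨ConjClasses.mk h, Subtype.ext ?_⟩
  obtain ⟨a, k, ha, hk, hak⟩ := hΦX (ConjClasses.mk h)
  rw [ha, ConjClasses.mk_eq_mk_iff_isConj]
  have h1 : IsConj (π a) (π g) := by
    rw [show π a = k.1 from hak]
    exact (MonoidHom.map_isConj H.subtype (ConjClasses.mk_eq_mk_iff_isConj.1 hk.symm)).trans hconj.symm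
  obtain ⟨c, hc⟩ := isConj_iff.1 h1
  obtain ⟨d, rfl⟩ := QuotientGroup.mk'_surjective N c
  refine isConj_iff.2 ⟨d, hπ ?_⟩
  rw [map_mul, map_mul, map_inv]
  exact hc

end Cfsg.Agent.H45.Trans
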