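import Mathlib
import Cfsg.Agent.H45.Transitive.Classes
import Cfsg.Agent.H45.Transitive.Tools
import Cfsg.Agent.H78.FieldInvariants

/-!
Semilinear groups of order prime to the characteristic which are transitive on nonzero vectors:
bounds for the number of classes.
-/

set_option autoImplicit false
set_option maxHeartbeats 800000

namespace Cfsg.Agent.H45.Trans

open Module

theorem sq_lt_five_pow : ∀ n : ℕ, 1 ≤ n → (n + 1) ^ 2 < 5 ^ n := by
  intro n hn
  induction n, hn using Nat.le_induction with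
  | base => norm_num
  | succ k hk ih => rw [pow_succ 5]; nlinarith

theorem sq_lt_three_pow : ∀ n : ℕ, 3 ≤ n → (n + 1) ^ 2 < 3 ^ n := by
  intro n hn
  induction n, hn using Nat.le_induction with
  | base => norm_num
  | succ k hk ih => rw [pow_succ 3]; nlinarith

theorem cube_lt_four_pow : ∀ n : ℕ, 4 ≤ n → (n + 1) ^ 3 < 4 ^ n := by
  intro n hn
  induction n, hn using Nat.le_induction with
  | base => norm_num
  | succ k hk ih =>
    have h : (k + 1 + 1) ^ 3 ≤ 4 * (k + 1) ^ 3 := by
      ring_nf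
      nlinarith [Nat.mul_le_mul hk hk]
    rw [pow_succ 4]
    omega

/-- The arithmetic of the semilinear bound. -/
theorem semilinear_numeric {p n d s m e k : ℕ} (hp : p.Prime) (hd : 2 ≤ d) (hdn : d ≤ n)
    (hpd : ¬ p ∣ d) (hs : s ^ 2 ≤ p ^ n) (hs3 : Odd d → s ^ 3 ≤ p ^ n) (hs1 : 1 ≤ s)
    (hm : m ≤ p ^ n - 1) (hmd : m * d = e * (p ^ n - 1)) (he1 : 1 ≤ e) (he : e ≤ d)
    (hk : k * d ≤ m + (d - 1) * (d + 1) * (s - 1)) :
    k + e ≤ p ^ n ∧ (k + e = p ^ n →
      (p ^ n = 8 ∧ m * d = 21) ∨ (p ^ n = 9 ∧ m * d = 16)) := by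
  obtain ⟨d, rfl⟩ : ∃ d', d = d' + 1 := ⟨d - 1, by omega⟩
  obtain ⟨s, rfl⟩ : ∃ s', s = s' + 1 := ⟨s - 1, by omega⟩
  obtain ⟨Q, hQ⟩ : ∃ Q, p ^ n = Q + 1 := ⟨p ^ n - 1, by have := Nat.one_le_pow n p hp.pos; omega⟩
  rw [hQ, Nat.add_sub_cancel] at hm hmd
  rw [Nat.add_sub_cancel, Nat.add_sub_cancel] at hk
  by_cases hA : (d + 2) * (s + 1) < p ^ n
  · have key : k + e < p ^ n := by
      rw [hQ] at hA ⊢
      apply Nat.lt_of_mul_lt_mul_right (a := d + 1)
      have h1 : (d + 2) * (s + 1) * d < (Q + 1) * d :=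
        Nat.mul_lt_mul_of_pos_right hA (by omega)
      nlinarith [Nat.mul_le_mul_right (d + 1) he]
    exact ⟨key.le, fun h => absurd h key.ne⟩
  push Not at hA
  have hsd : s + 1 ≤ d + 2 := by
    have h := hs.trans hA
    rw [sq] at h
    exact Nat.le_of_mul_le_mul_right h (by omega)
  have hsq : p ^ n ≤ (n + 1) ^ 2 :=
    hA.trans ((Nat.mul_le_mul_left _ hsd).trans (by rw [sq]; exact Nat.mul_le_mul (by omega) (by omega)))
  have hp4 : p < 5 := by
    by_contra h
    have := sq_lt_five_pow n (by omega)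
    have := Nat.pow_le_pow_left (not_lt.1 h) n
    omega
  have := hp.two_le
  interval_cases p
  · -- characteristic two
    have hodd : Odd (d + 1) := Nat.odd_iff.2 (by omega)
    have hd2 : 2 ≤ d := by rw [Nat.odd_iff] at hodd; omega
    have h2 : (s + 1) ^ 2 ≤ d + 2 := by
      have h := (hs3 hodd).trans hA
      rw [pow_succ] at h
      exact Nat.le_of_mul_le_mul_right h (by omega)
    have hn3 : n ≤ 3 := by
      by_contra h
      have hlt := cube_lt_four_pow n (by omega)
      have h4 : 4 ^ n = 2 ^ n * 2 ^ n := by rw [← mul_pow]; norm_num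
      have h5 : 2 ^ n * 2 ^ n ≤ (n + 1) ^ 3 :=
        calc 2 ^ n * 2 ^ n ≤ ((d + 2) * (s + 1)) * ((d + 2) * (s + 1)) := Nat.mul_le_mul hA hA
          _ = (d + 2) ^ 2 * (s + 1) ^ 2 := by ring
          _ ≤ (d + 2) ^ 2 * (d + 2) := Nat.mul_le_mul_left _ h2
          _ = (d + 2) ^ 3 := by ring
          _ ≤ (n + 1) ^ 3 := Nat.pow_le_pow_left (by omega) 3
      omega
    obtain ⟨rfl, rfl⟩ : n = 3 ∧ d = 2 := by omega
    norm_num at hQ hs hA
    obtain rfl : Q = 7 := by omega
    obtain rfl : s = 1 := by nlinarith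
    have : e = 3 ∧ m = 7 := by omega
    obtain ⟨rfl, rfl⟩ := this
    norm_num
    omega
  · -- characteristic three
    have hn2 : n ≤ 2 := by
      by_contra h
      have := sq_lt_three_pow n (by omega)
      omega
    obtain ⟨rfl, rfl⟩ : n = 2 ∧ d = 1 := by omega
    norm_num at hQ hs hA
    obtain rfl : Q = 8 := by omega
    obtain rfl : s = 2 := by nlinarith
    norm_num at hk hmd he ⊢
    omega
  · exact absurd hp (by norm_num)

variable {p : ℕ} [Fact p.Prime] {V : Type*} [AddCommGroup V] [Module (ZMod p) V] [Finite V]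
  {G : Type*} [Group G] [Finite G] {ρ : G →* (V ≃ₗ[ZMod p] V)}

/-- The fixed field of an automorphism. -/
theorem fixed_pow_eq {F : Type*} [Field F] [Finite F] (τ : F ≃+* F) :
    Nat.card {x : F // τ x = x} ^ orderOf τ = Nat.card F := by
  classical
  let Z : Subgroup (F ≃+* F) := Subgroup.zpowers τ
  haveI : Finite (F ≃+* F) := Finite.of_injective _ DFunLike.coe_injective
  haveI : Fintype Z := Fintype.ofFinite _
  haveI : FaithfulSMul Z F := ⟨fun {a b} h => Subtype.ext (RingEquiv.ext fun x => h x)⟩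
  let K := FixedPoints.subfield Z F
  have h := Module.natCard_eq_pow_finrank (K := K) (V := F)
  rw [FixedPoints.finrank_eq_card Z F, ← Nat.card_eq_fintype_card, Nat.card_zpowers] at h
  rw [h]
  congr 1
  refine Nat.card_congr (Equiv.subtypeEquivRight fun x => ?_)
  refine ⟨fun hx σ => ?_, fun hx => hx ⟨τ, Subgroup.mem_zpowers τ⟩⟩
  have hle : Z ≤ MulAction.stabilizer (F ≃+* F) x := Subgroup.zpowers_le.2 hx
  exact hle σ.2

/-- The automorphisms of the field of `p ^ n` elements. -/
theorem card_ringAut {F : Type*} [Field F] [Finite F] [CharP F p] {n : ℕ}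
    (h : Nat.card F = p ^ n) : Nat.card (F ≃+* F) = n := by
  letI : Algebra (ZMod p) F := ZMod.algebra F p
  let ψ : (F ≃+* F) ≃ (F ≃ₐ[ZMod p] F) :=
    { toFun := fun τ => AlgEquiv.ofRingEquiv (f := τ) fun r => by
        rw [← ZMod.natCast_zmod_val r, map_natCast, map_natCast]
      invFun := fun τ => τ.toRingEquiv
      left_inv := fun τ => rfl
      right_inv := fun τ => rfl }
  rw [Nat.card_congr ψ, IsGalois.card_aut_eq_finrank]
  have h' := Module.natCard_eq_pow_finrank (K := ZMod p) (V := F)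
  rw [h, Nat.card_zmod] at h'
  exact (Nat.pow_right_injective (Fact.out : p.Prime).two_le h').symm

/-- Semilinear groups. -/
theorem semilinear_bound [Nontrivial V] (H : Hyp ρ) (hsl : Cfsg.Agent.H78.SemilinearRep ρ) {v : V}
    (hv : v ≠ 0) :
    (Nat.card (ConjClasses G) + Nat.card (stab ρ v) ≤ Nat.card V ∧
      (Nat.card (ConjClasses G) + Nat.card (stab ρ v) = Nat.card V → IsCyclic G ∨
        (Nat.card V = 8 ∧ Nat.card G = 21) ∨ (Nat.card V = 9 ∧ Nat.card G = 16))) ∧
    ∃ d, d ≤ finrank (ZMod p) V ∧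
      Nat.card V - 1 ≤ Nat.card (ConjClasses G) * (d * d) := by
  classical
  have hp : p.Prime := Fact.out
  obtain ⟨F, _, _, e, hF⟩ := hsl
  set n := finrank (ZMod p) V with hn
  have hcardF : Nat.card F = p ^ n := by
    rw [← Nat.card_congr e.toEquiv, card_V (p := p) (V := V)]
  haveI : CharP F p := by
    refine (CharP.charP_iff_prime_eq_zero hp).2 ?_
    have h1 : p • e.symm 1 = 0 := by
      rw [← Nat.cast_smul_eq_nsmul (ZMod p), ZMod.natCast_self, zero_smul]
    have h2 := congrArg e h1
    rwa [map_nsmul, e.apply_symm_apply, map_zero, nsmul_eq_mul, mul_one] at h2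
  choose a σ hσ using hF
  have ha : ∀ g, a g = e (ρ g (e.symm 1)) := fun g => by
    rw [hσ, e.apply_symm_apply, map_one, mul_one]
  have ha0 : ∀ g, a g ≠ 0 := by
    intro g h
    have h1 := hσ g v
    rw [h, zero_mul] at h1
    exact hv ((ρ g).map_eq_zero_iff.1 (e.map_eq_zero_iff.1 h1))
  have hmul : ∀ g h x, a (g * h) * σ (g * h) x = a g * (σ g (a h) * σ g (σ h x)) := by
    intro g h x
    have := hσ (g * h) (e.symm x)
    rw [e.apply_symm_apply, map_mul, LinearEquiv.mul_apply, hσ, hσ, e.apply_symm_apply,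
      map_mul] at this
    exact this.symm
  have hamul : ∀ g h, a (g * h) = a g * σ g (a h) := fun g h => by
    simpa using hmul g h 1
  let S : G →* (F ≃+* F) :=
    { toFun := σ
      map_one' := by
        refine RingEquiv.ext fun x => ?_
        have h1 : a 1 = 1 := by rw [ha, map_one]; simp
        have := hσ 1 (e.symm x)
        rw [h1, one_mul, map_one, e.apply_symm_apply] at this
        simpa using this.symm
      map_mul' := fun g h => RingEquiv.ext fun x => by
        have := hmul g h x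
        rw [hamul, ← mul_assoc] at this
        exact mul_left_cancel₀ (mul_ne_zero (ha0 g) (fun h0 => ha0 h ((σ g).map_eq_zero_iff.1 h0))) this }
  set C := S.ker with hC
  have hCmem : ∀ {c}, c ∈ C → ∀ x, σ c x = x := fun {c} hc x =>
    RingEquiv.congr_fun (MonoidHom.mem_ker.1 hc) x
  have hCa : ∀ c ∈ C, ∀ c' ∈ C, a c = a c' → c = c' := by
    intro c hc c' hc' h
    refine H.inj (LinearEquiv.ext fun w => e.injective ?_)
    rw [hσ, hσ, h, hCmem hc, hCmem hc']
  have hCcomm : ∀ c ∈ C, ∀ c' ∈ C, c * c' = c' * c := fun c hc c' hc' =>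
    hCa _ (mul_mem hc hc') _ (mul_mem hc' hc)
      (by rw [hamul, hamul, hCmem hc, hCmem hc', mul_comm])
  haveI : Finite (F ≃+* F) := Finite.of_injective _ DFunLike.coe_injective
  set d := C.index with hd
  set m := Nat.card C with hm
  set k := Nat.card (ConjClasses G) with hk
  set E := Nat.card (stab ρ v) with hE
  have hdn : d ∣ n := by
    rw [hd, hC, Subgroup.index_ker, ← card_ringAut (p := p) hcardF]
    exact Subgroup.card_subgroup_dvd_card _
  have hn0 : 0 < n := Module.finrank_pos
  have hdle : d ≤ n := Nat.le_of_dvd hn0 hdn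
  have hGcard : m * d = Nat.card G := C.card_mul_index
  have hmd : m * d = E * (p ^ n - 1) := by
    rw [hGcard, H.card_eq hv, card_V (p := p) (V := V)]
  have hm1 : m ≤ p ^ n - 1 := by
    rw [← hcardF, ← Nat.card_units]
    refine Nat.card_le_card_of_injective (fun c : C => Units.mk0 _ (ha0 c.1)) fun c c' h => ?_
    exact Subtype.ext (hCa _ c.2 _ c'.2 (congrArg Units.val h))
  have hE_le : E ≤ d := by
    rw [hd, Subgroup.index_eq_card]
    refine Nat.card_le_card_of_injective (fun g : stab ρ v => (QuotientGroup.mk g.1 : G ⧸ C))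
      fun g g' h => ?_
    have h1 : g.1⁻¹ * g'.1 ∈ C := QuotientGroup.eq.1 h
    have h2 : ρ (g.1⁻¹ * g'.1) v = v := mem_stab.1 (mul_mem (inv_mem g.2) g'.2)
    have h3 := hσ (g.1⁻¹ * g'.1) v
    rw [h2, hCmem h1] at h3
    have h4 : a (g.1⁻¹ * g'.1) = 1 :=
      (mul_eq_right₀ (fun h0 => hv (e.map_eq_zero_iff.1 h0))).1 h3.symm
    have h5 : g.1⁻¹ * g'.1 = 1 := hCa _ h1 _ (one_mem _) (by rw [h4, ha, map_one]; simp)
    exact Subtype.ext (inv_mul_eq_one.1 h5)
  -- classes inside the kernel
  have hlow : m ≤ k * d := by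
    have hG := Fintype.ofFinite G
    have hsum := card_classes_mul (G := G)
    rw [← hk, ← hGcard] at hsum
    have h1 : m * m ≤ k * (m * d) := by
      rw [hsum]
      calc m * m = ∑ g ∈ Finset.univ.filter (fun g => g ∈ C), m := by
            rw [Finset.sum_const, smul_eq_mul, hm, Nat.card_eq_fintype_card, Fintype.card_subtype]
        _ ≤ ∑ g ∈ Finset.univ.filter (fun g => g ∈ C), Nat.card (Subgroup.centralizer ({g} : Set G)) :=
            Finset.sum_le_sum fun g hg => Subgroup.card_le_of_le fun c hc =>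
              Subgroup.mem_centralizer_singleton_iff.2 (hCcomm c hc g (by simpa using hg))
        _ ≤ _ := Finset.sum_le_sum_of_subset (Finset.filter_subset _ _)
    have hm0 : 0 < m := Nat.card_pos
    exact Nat.le_of_mul_le_mul_left (h1.trans_eq (by ring)) hm0
  refine ⟨?_, d, hdle, ?_⟩
  swap
  · rw [card_V (p := p) (V := V)]
    have hE1 : 1 ≤ E := Nat.card_pos
    calc p ^ n - 1 ≤ E * (p ^ n - 1) := Nat.le_mul_of_pos_left _ hE1
      _ = m * d := hmd.symm
      _ ≤ k * d * d := Nat.mul_le_mul_right d hlow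
      _ = k * (d * d) := by ring
  rw [card_V (p := p) (V := V), ← hn]
  have hd0 : d ≠ 0 := Subgroup.index_ne_zero_of_finite
  by_cases hd1 : d = 1
  · have hCtop : C = ⊤ := Subgroup.index_eq_one.1 hd1
    have hcomm : ∀ x y : G, x * y = y * x := fun x y =>
      hCcomm x (hCtop ▸ Subgroup.mem_top x) y (hCtop ▸ Subgroup.mem_top y)
    have hkG : k = Nat.card G := card_classes_of_comm hcomm
    have hcyc : IsCyclic G := by
      let f : G →* F :=
        { toFun := a
          map_one' := by rw [ha, map_one]; simp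
          map_mul' := fun g h => by rw [hamul, hCmem (hCtop ▸ Subgroup.mem_top g)] }
      exact isCyclic_of_subgroup_isDomain f fun g h hgh =>
        hCa g (hCtop ▸ Subgroup.mem_top g) h (hCtop ▸ Subgroup.mem_top h) hgh
    refine ⟨?_, fun _ => Or.inl hcyc⟩
    have hE1 : E = 1 := le_antisymm (hd1 ▸ hE_le) Nat.card_pos
    rw [hd1, mul_one, hE1, one_mul] at hmd
    rw [hkG, ← hGcard, hd1, mul_one, hmd, hE1]
    have := Nat.one_le_pow n p hp.pos
    omega
  -- fixed fields
  have hfix : ∀ g, g ∉ C → Nat.card {x : F // σ g x = x} ^ 2 ≤ p ^ n ∧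
      (Odd d → Nat.card {x : F // σ g x = x} ^ 3 ≤ p ^ n) := by
    intro g hg
    have h := fixed_pow_eq (σ g)
    rw [hcardF] at h
    have ho1 : orderOf (σ g) ≠ 1 := fun h1 => hg (MonoidHom.mem_ker.2 (orderOf_eq_one_iff.1 h1))
    have ho0 : 0 < orderOf (σ g) := orderOf_pos _
    have hod : orderOf (σ g) ∣ d := by
      rw [hd, hC, Subgroup.index_ker]
      exact Subgroup.orderOf_dvd_natCard (S.range) ⟨g, rfl⟩
    haveI : Nonempty {x : F // σ g x = x} := ⟨⟨0, map_zero _⟩⟩
    have hpos : 0 < Nat.card {x : F // σ g x = x} := Nat.card_pos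
    refine ⟨h ▸ Nat.pow_le_pow_right hpos (by omega), fun hodd => ?_⟩
    have : Odd (orderOf (σ g)) := hodd.of_dvd_nat hod
    refine h ▸ Nat.pow_le_pow_right hpos ?_
    rw [Nat.odd_iff] at this
    omega
  haveI : Nonempty {g : G // g ∉ C} := by
    by_contra hne
    rw [not_nonempty_iff, isEmpty_subtype] at hne
    exact hd1 (Subgroup.index_eq_one.2 ((Subgroup.eq_top_iff' C).2 fun g => not_not.1 (hne g)))
  obtain ⟨g₀, hg₀⟩ := Finite.exists_max (fun g : {g : G // g ∉ C} => Nat.card {x : F // σ g.1 x = x})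
  set s := Nat.card {x : F // σ g₀.1 x = x} with hs
  have hs1 : 1 ≤ s := by
    haveI : Nonempty {x : F // σ g₀.1 x = x} := ⟨⟨0, map_zero _⟩⟩
    exact Nat.card_pos
  -- centralisers in the kernel
  have hcent : ∀ g, g ∉ C → Nat.card (C ⊓ Subgroup.centralizer ({g} : Set G) : Subgroup G) ≤ s - 1 := by
    intro g hg
    have hle := hg₀ ⟨g, hg⟩
    have hz : Nat.card {x : F // σ g x = x ∧ x ≠ 0} = Nat.card {x : F // σ g x = x} - 1 := by
      have := Fintype.ofFinite F
      rw [Nat.card_eq_fintype_card, Nat.card_eq_fintype_card, Fintype.card_subtype, Fintype.card_subtype,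
        ← Finset.card_erase_of_mem (a := (0 : F)) (by simp)]
      congr 1
      ext x
      simp [and_comm]
    refine le_trans ?_ (hz.trans_le (Nat.sub_le_sub_right hle 1))
    refine Nat.card_le_card_of_injective
      (fun c : (C ⊓ Subgroup.centralizer ({g} : Set G) : Subgroup G) =>
        (⟨a c.1, ?_, ha0 _⟩ : {x : F // σ g x = x ∧ x ≠ 0})) fun c c' h => ?_
    · have hcg : c.1 * g = g * c.1 := Subgroup.mem_centralizer_singleton_iff.1 c.2.2
      have h := congrArg a hcg
      rw [hamul, hamul, hCmem c.2.1] at h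
      exact mul_left_cancel₀ (ha0 g) (h.symm.trans (mul_comm _ _))
    · exact Subtype.ext (hCa _ c.2.1 _ c'.2.1 (congrArg Subtype.val h))
  have hbound : k * d ≤ m + (d - 1) * (d + 1) * (s - 1) := by
    haveI := Fintype.ofFinite G
    have hsum := card_classes_mul (G := G)
    rw [← hk, ← hGcard] at hsum
    have hCn : (Finset.univ.filter fun g => g ∈ C).card = m := by
      rw [hm, Nat.card_eq_fintype_card, Fintype.card_subtype]
    have hOn : (Finset.univ.filter fun g => g ∉ C).card = (d - 1) * m := by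
      rw [Finset.filter_not, Finset.card_sdiff_of_subset (Finset.subset_univ _), hCn, Finset.card_univ,
        ← Nat.card_eq_fintype_card, ← hGcard, Nat.sub_mul, one_mul, mul_comm d]
    have h1 : ∑ g ∈ Finset.univ.filter (fun g => g ∈ C), Nat.card (Subgroup.centralizer ({g} : Set G)) ≤
        m * m + (d - 1) * m * (s - 1) := by
      have e1 : ∀ g, Nat.card (Subgroup.centralizer ({g} : Set G)) = ∑ h : G, if h * g = g * h then 1 else 0 := by
        intro g
        rw [← Finset.card_filter, Nat.card_eq_fintype_card, ← Fintype.card_subtype]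
        exact Fintype.card_congr (Equiv.subtypeEquivRight fun h => Subgroup.mem_centralizer_singleton_iff)
      have e2 : ∀ h, (∑ g ∈ Finset.univ.filter (fun g => g ∈ C), if h * g = g * h then 1 else 0) =
          Nat.card (C ⊓ Subgroup.centralizer ({h} : Set G) : Subgroup G) := by
        intro h
        rw [← Finset.card_filter, Finset.filter_filter, Nat.card_eq_fintype_card, Fintype.card_subtype]
        congr 1
        ext g
        simp [Subgroup.mem_inf, Subgroup.mem_centralizer_singleton_iff, eq_comm]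
      rw [Finset.sum_congr rfl fun g _ => e1 g, Finset.sum_comm, Finset.sum_congr rfl fun h _ => e2 h,
        ← Finset.sum_filter_add_sum_filter_not Finset.univ (fun h => h ∈ C)]
      refine Nat.add_le_add ?_ ?_
      · refine (Finset.sum_le_card_nsmul _ _ m fun h _ => Subgroup.card_le_of_le inf_le_left).trans ?_
        rw [smul_eq_mul, hCn]
      · refine (Finset.sum_le_card_nsmul _ _ (s - 1) fun h hh => hcent h (by simpa using hh)).trans ?_
        rw [smul_eq_mul, hOn]
    have h2 : ∑ g ∈ Finset.univ.filter (fun g => g ∉ C), Nat.card (Subgroup.centralizer ({g} : Set G)) ≤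
        (d - 1) * m * (d * (s - 1)) := by
      refine (Finset.sum_le_card_nsmul _ _ (d * (s - 1)) fun g hg => ?_).trans (by rw [smul_eq_mul, hOn])
      set X := Subgroup.centralizer ({g} : Set G)
      have hr : C.relIndex X ≤ d := Nat.le_of_dvd (by omega) (Subgroup.relIndex_dvd_index_of_normal C X)
      have hX := (C.subgroupOf X).card_mul_index
      rw [← Subgroup.inf_subgroupOf_right,
        Nat.card_congr (Subgroup.subgroupOfEquivOfLe (inf_le_right : C ⊓ X ≤ X)).toEquiv] at hX
      rw [← hX, mul_comm d]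
      refine Nat.mul_le_mul (hcent g (by simpa using hg)) ?_
      rw [Subgroup.inf_subgroupOf_right]
      exact hr
    rw [← Finset.sum_filter_add_sum_filter_not Finset.univ (fun g => g ∈ C)] at hsum
    have h3 : k * (m * d) ≤ m * m + (d - 1) * m * (s - 1) + (d - 1) * m * (d * (s - 1)) :=
      hsum.trans_le (Nat.add_le_add h1 h2)
    have hm0 : 0 < m := Nat.card_pos
    refine Nat.le_of_mul_le_mul_left ?_ hm0
    calc m * (k * d) = k * (m * d) := by ring
      _ ≤ _ := h3
      _ = m * (m + (d - 1) * (d + 1) * (s - 1)) := by ring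
  have hpd : ¬ p ∣ d := fun h => H.cop (h.trans (hGcard ▸ dvd_mul_left d m))
  obtain ⟨h1, h2⟩ := semilinear_numeric hp (by omega) hdle hpd (hfix g₀.1 g₀.2).1 (hfix g₀.1 g₀.2).2
    hs1 hm1 hmd Nat.card_pos hE_le hbound
  exact ⟨h1, fun h => Or.inr (hGcard ▸ h2 h)⟩

end Cfsg.Agent.H45.Trans
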