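import Mathlib
import Cfsg.Agent.H45.Transitive.Basic

/-!
The linear group given by a complement acting on a normal elementary abelian subgroup.
-/

set_option autoImplicit false

namespace Cfsg.Agent.H45.Trans

universe u

variable {X : Type u} [Group X] [Finite X] {p : ℕ} [Fact p.Prime]

/-- A complement transitive on the nontrivial elements gives a transitive linear group. -/
theorem exists_hyp (V : Subgroup X) [hVn : V.Normal] (hexp : ∀ v ∈ V, v ^ p = 1)
    (hab : ∀ a ∈ V, ∀ b ∈ V, a * b = b * a) (G : Subgroup X) (hcop : ¬ p ∣ Nat.card G)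
    (hfaith : ∀ g ∈ G, (∀ v ∈ V, g * v * g⁻¹ = v) → g = 1)
    (htrans : ∀ v ∈ V, ∀ w ∈ V, v ≠ 1 → w ≠ 1 → ∃ g ∈ G, g * v * g⁻¹ = w) :
    ∃ (W : Type u) (_ : AddCommGroup W) (_ : Module (ZMod p) W) (_ : Finite W)
      (ρ : G →* (W ≃ₗ[ZMod p] W)) (e : W ≃ V), Hyp ρ ∧ (e 0 : X) = 1 ∧
        (∀ a b, (e (a + b) : X) = e a * e b) ∧
        ∀ (g : G) (w : W), (e (ρ g w) : X) = g.1 * e w * g.1⁻¹ := by
  letI : CommGroup V :=
    { (inferInstance : Group V) with mul_comm := fun a b => Subtype.ext (hab _ a.2 _ b.2) }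
  haveI : Module (ZMod p) (Additive V) := AddCommGroup.zmodModule fun x => by
    apply Additive.toMul.injective
    rw [toMul_nsmul, toMul_zero]
    exact Subtype.ext (hexp _ (Additive.toMul x).2)
  let c : G → Additive V → Additive V := fun g x =>
    Additive.ofMul (⟨g.1 * (Additive.toMul x).1 * g.1⁻¹, hVn.conj_mem _ (Additive.toMul x).2 g.1⟩ : V)
  have hc : ∀ g x, (Additive.toMul (c g x)).1 = g.1 * (Additive.toMul x).1 * g.1⁻¹ := fun g x => rfl
  have hext : ∀ x y : Additive V, (Additive.toMul x).1 = (Additive.toMul y).1 → x = y := fun x y h =>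
    Additive.toMul.injective (Subtype.ext h)
  have hadd : ∀ g x y, c g (x + y) = c g x + c g y := fun g x y => hext _ _ (by
    show g.1 * ((Additive.toMul x).1 * (Additive.toMul y).1) * g.1⁻¹ =
      (g.1 * (Additive.toMul x).1 * g.1⁻¹) * (g.1 * (Additive.toMul y).1 * g.1⁻¹)
    group)
  have hmul : ∀ g h x, c (g * h) x = c g (c h x) := fun g h x => hext _ _ (by
    rw [hc, hc, hc, Subgroup.coe_mul]
    group)
  have hone : ∀ x, c 1 x = x := fun x => hext _ _ (by rw [hc]; simp)
  let L : G → (Additive V ≃ₗ[ZMod p] Additive V) := fun g =>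
    { toFun := c g
      invFun := c g⁻¹
      map_add' := hadd g
      map_smul' := fun r x => ZMod.map_smul (AddMonoidHom.mk' (c g) (hadd g)) r x
      left_inv := fun x => by rw [← hmul, inv_mul_cancel, hone]
      right_inv := fun x => by rw [← hmul, mul_inv_cancel, hone] }
  have hL : ∀ (g : G) (x : Additive V), (L g).toLinearMap x = c g x := fun g x => rfl
  let ρ : G →* (Additive V ≃ₗ[ZMod p] Additive V) :=
    { toFun := L
      map_one' := LinearEquiv.toLinearMap_injective (LinearMap.ext fun x => by rw [hL, hone]; rfl)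
      map_mul' := fun g h => LinearEquiv.toLinearMap_injective (LinearMap.ext fun x => by
        rw [hL, hmul]; rfl) }
  refine ⟨Additive V, inferInstance, inferInstance, inferInstance, ρ, Additive.toMul, ⟨?_, hcop, ?_⟩,
    rfl, fun a b => rfl, fun g w => rfl⟩
  · intro g h hgh
    have hk : ∀ v ∈ V, (h.1⁻¹ * g.1) * v * (h.1⁻¹ * g.1)⁻¹ = v := by
      intro v hv
      have h1 := congrArg (fun x : Additive V => (Additive.toMul x).1)
        (LinearEquiv.congr_fun hgh (Additive.ofMul ⟨v, hv⟩))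
      change g.1 * v * g.1⁻¹ = h.1 * v * h.1⁻¹ at h1
      calc (h.1⁻¹ * g.1) * v * (h.1⁻¹ * g.1)⁻¹ = h.1⁻¹ * (g.1 * v * g.1⁻¹) * h.1 := by group
        _ = h.1⁻¹ * (h.1 * v * h.1⁻¹) * h.1 := by rw [h1]
        _ = v := by group
    exact (Subtype.ext (inv_mul_eq_one.1 (hfaith _ (mul_mem (inv_mem h.2) g.2) hk))).symm
  · intro v w hv hw
    obtain ⟨g, hg, hgv⟩ := htrans _ (Additive.toMul v).2 _ (Additive.toMul w).2
      (fun h => hv (hext _ _ h)) (fun h => hw (hext _ _ h))
    exact ⟨⟨g, hg⟩, hext _ _ hgv⟩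

end Cfsg.Agent.H45.Trans
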