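import Mathlib
import Cfsg.Prelude.Def_Local
import Cfsg.Prelude.Def_Perm
import Cfsg.Agent.H45.Transitive.Tools
import Cfsg.Agent.H45.Transitive.RegLift

/-!
Groups which are `p`-solvable and have one class of nontrivial `p`-elements, modulo the largest
normal subgroup of order prime to `p`.
-/

set_option autoImplicit false

namespace Cfsg.Agent.H45.Trans

universe u

variable {G : Type u} [Group G] [Finite G] {p : ℕ} [Fact p.Prime]

/-- The structure. -/
theorem two_classes_structure (hsolv : Cfsg.IsPSolvable p G) (hdiv : p ∣ Nat.card G)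
    (hconj : ∀ x y : G, x ≠ 1 → y ≠ 1 → (∃ k : ℕ, orderOf x = p ^ k) → (∃ k : ℕ, orderOf y = p ^ k) →
      IsConj x y) :
    ∃ (N : Subgroup G) (_ : N.Normal) (V H : Subgroup (G ⧸ N)), ¬ p ∣ Nat.card N ∧ V.Normal ∧
      V.IsComplement' H ∧ V ≠ ⊥ ∧ (∀ v ∈ V, v ^ p = 1) ∧ (∀ a ∈ V, ∀ b ∈ V, a * b = b * a) ∧
      ¬ p ∣ Nat.card H ∧ (∀ h ∈ H, (∀ v ∈ V, h * v * h⁻¹ = v) → h = 1) ∧
      (∀ v ∈ V, ∀ w ∈ V, v ≠ 1 → w ≠ 1 → ∃ h ∈ H, h * v * h⁻¹ = w) := by
  classical
  have hp : p.Prime := Fact.out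
  let S : Set (Subgroup G) := {K | K.Normal ∧ ¬ p ∣ Nat.card K}
  obtain ⟨N, ⟨hNn, hNp⟩, hNmax⟩ := Set.exists_max_image S (fun K => Nat.card K) (Set.toFinite S)
    ⟨⊥, inferInstance, by rw [Subgroup.card_bot]; exact hp.not_dvd_one⟩
  haveI := hNn
  have hle : ∀ K : Subgroup G, K.Normal → ¬ p ∣ Nat.card K → K ≤ N := by
    intro K hK hKp
    haveI := hK
    have hsup : ¬ p ∣ Nat.card (K ⊔ N : Subgroup G) := by
      have h1 := (N.subgroupOf (K ⊔ N)).card_mul_index
      rw [Nat.card_congr (Subgroup.subgroupOfEquivOfLe (le_sup_right : N ≤ K ⊔ N)).toEquiv,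
        ← Subgroup.relIndex, Subgroup.relIndex_sup_right] at h1
      rw [← h1]
      intro hd
      rcases hp.dvd_mul.1 hd with h | h
      · exact hNp h
      · exact hKp (h.trans (Subgroup.relIndex_dvd_card (H := N) (K := K)))
    have h2 := hNmax (K ⊔ N) ⟨inferInstance, hsup⟩
    have h3 : N = K ⊔ N := Subgroup.eq_of_le_of_card_ge le_sup_right h2
    exact h3 ▸ le_sup_left
  -- a normal subgroup which is a `p`-group over `N`
  obtain ⟨M, hMn, hNM, a, ha, hMc⟩ : ∃ M : Subgroup G, M.Normal ∧ N ≤ M ∧ ∃ a, 0 < a ∧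
      N.relIndex M = p ^ a := by
    obtain ⟨n, Hs, h0, hlast, -, hnorm, hfac⟩ := hsolv
    by_contra hno
    push Not at hno
    have hall : ∀ i, Hs i ≤ N := by
      intro i
      induction i using Fin.induction with
      | zero => rw [h0]; exact bot_le
      | succ i ih =>
        haveI := hnorm i.succ
        by_contra hnle
        have hdvd : N.relIndex (Hs i.succ) ∣ (Hs i.castSucc).relIndex (Hs i.succ) :=
          Subgroup.relIndex_dvd_of_le_left _ ih
        have hrel : N.relIndex (Hs i.succ ⊔ N) = N.relIndex (Hs i.succ) := Subgroup.relIndex_sup_right ..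
        rcases hfac i with ⟨m, hm⟩ | hm
        · rw [hm] at hdvd
          obtain ⟨j, -, hj⟩ := (Nat.dvd_prime_pow hp).1 hdvd
          rcases Nat.eq_zero_or_pos j with rfl | hj0
          · exact hnle (Subgroup.relIndex_eq_one.1 (by simpa using hj))
          · exact hno _ inferInstance le_sup_right j hj0 (hrel.trans hj)
        · refine hnle (le_sup_left.trans (hle (Hs i.succ ⊔ N) inferInstance ?_))
          have hc := (N.subgroupOf (Hs i.succ ⊔ N)).card_mul_index
          rw [Nat.card_congr (Subgroup.subgroupOfEquivOfLe (le_sup_right : N ≤ Hs i.succ ⊔ N)).toEquiv,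
            ← Subgroup.relIndex, hrel] at hc
          rw [← hc]
          intro hd
          rcases hp.dvd_mul.1 hd with h | h
          · exact hNp h
          · exact hp.one_lt.ne' (Nat.dvd_one.1 (hm ▸ Nat.dvd_gcd (h.trans hdvd) dvd_rfl))
    have := hall (Fin.last n)
    rw [hlast, top_le_iff] at this
    exact hNp (this ▸ (by rwa [Subgroup.card_top] : p ∣ Nat.card (⊤ : Subgroup G)))
  haveI := hMn
  have hMcard : Nat.card M = Nat.card N * p ^ a := by
    have h1 := (N.subgroupOf M).card_mul_index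
    rw [Nat.card_congr (Subgroup.subgroupOfEquivOfLe hNM).toEquiv, ← Subgroup.relIndex, hMc] at h1
    exact h1.symm
  obtain ⟨x₀', hx₀'⟩ := exists_prime_orderOf_dvd_card' (G := M) p
    (hMcard ▸ (dvd_pow_self p ha.ne').mul_left _)
  set x₀ := x₀'.1 with hx₀def
  have hx₀ : orderOf x₀ = p := by rw [hx₀def, Subgroup.orderOf_coe, hx₀']
  have hx₀1 : x₀ ≠ 1 := fun h => by rw [h, orderOf_one] at hx₀; exact hp.one_lt.ne hx₀
  have hpel : ∀ x : G, (∃ k : ℕ, orderOf x = p ^ k) → x ∈ M ∧ x ^ p = 1 := by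
    intro x hx
    by_cases hx1 : x = 1
    · simp [hx1]
    obtain ⟨c, hc⟩ := isConj_iff.1 (hconj x₀ x hx₀1 hx1 ⟨1, by rw [hx₀, pow_one]⟩ hx)
    refine ⟨hc ▸ hMn.conj_mem _ x₀'.2 c, ?_⟩
    rw [← hc, conj_pow, ← hx₀, pow_orderOf_eq_one, mul_one, mul_inv_cancel]
  obtain ⟨P⟩ := (inferInstance : Nonempty (Sylow p G))
  have hPM : (P : Subgroup G) ≤ M := fun x hx => by
    obtain ⟨k, hk⟩ := P.isPGroup' ⟨x, hx⟩
    have hxk : x ^ (p ^ k) = 1 := congrArg Subtype.val hk
    obtain ⟨j, -, hj⟩ := (Nat.dvd_prime_pow hp).1 (orderOf_dvd_of_pow_eq_one hxk)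
    exact (hpel x ⟨j, hj⟩).1
  have hMidx : ¬ p ∣ M.index := fun h =>
    P.not_dvd_index (h.trans (Subgroup.index_dvd_of_le hPM))
  set π := QuotientGroup.mk' N
  have hπ : Function.Surjective π := QuotientGroup.mk'_surjective N
  set V := M.map π with hVdef
  haveI hVn : V.Normal := hMn.map π hπ
  have hVcard : Nat.card V = p ^ a := by
    rw [hVdef, ← Subgroup.relIndex_ker, QuotientGroup.ker_mk', hMc]
  have hVne : V ≠ ⊥ := fun h => by
    rw [h, Subgroup.card_bot] at hVcard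
    exact (Nat.one_lt_pow ha.ne' hp.one_lt).ne hVcard
  have hVidx : ¬ p ∣ V.index := by
    rw [hVdef, Subgroup.index_map_eq M hπ (by rw [QuotientGroup.ker_mk']; exact hNM)]
    exact hMidx
  -- elements of `V` lift to `p`-elements
  have hlift : ∀ v ∈ V, ∃ x : G, π x = v ∧ x ^ p = 1 ∧ ∃ k : ℕ, orderOf x = p ^ k := by
    rintro _ ⟨y, hy, rfl⟩
    have hc : Nat.Coprime (p ^ a) (Nat.card N) := ((hp.coprime_iff_not_dvd).2 hNp).pow_left a
    have hyp : y ^ (p ^ a) ∈ N := by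
      have h1 := Subgroup.pow_index_mem (N.subgroupOf M) (⟨y, hy⟩ : M)
      rw [← Subgroup.relIndex, hMc] at h1
      exact h1
    have hp2 : 2 ≤ p ^ a := Nat.one_lt_pow ha.ne' hp.one_lt
    obtain ⟨j, -, hj⟩ := Nat.exists_mul_mod_eq_one_of_coprime hc.symm hp2
    set x := y ^ (Nat.card N * j) with hx
    have hxy : π x = π y := by
      have hord : orderOf (π y) ∣ p ^ a := orderOf_dvd_of_pow_eq_one (by
        rw [← map_pow]; exact (QuotientGroup.eq_one_iff _).2 hyp)
      rw [hx, map_pow, ← pow_mod_orderOf, ← Nat.mod_mod_of_dvd _ hord, hj, pow_mod_orderOf, pow_one]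
    have hxp : x ^ (p ^ a) = 1 := by
      rw [hx, ← pow_mul, show Nat.card N * j * p ^ a = p ^ a * Nat.card N * j by ring, pow_mul, pow_mul]
      have h2 : (y ^ p ^ a) ^ Nat.card N = 1 :=
        congrArg Subtype.val (pow_card_eq_one' (x := (⟨_, hyp⟩ : N)))
      rw [h2, one_pow]
    obtain ⟨k, -, hk⟩ := (Nat.dvd_prime_pow hp).1 (orderOf_dvd_of_pow_eq_one hxp)
    exact ⟨x, hxy, (hpel x ⟨k, hk⟩).2, k, hk⟩
  have hVexp : ∀ v ∈ V, v ^ p = 1 := fun v hv => by
    obtain ⟨x, rfl, hx, -⟩ := hlift v hv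
    rw [← map_pow, hx, map_one]
  have hVconj : ∀ v ∈ V, ∀ w ∈ V, v ≠ 1 → w ≠ 1 → ∃ g : G ⧸ N, g * v * g⁻¹ = w := by
    intro v hv w hw hv1 hw1
    obtain ⟨x, rfl, -, hx⟩ := hlift v hv
    obtain ⟨y, rfl, -, hy⟩ := hlift w hw
    obtain ⟨c, hc⟩ := isConj_iff.1 (hconj x y (fun h => hv1 (by rw [h, map_one]))
      (fun h => hw1 (by rw [h, map_one])) hx hy)
    exact ⟨π c, by rw [← hc, map_mul, map_mul, map_inv]⟩
  have hVab : ∀ u ∈ V, ∀ w ∈ V, u * w = w * u := by
    haveI : Nontrivial V := (Subgroup.nontrivial_iff_ne_bot V).2 hVne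
    haveI : Nontrivial (Subgroup.center V) := (IsPGroup.of_card hVcard).center_nontrivial
    obtain ⟨z, hz⟩ := exists_ne (1 : Subgroup.center V)
    intro u hu w hw
    by_cases hu1 : u = 1
    · simp [hu1]
    have hz1 : z.1.1 ≠ 1 := fun h => hz (Subtype.ext (Subtype.ext h))
    obtain ⟨c, hc⟩ := hVconj _ z.1.2 u hu hz1 hu1
    have hw' : c⁻¹ * w * c ∈ V := by simpa using hVn.conj_mem w hw c⁻¹
    have hzc : c⁻¹ * w * c * z.1.1 = z.1.1 * (c⁻¹ * w * c) :=
      congrArg Subtype.val (Subgroup.mem_center_iff.1 z.2 ⟨_, hw'⟩)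
    calc u * w = c * (z.1.1 * (c⁻¹ * w * c)) * c⁻¹ := by rw [← hc]; group
      _ = c * (c⁻¹ * w * c * z.1.1) * c⁻¹ := by rw [hzc]
      _ = w * u := by rw [← hc]; group
  obtain ⟨H, hH⟩ := Subgroup.exists_right_complement'_of_coprime (N := V)
    (hVcard ▸ ((hp.coprime_iff_not_dvd).2 hVidx).pow_left a)
  have hHp : ¬ p ∣ Nat.card H := by rwa [← hH.symm.index_eq_card]
  refine ⟨N, hNn, V, H, hNp, hVn, hH, hVne, hVexp, hVab, hHp, fun h hh hfix => ?_,
    fun v hv w hw hv1 hw1 => ?_⟩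
  · -- the part of the complement centralising `V`
    set K := H ⊓ Subgroup.centralizer (V : Set (G ⧸ N)) with hK
    have hKn : K.Normal := by
      refine ⟨fun k hk g => ?_⟩
      obtain ⟨⟨v, c⟩, hvc⟩ := hH.2 g
      have hvc' : v.1 * c.1 = g := hvc
      have hck : c.1 * k * c.1⁻¹ ∈ K := by
        refine ⟨H.mul_mem (H.mul_mem c.2 hk.1) (H.inv_mem c.2), Subgroup.mem_centralizer_iff.2 fun w hw => ?_⟩
        have hw' : c.1⁻¹ * w * c.1 ∈ V := by simpa using hVn.conj_mem w hw c.1⁻¹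
        have h1 := Subgroup.mem_centralizer_iff.1 hk.2 _ hw'
        calc w * (c.1 * k * c.1⁻¹) = c.1 * ((c.1⁻¹ * w * c.1) * k) * c.1⁻¹ := by group
          _ = c.1 * (k * (c.1⁻¹ * w * c.1)) * c.1⁻¹ := by rw [h1]
          _ = c.1 * k * c.1⁻¹ * w := by group
      have h2 : g * k * g⁻¹ = c.1 * k * c.1⁻¹ := by
        have h3 := Subgroup.mem_centralizer_iff.1 hck.2 v.1 v.2
        calc g * k * g⁻¹ = v.1 * (c.1 * k * c.1⁻¹) * v.1⁻¹ := by rw [← hvc']; group
          _ = c.1 * k * c.1⁻¹ := by rw [h3, mul_inv_cancel_right]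
      rw [h2]
      exact hck
    haveI := hKn
    have hKp : ¬ p ∣ Nat.card K := fun hd => hHp (hd.trans (Subgroup.card_dvd_of_le inf_le_left))
    have hT : K.comap π ≤ N := by
      refine hle _ inferInstance fun hd => ?_
      have h1 := (N.subgroupOf (K.comap π)).card_mul_index
      have hNle : N ≤ K.comap π := fun x hx => by
        rw [Subgroup.mem_comap, show π x = 1 from (QuotientGroup.eq_one_iff x).2 hx]
        exact one_mem K
      rw [Nat.card_congr (Subgroup.subgroupOfEquivOfLe hNle).toEquiv, ← Subgroup.relIndex] at h1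
      have h2 : N.relIndex (K.comap π) = Nat.card K := by
        have h3 : Nat.card ((K.comap π).map π) = N.relIndex (K.comap π) := by
          rw [← Subgroup.relIndex_ker, QuotientGroup.ker_mk']
        rw [← h3, Subgroup.map_comap_eq_self_of_surjective hπ]
      rw [← h1, h2] at hd
      rcases hp.dvd_mul.1 hd with h | h
      · exact hNp h
      · exact hKp h
    have hhK : h ∈ K := ⟨hh, Subgroup.mem_centralizer_iff.2 fun w hw =>
      (mul_inv_eq_iff_eq_mul.1 (hfix w hw)).symm⟩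
    obtain ⟨x, rfl⟩ := hπ h
    exact (QuotientGroup.eq_one_iff x).2 (hT hhK)
  · obtain ⟨g, hg⟩ := hVconj v hv w hw hv1 hw1
    obtain ⟨⟨u, c⟩, huc⟩ := hH.2 g
    refine ⟨c.1, c.2, ?_⟩
    have hmem : c.1 * v * c.1⁻¹ ∈ V := hVn.conj_mem v hv _
    have huc' : u.1 * c.1 = g := huc
    rw [← huc'] at hg
    rw [← hg, show u.1 * c.1 * v * (u.1 * c.1)⁻¹ = u.1 * (c.1 * v * c.1⁻¹) * u.1⁻¹ by group,
      hVab _ u.2 _ hmem, mul_inv_cancel_right]

/-- The affine group of the prime field. -/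
theorem equiv_affine (V H : Subgroup G) [hVn : V.Normal] (hcompl : V.IsComplement' H)
    (hV : Nat.card V = p) (hHc : Nat.card H = p - 1)
    (hsr : ∀ v ∈ V, ∀ h ∈ H, h * v = v * h → v = 1 ∨ h = 1) :
    Nonempty (G ≃* ↥(Cfsg.affineGroup (ZMod p))) := by
  classical
  have hp : p.Prime := Fact.out
  haveI : IsCyclic V := isCyclic_of_prime_card hV
  obtain ⟨a₀, ha₀⟩ := IsCyclic.exists_generator (α := V)
  have hord : orderOf a₀.1 = p := by
    rw [Subgroup.orderOf_coe, orderOf_eq_card_of_forall_mem_zpowers ha₀, hV]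
  let t : ZMod p → G := fun b => a₀.1 ^ b.val
  have hpow : ∀ k : ℕ, a₀.1 ^ k = t (k : ZMod p) := fun k => by
    simp only [t]
    rw [ZMod.val_natCast, ← hord, pow_mod_orderOf]
  have htV : ∀ v ∈ V, ∃ b, t b = v := fun v hv => by
    obtain ⟨k, hk⟩ := mem_powers_iff_mem_zpowers.2 (ha₀ ⟨v, hv⟩)
    exact ⟨k, (hpow k).symm.trans (congrArg Subtype.val hk)⟩
  have hadd : ∀ b c, t b * t c = t (b + c) := fun b c => by
    simp only [t]
    rw [← pow_add, hpow]
    simp only [t]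
    congr 2
    simp
  let ε : ZMod p → G ⧸ H := fun b => QuotientGroup.mk (t b)
  have hε : Function.Bijective ε := by
    refine ⟨fun b c hbc => ?_, fun q => ?_⟩
    · have h1 : (t b)⁻¹ * t c ∈ H := QuotientGroup.eq.1 hbc
      have h2 : (t b)⁻¹ * t c ∈ V := mul_mem (inv_mem (pow_mem a₀.2 _)) (pow_mem a₀.2 _)
      have h3 : t b = t c := inv_mul_eq_one.1 (Subgroup.mem_bot.1 (hcompl.disjoint.le_bot ⟨h2, h1⟩))
      exact ZMod.val_injective p (pow_injOn_Iio_orderOf (by rw [hord]; exact ZMod.val_lt b)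
        (by rw [hord]; exact ZMod.val_lt c) h3)
    · obtain ⟨g, rfl⟩ := QuotientGroup.mk_surjective q
      obtain ⟨⟨v, h⟩, hvh⟩ := hcompl.2 g
      have hvh' : v.1 * h.1 = g := hvh
      obtain ⟨b, hb⟩ := htV v.1 v.2
      refine ⟨b, QuotientGroup.eq.2 ?_⟩
      rw [hb, ← hvh', inv_mul_cancel_left]
      exact h.2
  let E := Equiv.ofBijective ε hε
  let f : G →* Equiv.Perm (ZMod p) :=
    { toFun := fun g => (E.trans (MulAction.toPerm g)).trans E.symm
      map_one' := by ext b; simp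
      map_mul' := fun g g' => by ext b; simp [mul_smul] }
  have hf : ∀ g b c, g • ε b = ε c → f g b = c := fun g b c h => by
    show E.symm (g • E b) = c
    rw [Equiv.symm_apply_eq]
    exact h
  have hval : ∀ g, ∃ (u : (ZMod p)ˣ) (d : ZMod p) (h : H) (v : V), v.1 * h.1 = g ∧ t d = v.1 ∧
      h.1 * t 1 * h.1⁻¹ = t (u : ZMod p) ∧ ∀ b, f g b = (u : ZMod p) * b + d := by
    intro g
    obtain ⟨⟨v, h⟩, hvh⟩ := hcompl.2 g
    have hvh' : v.1 * h.1 = g := hvh
    obtain ⟨d, hd⟩ := htV v.1 v.2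
    obtain ⟨w, hw⟩ := htV _ (hVn.conj_mem _ (pow_mem a₀.2 (1 : ZMod p).val) h.1)
    have hw' : h.1 * a₀.1 * h.1⁻¹ = t w := by
      rw [hw]; simp [t, ZMod.val_one]
    have hw0 : w ≠ 0 := fun h0 => by
      rw [h0] at hw'
      simp only [t, ZMod.val_zero, pow_zero] at hw'
      rw [conj_eq_one_iff.1 hw', orderOf_one] at hord
      exact hp.one_lt.ne hord
    refine ⟨Units.mk0 w hw0, d, h, v, hvh', hd, hw.symm, fun b => hf g b _ ?_⟩
    show g • (QuotientGroup.mk (t b) : G ⧸ H) = QuotientGroup.mk (t _)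
    rw [MulAction.Quotient.smul_mk, smul_eq_mul, ← hvh']
    refine (QuotientGroup.eq.2 ?_).symm
    have h1 : h.1 * t b * h.1⁻¹ = t (w * b) := by
      simp only [t]
      rw [← conj_pow, hw']
      simp only [t]
      rw [← pow_mul, hpow]
      simp [t]
    have h2 : t ((Units.mk0 w hw0 : (ZMod p)ˣ) * b + d) = v.1 * (h.1 * t b * h.1⁻¹) := by
      rw [h1, ← hd, hadd, Units.val_mk0, add_comm]
    rw [h2, show (v.1 * (h.1 * t b * h.1⁻¹))⁻¹ * (v.1 * h.1 * t b) = h.1 by group]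
    exact h.2
  have hinj : Function.Injective f := by
    rw [injective_iff_map_eq_one]
    intro g hg
    obtain ⟨u, d, h, v, hvh, hd, hu, hfg⟩ := hval g
    have h0 : (0 : ZMod p) = (u : ZMod p) * 0 + d := by
      rw [← hfg 0, hg]; rfl
    have h1 : (1 : ZMod p) = (u : ZMod p) * 1 + d := by
      rw [← hfg 1, hg]; rfl
    rw [mul_zero, zero_add] at h0
    rw [← h0, mul_one, add_zero] at h1
    have hv1 : v.1 = 1 := by rw [← hd, ← h0]; simp [t]
    rw [← h1] at hu
    rcases hsr _ (pow_mem a₀.2 (1 : ZMod p).val) h.1 h.2 (mul_inv_eq_iff_eq_mul.1 hu) with h' | h'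
    · exfalso
      simp only [t, ZMod.val_one, pow_one] at h'
      rw [h', orderOf_one] at hord
      exact hp.one_lt.ne hord
    · rw [← hvh, hv1, h', one_mul]
  have hrange : f.range = Cfsg.affineGroup (ZMod p) := by
    refine Subgroup.eq_of_le_of_card_ge ?_ ?_
    · rintro _ ⟨g, rfl⟩
      obtain ⟨u, d, -, -, -, -, -, hfg⟩ := hval g
      exact ⟨u, d, hfg⟩
    · rw [Nat.card_congr (MonoidHom.ofInjective hinj).toEquiv.symm, ← hcompl.card_mul, hV, hHc]
      calc Nat.card (Cfsg.affineGroup (ZMod p)) ≤ Nat.card (ZMod p × (ZMod p)ˣ) := by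
            choose A B hAB using fun σ : Cfsg.affineGroup (ZMod p) => σ.2
            refine Nat.card_le_card_of_injective (fun σ => (B σ, A σ)) fun σ τ h => ?_
            simp only [Prod.mk.injEq] at h
            refine Subtype.ext (Equiv.ext fun x => ?_)
            rw [hAB σ x, hAB τ x, h.1, h.2]
        _ = p * (p - 1) := by rw [Nat.card_prod, Nat.card_units, Nat.card_zmod]
  exact ⟨(MonoidHom.ofInjective hinj).trans (MulEquiv.subgroupCongr hrange)⟩

end Cfsg.Agent.H45.Trans
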